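/-
Fixed points of a coprime automorphism of odd prime order (Flavell): definitions and reductions.
-/
import Cfsg.Agent.H49.Frob
import Cfsg.Agent.H70.Conj
import Cfsg.Agent.H79.Duality

set_option autoImplicit false

namespace Cfsg.Agent.H84.Fl

open Cfsg Subgroup Cfsg.Agent.H49
open Cfsg.Agent.H70 (relCent le_relCent mem_relCent)
open scoped commutatorElement

variable {G : Type*} [Group G]

/-- the subgroup `[h, ⟨x⟩]` -/
def Kh (x h : G) : Subgroup G := closure {c | ∃ i : ℕ, c = h⁻¹ * (x ^ i * h * (x ^ i)⁻¹)}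

/-- the join of the fixed points of `x` in the subgroups `[h, ⟨x⟩]` -/
def Dx (x : G) (H : Subgroup G) : Subgroup G := ⨆ h : H, Kh x h ⊓ 𝒞(zpowers x)

variable {x h : G} {H Y N : Subgroup G}

theorem t_mem (x h : G) : h⁻¹ * (x * h * x⁻¹) ∈ Kh x h := subset_closure ⟨1, by rw [pow_one]⟩

theorem Kh_le (hx : zpowers x ≤ 𝒩(Y)) (ht : h⁻¹ * (x * h * x⁻¹) ∈ Y) : Kh x h ≤ Y := by
  refine (closure_le _).2 ?_
  rintro _ ⟨i, rfl⟩
  induction i with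
  | zero => simp
  | succ i ih =>
    have e : h⁻¹ * (x ^ (i + 1) * h * (x ^ (i + 1))⁻¹) =
        h⁻¹ * (x * h * x⁻¹) * (x * (h⁻¹ * (x ^ i * h * (x ^ i)⁻¹)) * x⁻¹) := by
      rw [pow_succ']; group
    exact e ▸ mul_mem ht (conj_mem_of_norm hx (mem_zpowers x) ih)

theorem Kh_le_of_mem (hx : zpowers x ≤ 𝒩(Y)) (hh : h ∈ Y) : Kh x h ≤ Y :=
  Kh_le hx (mul_mem (inv_mem hh) (conj_mem_of_norm hx (mem_zpowers x) hh))

theorem map_Kh {G' : Type*} [Group G'] (f : G →* G') (x h : G) :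
    (Kh x h).map f = Kh (f x) (f h) := by
  rw [Kh, MonoidHom.map_closure, Kh]
  congr 1
  ext c
  constructor
  · rintro ⟨_, ⟨i, rfl⟩, rfl⟩
    exact ⟨i, by simp⟩
  · rintro ⟨i, rfl⟩
    exact ⟨_, ⟨i, rfl⟩, by simp⟩

theorem norm_Kh [Finite G] (x h : G) : zpowers x ≤ 𝒩(Kh x h) := by
  refine zpowers_le.2 (mem_norm_of_cj_le ?_)
  rw [cj_def, map_le_iff_le_comap, Kh, closure_le]
  rintro _ ⟨i, rfl⟩
  have e : x * (h⁻¹ * (x ^ i * h * (x ^ i)⁻¹)) * x⁻¹ =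
      (h⁻¹ * (x * h * x⁻¹))⁻¹ * (h⁻¹ * (x ^ (i + 1) * h * (x ^ (i + 1))⁻¹)) := by
    rw [pow_succ']; group
  have : x * (h⁻¹ * (x ^ i * h * (x ^ i)⁻¹)) * x⁻¹ ∈ Kh x h :=
    e ▸ mul_mem (inv_mem (t_mem x h)) (subset_closure ⟨i + 1, rfl⟩)
  exact this

theorem comm_le_of_t [Finite G] (hx : zpowers x ≤ 𝒩(H))
    (ht : ∀ h ∈ H, h⁻¹ * (x * h * x⁻¹) ∈ Y) : ⁅H, zpowers x⁆ ≤ Y := by
  have key : ∀ i : ℕ, ∀ h ∈ H, h⁻¹ * (x ^ i * h * (x ^ i)⁻¹) ∈ Y := by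
    intro i
    induction i with
    | zero => simp
    | succ i ih =>
      intro h hh
      have e : h⁻¹ * (x ^ (i + 1) * h * (x ^ (i + 1))⁻¹) = h⁻¹ * (x ^ i * h * (x ^ i)⁻¹) *
          ((x ^ i * h * (x ^ i)⁻¹)⁻¹ * (x * (x ^ i * h * (x ^ i)⁻¹) * x⁻¹)) := by
        rw [pow_succ']; group
      exact e ▸ mul_mem (ih h hh) (ht _ (conj_mem_of_norm hx (pow_mem (mem_zpowers x) i) hh))
  refine commutator_le.2 fun g hg a ha => ?_
  obtain ⟨i, rfl⟩ := mem_powers_iff_mem_zpowers.2 ha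
  have := key i g⁻¹ (inv_mem hg)
  rwa [inv_inv, ← mul_assoc, ← mul_assoc] at this

theorem le_Dx (hh : h ∈ H) : Kh x h ⊓ 𝒞(zpowers x) ≤ Dx x H :=
  le_iSup (fun h : H => Kh x h ⊓ 𝒞(zpowers x)) ⟨h, hh⟩

theorem Dx_le_cent : Dx x H ≤ 𝒞(zpowers x) := iSup_le fun _ => inf_le_right

theorem Dx_le (hx : zpowers x ≤ 𝒩(H)) : Dx x H ≤ H :=
  iSup_le fun h => inf_le_left.trans (Kh_le_of_mem hx h.2)

theorem Dx_mono (hY : Y ≤ H) : Dx x Y ≤ Dx x H := iSup_le fun h => le_Dx (hY h.2)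

theorem norm_Dx [Finite G] : H ⊓ 𝒞(zpowers x) ≤ 𝒩(Dx x H) := by
  intro c hc
  refine mem_norm_of_cj_le ?_
  rw [cj_le_iff]
  refine iSup_le fun h => cj_le_iff.1 ?_
  have e : c * x * c⁻¹ = x := by rw [← hc.2 x (mem_zpowers x), mul_inv_cancel_right]
  have e2 : cj c (Kh x h) = Kh x (c * h * c⁻¹) := by
    rw [cj_def, map_Kh]
    exact congrArg (Kh · _) e
  rw [cj_inf, e2, cj_eq_of_mem hc.2]
  exact le_Dx (mul_mem (mul_mem hc.1 h.2) (inv_mem hc.1))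

theorem quo_Kh (x h : ↥𝒩(N)) : quo (Kh (x : G) h) N = Kh (coset N x) (coset N h) := by
  rw [quo_def, ← map_Kh]
  congr 1
  have := map_Kh (𝒩(N)).subtype x h
  exact (congrArg (comap (𝒩(N)).subtype) this).symm.trans
    (comap_map_eq_self_of_injective (subtype_injective _) _)

theorem norm_rc {L C : Subgroup G} (hC : L ≤ 𝒩(C)) (hN : L ≤ 𝒩(N)) :
    L ≤ 𝒩(relCent (C : Set G) N) := by
  refine le_norm_iff.2 fun g hg y hy => ⟨?_, fun c hc => ?_⟩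
  · exact mul_mem (mul_mem (hN hg) hy.1) (inv_mem (hN hg))
  · have := conj_mem_of_norm hN hg (hy.2 _ (conj_mem_of_norm' hC hg hc))
    have e : g * ⁅y, g⁻¹ * c * g⁆ * g⁻¹ = ⁅g * y * g⁻¹, c⁆ := by
      simp only [commutatorElement_def]; group
    exact e ▸ this

/-- a minimal `M`-invariant subgroup of the solvable group `L` not contained in `X` -/
theorem exists_chief [Finite G] {M L X : Subgroup G} (hs : Group.IsSolvable L) (hM : M ≤ 𝒩(L))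
    (hLM : L ≤ M) (h : ¬ L ≤ X) : ∃ Y, Y ≤ L ∧ M ≤ 𝒩(Y) ∧ ¬ Y ≤ X ∧
      (∀ N, N ≤ Y → M ≤ 𝒩(N) → N ≤ X ∨ N = Y) ∧ ⁅Y, Y⁆ ≤ X ∧
      ∃ s S, s.Prime ∧ IsSylowOf s S Y ∧ S ⊔ ⁅Y, Y⁆ = Y := by
  obtain ⟨Y, ⟨h1, h2, h3⟩, hmin⟩ :=
    (Set.toFinite {Y : Subgroup G | Y ≤ L ∧ M ≤ 𝒩(Y) ∧ ¬ Y ≤ X}).exists_minimal ⟨L, le_rfl, hM, h⟩
  have key : ∀ N, N ≤ Y → M ≤ 𝒩(N) → N ≤ X ∨ N = Y := fun N a b =>
    or_iff_not_imp_left.2 fun c => le_antisymm a (hmin ⟨a.trans h1, b, c⟩ a)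
  have h0 : Y ≠ ⊥ := fun e => h3 (e ▸ bot_le)
  have h4 : ⁅Y, Y⁆ ≤ X := (key _ der_le (norm_commutator h2 h2)).resolve_right
    (der_lt_of_solvable (solvable_of_le hs h1) h0).ne
  refine ⟨Y, h1, h2, h3, key, h4, ?_⟩
  obtain ⟨s, hs', hd⟩ := Nat.exists_prime_and_dvd (n := X.relIndex Y)
    fun e => h3 (relIndex_eq_one.1 e)
  obtain ⟨S, hS⟩ := exists_sylowOf s Y
  have h5 : ¬ S ≤ X := fun e => (hS.index_of_le e).not_dvd hs' rfl hd
  refine ⟨s, S, hs', hS, (key _ (sup_le hS.le der_le) ?_).resolve_left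
    fun e => h5 (le_sup_left.trans e)⟩
  intro g hg
  obtain ⟨y, hy, e⟩ := sylowOf_conj hS (hS.cj_of_mem_norm (h2 hg))
  have h6 : Y ≤ 𝒩(S ⊔ ⁅Y, Y⁆) := norm_of_der_le le_sup_right (sup_le hS.le der_le)
  refine mem_norm_of_cj_le ?_
  rw [cj_sup, ← e, cj_eq_of_mem_norm (norm_commutator h2 h2 hg)]
  exact sup_le (cj_le_of_mem_norm le_sup_left (h6 hy)) le_sup_right

/-- the configuration of a minimal counterexample -/
structure Cx (p : ℕ) (x : G) (H : Subgroup G) : Prop where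
  pp : p.Prime
  odd : p ≠ 2
  pow : x ^ p = 1
  solv : Group.IsSolvable H
  norm : zpowers x ≤ 𝒩(H)
  cop : (Nat.card H).Coprime p
  comm : ⁅H, zpowers x⁆ = H
  sub : ∀ K, K < H → zpowers x ≤ 𝒩(K) → ⁅K, zpowers x⁆ ⊓ 𝒞(zpowers x) ≤ Dx x H
  quo : ∀ N, N ≤ H → H ⊔ zpowers x ≤ 𝒩(N) → N ≠ ⊥ → H ⊓ 𝒞(zpowers x) ≤ Dx x H ⊔ N
  bad : ¬ H ⊓ 𝒞(zpowers x) ≤ Dx x H

namespace Cx

variable [Finite G] {p : ℕ} (c : Cx p x H)
include c

omit [Finite G] in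
theorem ne : H ≠ ⊥ := fun e => c.bad (inf_le_left.trans (e.le.trans bot_le))

omit [Finite G] in
theorem star (N : Subgroup G) (hN : N ≤ H) (hn : H ⊔ zpowers x ≤ 𝒩(N))
    (h : N ⊓ 𝒞(zpowers x) ≤ Dx x H) : N = ⊥ := by
  by_contra h0
  refine c.bad ((le_inf (c.quo N hN hn h0) inf_le_right).trans ?_)
  rw [modular_left (Or.inl ((Dx_le c.norm).trans (le_sup_left.trans hn))) Dx_le_cent]
  exact sup_le le_rfl h

theorem cop' {K : Subgroup G} (hK : K ≤ H) : (Nat.card (zpowers x)).Coprime (Nat.card K) := by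
  rw [Nat.card_zpowers]
  exact (c.cop.symm.of_dvd_left (orderOf_dvd_of_pow_eq_one c.pow)).of_dvd_right
    (card_dvd_of_le hK)

theorem solv' {K : Subgroup G} (hK : K ≤ H) :
    Group.IsSolvable (zpowers x) ∨ Group.IsSolvable K := Or.inr (solvable_of_le c.solv hK)

omit [Finite G] in
theorem nH : H ⊔ zpowers x ≤ 𝒩(H) := sup_le le_normalizer c.norm

omit [Finite G] in
theorem nZ : H ⊔ zpowers x ≤ 𝒩(H ⊓ 𝒞(H)) := norm_inf c.nH (norm_cent c.nH)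

theorem Z_le : H ⊓ 𝒞(H) ≤ 𝒞(zpowers x) := by
  have hn : zpowers x ≤ 𝒩(H ⊓ 𝒞(H)) := le_sup_right.trans c.nZ
  have h1 := coprime_abelian_dp (abelian_iff.2 (inf_le_right.trans (cent_anti inf_le_left))) hn
    (c.cop' inf_le_left)
  have h2 := commutator_le_left_of_norm hn
  refine commutator_eq_bot_iff.1 (c.star _ (h2.trans inf_le_left) (sup_le
    (norm_of_cent (cent_symm (h2.trans inf_le_right))) (le_norm_commutator_right _ _)) ?_)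
  exact (le_inf (le_inf (inf_le_left.trans h2) inf_le_right) inf_le_left).trans
    (h1.2.1.le.trans bot_le)

theorem D_inf_Z : Dx x H ⊓ (H ⊓ 𝒞(H)) = ⊥ :=
  c.star _ (inf_le_right.trans inf_le_left) (norm_of_cent (cent_symm (by
    rw [cent_sup]
    exact le_inf (inf_le_right.trans inf_le_right) (inf_le_left.trans Dx_le_cent))))
    (inf_le_left.trans inf_le_left)

theorem not_le_Z : ¬ H ≤ H ⊓ 𝒞(H) := fun e =>
  c.ne (c.comm.symm.trans (commutator_eq_bot_iff.2 (e.trans c.Z_le)))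

end Cx

end Cfsg.Agent.H84.Fl
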