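/-
Flavell's lemma on fixed points: the case of a noncentral minimal normal subgroup.
-/
import Cfsg.Agent.H84.Flav1

set_option autoImplicit false

namespace Cfsg.Agent.H84.Fl

open Cfsg Subgroup Cfsg.Agent.H49
open Cfsg.Agent.H70 (relCent le_relCent mem_relCent)
open scoped commutatorElement

variable {G : Type*} [Group G] [Finite G] {x : G} {H V : Subgroup G} {p : ℕ}

/-- the unique maximal invariant subgroup above `V` -/
theorem Cx.exists_Y (c : Cx p x H) (hVH : V ≤ H) (nV : H ⊔ zpowers x ≤ 𝒩(V)) (h0 : V ≠ ⊥)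
    (hab : V ≤ 𝒞(V)) : ∃ Y V₀ : Subgroup G, ¬ V ≤ V₀ ∧ ⁅Y, V⁆ ≤ V₀ ∧ V ≤ Y ∧
      H ⊓ 𝒞(zpowers x) ≤ Y ∧ zpowers x ≤ 𝒩(Y) ∧
      ∀ K, V ≤ K → K < H → zpowers x ≤ 𝒩(K) → K ≤ Y := by
  have nP : zpowers x ≤ 𝒩(V) := le_sup_right.trans nV
  have nH : H ≤ 𝒩(V) := le_sup_left.trans nV
  have dp := coprime_abelian_dp (abelian_iff.2 hab) nP (c.cop' hVH)
  have l1 : ⁅V, zpowers x⁆ ≤ V := commutator_le_left_of_norm nP
  have l0 : ⁅V, zpowers x⁆ ⊔ (Dx x H ⊓ V) ≤ V := sup_le l1 inf_le_right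
  have nV0 : V ≤ 𝒩(⁅V, zpowers x⁆ ⊔ (Dx x H ⊓ V)) := norm_of_cent (hab.trans (cent_anti l0))
  have nP0 : zpowers x ≤ 𝒩(⁅V, zpowers x⁆ ⊔ (Dx x H ⊓ V)) :=
    norm_sup (le_norm_commutator_right _ _) (norm_of_cent (cent_symm (inf_le_left.trans Dx_le_cent)))
  have mk : ∀ A : Subgroup G, A ≤ H → ⁅A, V⁆ ≤ ⁅V, zpowers x⁆ ⊔ (Dx x H ⊓ V) →
      A ≤ relCent (V : Set G) (⁅V, zpowers x⁆ ⊔ (Dx x H ⊓ V)) := fun A _ h =>
    le_relCent.2 ⟨H70.norm_of_between l0 (by rwa [commutator_comm]), h⟩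
  have hV : V ≤ relCent (V : Set G) (⁅V, zpowers x⁆ ⊔ (Dx x H ⊓ V)) :=
    mk V hVH ((commutator_eq_bot_iff.2 hab).le.trans bot_le)
  have hC : H ⊓ 𝒞(zpowers x) ≤ relCent (V : Set G) (⁅V, zpowers x⁆ ⊔ (Dx x H ⊓ V)) := by
    have hD : Dx x H ≤ H := Dx_le c.norm
    refine (c.quo V hVH nV h0).trans (sup_le (mk _ hD ?_) hV)
    refine (commutator_mono le_rfl dp.1.ge).trans (H70.comm_sup_le' (inf_le_left.trans nV0)
      (l1.trans nV0) (le_sup_of_le_right (le_inf ?_ ?_)) (le_sup_of_le_left ?_))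
    · exact commutator_le_left_of_norm ((inf_le_inf_right _ hVH).trans norm_Dx)
    · exact (commutator_mono le_rfl inf_le_left).trans (commutator_le_right_of_norm (hD.trans nH))
    · exact commutator_le_right_of_norm (norm_commutator (hD.trans nH) (norm_of_cent Dx_le_cent))
  refine ⟨relCent (V : Set G) (⁅V, zpowers x⁆ ⊔ (Dx x H ⊓ V)), _, fun h => h0 ?_,
    (le_relCent.1 le_rfl).2, hV, hC, norm_rc nP nP0, fun K hVK hK nK => ?_⟩
  · refine c.star V hVH nV ?_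
    have h1 := inf_le_inf_right (𝒞(zpowers x)) h
    rw [modular_right (Or.inl (l1.trans (norm_of_cent (hab.trans (cent_anti inf_le_right)))))
      (inf_le_left.trans Dx_le_cent)] at h1
    refine h1.trans (sup_le ?_ inf_le_left)
    exact (le_inf (le_inf (inf_le_left.trans l1) inf_le_right) inf_le_left).trans
      (dp.2.1.le.trans bot_le)
  · rw [← coprime_comm_sup_cent nK (c.cop' hK.le) (c.solv' hK.le)]
    refine sup_le (mk _ ((commutator_le_left_of_norm nK).trans hK.le) ?_)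
      ((inf_le_inf_right _ hK.le).trans hC)
    have nU : zpowers x ≤ 𝒩(V ⊓ ⁅K, zpowers x⁆) := norm_inf nP (le_norm_commutator_right _ _)
    have h1 := coprime_comm_sup_cent nU (c.cop' (inf_le_left.trans hVH))
      (c.solv' (inf_le_left.trans hVH))
    have h2 : ⁅⁅K, zpowers x⁆, V⁆ ≤ V ⊓ ⁅K, zpowers x⁆ := le_inf
      (commutator_le_right_of_norm ((commutator_le_left_of_norm nK).trans (hK.le.trans nH)))
      (commutator_le_left_of_norm (hVK.trans (le_norm_commutator_left _ _)))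
    refine h2.trans (h1.ge.trans (sup_le_sup (commutator_mono inf_le_left le_rfl) (le_inf ?_
      (inf_le_left.trans inf_le_left))))
    exact (inf_le_inf_right _ inf_le_right).trans (c.sub K hK nK)

/-- the case of a noncentral minimal normal subgroup -/
theorem Cx.caseA (c : Cx p x H) (hVH : V ≤ H) (nV : H ⊔ zpowers x ≤ 𝒩(V)) (h0 : V ≠ ⊥)
    (hmin : ∀ N, N ≤ V → H ⊔ zpowers x ≤ 𝒩(N) → N = ⊥ ∨ N = V) (hab : V ≤ 𝒞(V))
    (hZ : V ⊓ 𝒞(H) = ⊥) {q : ℕ} (hq : IsPi {q} V) : False := by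
  have nP : zpowers x ≤ 𝒩(V) := le_sup_right.trans nV
  have nH : H ≤ 𝒩(V) := le_sup_left.trans nV
  obtain ⟨Y, V₀, y0, y1, y2, y3, y4, y5⟩ := c.exists_Y hVH nV h0 hab
  have hHY : ¬ H ≤ Y := fun e => by
    rcases hmin ⁅H, V⁆ (commutator_le_right_of_norm nH) (norm_commutator c.nH nV) with h | h
    · exact h0 (le_bot_iff.1 ((le_inf le_rfl (cent_symm (commutator_eq_bot_iff.1 h))).trans hZ.le))
    · exact y0 (h.ge.trans ((commutator_mono e le_rfl).trans y1))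
  have y6 : ∀ K, K ≤ H → zpowers x ≤ 𝒩(K) → ¬ K ≤ Y → V ⊔ K = H := fun K h1 h2 h3 =>
    by_contra fun e => h3 (le_sup_right.trans
      (y5 _ le_sup_left (lt_of_le_of_ne (sup_le hVH h1) e) (norm_sup nP h2)))
  obtain ⟨r, hr, hd⟩ := Nat.exists_prime_and_dvd (n := Y.relIndex H)
    fun e => hHY (relIndex_eq_one.1 e)
  obtain ⟨R, hR, nR⟩ := coprime_hall_exists c.norm (c.cop' le_rfl)
    (Group.isSolvable_of_comm fun a b => mul_comm' a b) c.solv {r}
  have hRY : ¬ R ≤ Y := fun e => (hR.index_of_le e).not_dvd hr rfl hd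
  have hVR := y6 R hR.le nR hRY
  have hrq : r ≠ q := by
    rintro rfl
    have h1 : IsPi {r} H := hVR ▸ hq.sup hR.pi (Or.inr (hR.le.trans nH))
    exact inf_center_ne_bot_of_nilpotent h1.nilpotent hVH nH h0 hZ
  have hq' : IsPi {r}ᶜ V := hq.compl_singleton_of_ne hrq.symm
  have hVR0 : V ⊓ R = ⊥ := hq'.inf_eq_bot' hR.pi
  obtain ⟨h, hh, ht⟩ : ∃ h ∈ R, h⁻¹ * (x * h * x⁻¹) ∉ Y := by
    by_contra! e
    refine hRY ((coprime_comm_sup_cent nR (c.cop' hR.le) (c.solv' hR.le)).ge.trans ?_)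
    exact sup_le (comm_le_of_t nR e) ((inf_le_inf_right _ hR.le).trans y3)
  have xm := mem_zpowers x
  have hK : ∀ v ∈ V, IsPiHallOf {r} (Kh x (h * v)) H := by
    intro v hv
    have k1 : Kh x (h * v) ≤ H := Kh_le_of_mem c.norm (mul_mem (hR.le hh) (hVH hv))
    have k2 := y6 _ k1 (norm_Kh _ _) fun e => ht (by
      have := mul_mem (mul_mem (y2 hv) (e (t_mem x (h * v))))
        (inv_mem (y2 (conj_mem_of_norm nP xm hv)))
      have e2 : v * ((h * v)⁻¹ * (x * (h * v) * x⁻¹)) * (x * v * x⁻¹)⁻¹ =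
        h⁻¹ * (x * h * x⁻¹) := by group
      exact e2 ▸ this)
    have k3 : V ⊓ Kh x (h * v) = ⊥ := by
      refine (hmin _ inf_le_left (sup_le (k2.ge.trans (sup_le ?_ ?_))
        (norm_inf nP (norm_Kh _ _)))).resolve_right fun e => h0 (c.star V hVH nV ?_)
      · exact norm_of_cent (hab.trans (cent_anti inf_le_left))
      · exact norm_inf (k1.trans nH) le_normalizer
      · exact (inf_le_inf_right _ (e.ge.trans inf_le_right)).trans
          (le_Dx (mul_mem (hR.le hh) (hVH hv)))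
    have k4 := card_sup_of_disjoint (Or.inr (k1.trans nH)) k3
    rw [k2, ← hVR, card_sup_of_disjoint (Or.inr (hR.le.trans nH)) hVR0] at k4
    have k5 := Nat.eq_of_mul_eq_mul_left (card_pos' V) k4
    exact hR.of_card_le k1 (by rw [IsPi, ← k5]; exact hR.pi) k5.le
  have hKR : Kh x h = R := by
    have := hK 1 (one_mem V)
    rw [mul_one] at this
    exact this.eq_of_le (Kh_le_of_mem nR hh) hR.le hR.pi
  have nY1 : R ≤ 𝒩(R ⊓ Y) := by
    have h1 := lt_inf_norm_of_nilpotent hR.pi.nilpotent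
      (lt_of_le_of_ne (inf_le_left : R ⊓ Y ≤ R) fun e => hRY (e.ge.trans inf_le_right))
    have h2 := y6 (R ⊓ 𝒩(R ⊓ Y)) (inf_le_left.trans hR.le)
      (norm_inf nR (norm_norm (norm_inf nR y4))) fun e => h1.not_ge (le_inf inf_le_left e)
    have h3 : R ≤ (V ⊔ R ⊓ 𝒩(R ⊓ Y)) ⊓ R := le_inf (hR.le.trans h2.ge) le_rfl
    rw [modular_right (Or.inr (inf_le_left.trans (hR.le.trans nH))) inf_le_left, hVR0,
      bot_sup_eq] at h3
    exact h3.trans inf_le_right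
  have hY1 : ⁅R ⊓ Y, V⁆ = ⊥ := by
    have l := commutator_le_right_of_norm ((inf_le_left : R ⊓ Y ≤ R).trans (hR.le.trans nH))
    refine (hmin _ l (sup_le (hVR.ge.trans (sup_le (le_norm_commutator_right _ _)
      (norm_commutator nY1 (hR.le.trans nH)))) (norm_commutator (norm_inf nR y4) nP))).resolve_right
      fun e => y0 (e.ge.trans ((commutator_mono inf_le_right le_rfl).trans y1))
  have hY2 : R ⊓ Y = ⊥ := c.star _ (inf_le_left.trans hR.le) (sup_le (hVR.ge.trans (sup_le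
    (norm_of_cent (cent_symm (commutator_eq_bot_iff.1 hY1))) nY1)) (norm_inf nR y4))
    ((inf_le_inf_right _ (inf_le_left.trans hKR.ge)).trans (le_Dx (hR.le hh)))
  have hRC : R ⊓ 𝒞(zpowers x) = ⊥ := le_bot_iff.1
    ((le_inf inf_le_left ((inf_le_inf_right _ hR.le).trans y3)).trans hY2.le)
  have hVC : V ⊓ 𝒞(R) = ⊥ := le_bot_iff.1 (le_trans (le_inf inf_le_left (by
    rw [← hVR, cent_sup]; exact inf_le_inf_right _ hab)) hZ.le)
  have hxp : Nat.card (zpowers x) = p := by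
    have := Fact.mk c.pp
    rw [Nat.card_zpowers]
    refine orderOf_eq_prime c.pow fun e => c.ne ?_
    rw [← c.comm, e, zpowers_one_eq_bot, commutator_bot_right]
  have h1 := frob_card_of_cent_eq_bot nR (semiregular_of_prime_card (hxp ▸ c.pp) hRC)
    (sup_le (hR.le.trans nH) nP) (solvable_of_le c.solv hVH)
    (coprime_sup_right (Or.inr nR) (hq'.coprime' hR.pi) (c.cop' hVH).symm) hVC
  have h2 : IsProd (V ⊓ cj h⁻¹ 𝒞(zpowers x)) (V ⊓ 𝒞(zpowers x)) V := by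
    refine ⟨inf_le_left, inf_le_left, fun v hv => ?_⟩
    obtain ⟨g, hg, e⟩ := coprime_hall_trans c.norm (c.cop' le_rfl) c.solv hR (hK v hv) nR
      (norm_Kh _ _)
    obtain ⟨w, hw, s, hs, rfl⟩ := (coprime_isProd_cent (c.cop' le_rfl) (c.solv' le_rfl)
      (hVR ▸ isProd_sup_of_norm_left (hR.le.trans nH)) nP nR).2.2 g hg
    rw [cj_mul, cj_eq_of_mem hs.1] at e
    obtain ⟨t', ht', e1⟩ := mem_cj'.1 (e.ge (t_mem x (h * v)))
    have ht0 : h⁻¹ * (x * h * x⁻¹) ∈ R := hKR.le (t_mem x h)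
    have wx : w * x = x * w := (hw.2 x xm).symm
    have e2 : h⁻¹ * (x * h * x⁻¹) = t' := by
      have m1 : (h⁻¹ * (x * h * x⁻¹)) * t'⁻¹ ∈ V := by
        have e3 : (h⁻¹ * (x * h * x⁻¹)) * t'⁻¹ =
            v * w * (t' * (w⁻¹ * (x * v * x⁻¹)⁻¹) * t'⁻¹) := by
          calc (h⁻¹ * (x * h * x⁻¹)) * t'⁻¹ =
              v * ((h * v)⁻¹ * (x * (h * v) * x⁻¹)) * (x * v * x⁻¹)⁻¹ * t'⁻¹ := by group
            _ = _ := by rw [e1]; group
        rw [e3]
        exact mul_mem (mul_mem hv hw.1) (conj_mem_of_norm nH (hR.le ht')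
          (mul_mem (inv_mem hw.1) (inv_mem (conj_mem_of_norm nP xm hv))))
      exact mul_inv_eq_one.1 (mem_bot.1 (hVR0.le (mem_inf.2 ⟨m1, mul_mem ht0 (inv_mem ht')⟩)))
    refine ⟨v * w, ⟨mul_mem hv hw.1, ?_⟩, w⁻¹, (V ⊓ 𝒞(zpowers x)).inv_mem hw, by group⟩
    rw [cent_zpowers, cj_cent1]
    refine mem_cent1.2 ?_
    rw [← e2] at e1
    calc v * w * (h⁻¹ * x * h⁻¹⁻¹) = v * (w * (h⁻¹ * (x * h * x⁻¹)) * w⁻¹) * (w * x) := by
          group
      _ = h⁻¹ * x * h⁻¹⁻¹ * (v * w) := by rw [← e1, wx]; group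
  have h3 := h2.card_mul
  have h4 : Nat.card ↥(V ⊓ cj h⁻¹ 𝒞(zpowers x)) = Nat.card ↥(V ⊓ 𝒞(zpowers x)) := by
    conv_lhs => rw [← cj_eq_of_mem_norm (nH (hR.le (inv_mem hh))), ← cj_inf]
    exact card_map_of_injective (MulAut.conj _).injective
  have h5 : 1 < Nat.card ↥(V ⊓ 𝒞(zpowers x)) := (one_lt_card_iff_ne_bot _).2 fun e =>
    h0 (c.star V hVH nV (e.le.trans bot_le))
  rw [h4, ← pow_two] at h3
  have h6 := Nat.le_of_dvd (pow_pos (by omega) 2) (Dvd.intro _ h3)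
  rw [h1, hxp] at h6
  have h7 := (Nat.pow_le_pow_iff_right h5).1 h6
  have := c.pp.two_le
  exact c.odd (by omega)

end Cfsg.Agent.H84.Fl
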