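/-
Flavell's lemma on fixed points: the central case and the induction.
-/
import Cfsg.Agent.H84.Flav2

set_option autoImplicit false

namespace Cfsg.Agent.H84.Fl

open Cfsg Subgroup Cfsg.Agent.H49
open Cfsg.Agent.H70 (relCent le_relCent mem_relCent)
open scoped commutatorElement

universe u

section

variable {G : Type*} [Group G] [Finite G] {x : G} {H B : Subgroup G} {p : ℕ}

theorem Cx.comm_le (c : Cx p x H) (hBH : B ≤ H) (nB : H ⊔ zpowers x ≤ 𝒩(B))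
    (hmin : ∀ N, N ≤ B → H ⊔ zpowers x ≤ 𝒩(N) → N ≤ H ⊓ 𝒞(H) ∨ N = B) (hBZ : ¬ B ≤ H ⊓ 𝒞(H))
    (hBB : ⁅B, B⁆ ≤ H ⊓ 𝒞(H)) {q : ℕ} (hq : IsPi {q} B) (hne : B ⊓ 𝒞(H) ≠ ⊥) :
    ⁅H, B⁆ ≤ H ⊓ 𝒞(H) := by
  have nH : H ≤ 𝒩(B) := le_sup_left.trans nB
  have nP : zpowers x ≤ 𝒩(B) := le_sup_right.trans nB
  have nZ : H ≤ 𝒩(H ⊓ 𝒞(H)) := le_sup_left.trans c.nZ
  have mk : ∀ A : Subgroup G, A ≤ H → ⁅A, B⁆ ≤ H ⊓ 𝒞(H) →
      A ≤ H ⊓ relCent (B : Set G) (H ⊓ 𝒞(H)) := fun A h1 h2 =>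
    le_inf h1 (le_relCent.2 ⟨h1.trans nZ, h2⟩)
  have nX : H ⊔ zpowers x ≤ 𝒩(H ⊓ relCent (B : Set G) (H ⊓ 𝒞(H))) :=
    norm_inf c.nH (norm_rc nB c.nZ)
  have hXB : ⁅H ⊓ relCent (B : Set G) (H ⊓ 𝒞(H)), B⁆ ≤ H ⊓ 𝒞(H) := (le_relCent.1 inf_le_right).2
  have hXH : H ⊓ relCent (B : Set G) (H ⊓ 𝒞(H)) ≤ H := inf_le_left
  have hBX := mk B hBH hBB
  generalize H ⊓ relCent (B : Set G) (H ⊓ 𝒞(H)) = X at mk nX hXB hXH hBX
  by_contra hcon
  have hHX : ¬ H ≤ X := fun e => hcon ((commutator_mono e le_rfl).trans hXB)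
  have h1 : ¬ B ≤ 𝒞(X) := fun e => by
    obtain ⟨Y, y1, y2, y3, -, y5, s, S, hs, hS, y6⟩ := exists_chief c.solv c.nH le_sup_left hHX
    have nS : S ≤ 𝒩(B) := hS.le.trans (y1.trans nH)
    have e1 : ⁅Y, B⁆ = B := (hmin _ (commutator_le_right_of_norm (y1.trans nH))
      (norm_commutator y2 nB)).resolve_left fun h => y3 (mk Y y1 h)
    have e2 : B ≤ ⁅B, S⁆ := by
      refine e1.ge.trans ((commutator_mono y6.ge le_rfl).trans (H70.comm_sup_le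
        (le_norm_commutator_right _ _) (norm_of_cent (y5.trans ((cent_symm e).trans
          (cent_anti (commutator_le_left_of_norm nS))))) (commutator_comm _ _).le ?_))
      exact (commutator_eq_bot_iff.2 (y5.trans (cent_symm e))).le.trans bot_le
    by_cases hsq : s = q
    · subst hsq
      exact (commutator_lt_of_nilpotent (hq.sup hS.pi (Or.inr nS)).nilpotent le_sup_left
        (sup_le le_normalizer nS) (ne_bot_mono inf_le_left hne)).not_ge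
        (e2.trans (commutator_mono le_rfl le_sup_right))
    · have dp := coprime_abelian_dp (abelian_iff.2 (e.trans (cent_anti hBX))) nS
        (hS.pi.coprime (hq.compl_singleton_of_ne (Ne.symm hsq)))
      exact hne (le_bot_iff.1 (le_trans (le_inf (inf_le_inf_left _ (cent_anti (hS.le.trans y1)))
        (inf_le_left.trans e2)) dp.2.1.le))
  have h2 : B ⊓ 𝒞(X) ≤ H ⊓ 𝒞(H) := (hmin _ inf_le_left (norm_inf nB (norm_cent nX))).resolve_right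
    fun e => h1 (e.ge.trans inf_le_right)
  have l1 : ⁅B, zpowers x⁆ ≤ B := commutator_le_left_of_norm nP
  have h3 : ⁅⁅B, zpowers x⁆, X⁆ ≤ H ⊓ 𝒞(H) :=
    (commutator_mono l1 le_rfl).trans ((commutator_comm _ _).le.trans hXB)
  have h4 : ⁅⁅B, zpowers x⁆, X⁆ ≤ ⁅X, zpowers x⁆ :=
    (commutator_mono (commutator_mono hBX le_rfl) le_rfl).trans
      (commutator_le_left_of_norm (le_norm_commutator_left _ _))
  have h5 : ⁅⁅B, zpowers x⁆, X⁆ = ⊥ := le_bot_iff.1 (le_trans (le_inf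
    ((le_inf h4 (h3.trans c.Z_le)).trans (c.sub X (lt_of_le_of_ne hXH fun e => hHX e.ge)
      (le_sup_right.trans nX))) h3) c.D_inf_Z.le)
  have h6 : ⁅B, zpowers x⁆ ≤ H ⊓ 𝒞(H) := (le_inf l1 (commutator_eq_bot_iff.1 h5)).trans h2
  have h7 := H70.three_subgroups (A := H) (B := zpowers x) (C := B) (N := H ⊓ 𝒞(H)) nZ
    (le_sup_right.trans c.nZ) (hBH.trans nZ)
    (by
      rw [commutator_comm (zpowers x), commutator_eq_bot_iff.2 (h6.trans inf_le_right)]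
      exact bot_le)
    ((commutator_mono (commutator_le_left_of_norm nH) le_rfl).trans h6)
  rw [c.comm] at h7
  exact hcon h7

theorem Cx.eq_one (c : Cx p x H) {h h' y z : G} (hh : h ∈ H) (hh' : h' ∈ H) (hy : y ∈ Kh x h)
    (hz : z ∈ H ⊓ 𝒞(H)) (hyz : y * z ∈ Kh x h') : z = 1 := by
  have l : Kh x h ≤ H := Kh_le_of_mem c.norm hh
  have l' : Kh x h' ≤ H := Kh_le_of_mem c.norm hh'
  have z1 : zpowers z ≤ 𝒞(zpowers x) := zpowers_le.2 (c.Z_le hz)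
  have nE : zpowers x ≤ 𝒩(Kh x h ⊓ (Kh x h' ⊔ zpowers z)) :=
    norm_inf (norm_Kh _ _) (norm_sup (norm_Kh _ _) (norm_of_cent (cent_symm z1)))
  have hE : ⁅Kh x h ⊓ (Kh x h' ⊔ zpowers z), zpowers x⁆ ≤ Kh x h' :=
    (commutator_mono inf_le_right le_rfl).trans (H70.comm_sup_le le_normalizer
      (norm_of_cent ((zpowers_le.2 hz.2).trans (cent_anti l')))
      (commutator_le_left_of_norm (norm_Kh _ _))
      ((commutator_eq_bot_iff.2 z1).le.trans bot_le))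
  obtain ⟨e, he, k, hk, rfl⟩ := (coprime_isProd_comm_cent nE (c.cop' (inf_le_left.trans l))
    (c.solv' (inf_le_left.trans l))).2.2 y (mem_inf.2 ⟨hy, by
      have := mul_mem (mem_sup_left (T := zpowers z) hyz) (mem_sup_right (inv_mem (mem_zpowers z)))
      rwa [mul_inv_cancel_right] at this⟩)
  have h1 : k ∈ Dx x H := le_Dx hh ⟨hk.1.1, hk.2⟩
  have h2 : k * z ∈ Dx x H := le_Dx hh' (mem_inf.2 ⟨by
    have := mul_mem (inv_mem (hE he)) hyz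
    rwa [mul_assoc, inv_mul_cancel_left] at this, mul_mem hk.2 (c.Z_le hz)⟩)
  refine mem_bot.1 (c.D_inf_Z.le (mem_inf.2 ⟨?_, hz⟩))
  have := mul_mem (inv_mem h1) h2
  rwa [inv_mul_cancel_left] at this

theorem Cx.mem_Z (c : Cx p x H) (hBH : B ≤ H) (hHB : ⁅H, B⁆ ≤ H ⊓ 𝒞(H)) {a : G} (ha : a ∈ B)
    {y : G} (hy : y = x ∨ y = x⁻¹ * x⁻¹) (h : ⁅y, a⁆ ∈ H ⊓ 𝒞(H)) : a ∈ H ⊓ 𝒞(H) := by
  have nP : zpowers x ≤ 𝒩(H ⊓ 𝒞(H)) := le_sup_right.trans c.nZ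
  have h1 : y ∈ relCent {a} (H ⊓ 𝒞(H)) := ⟨nP (by
    rcases hy with rfl | rfl
    · exact mem_zpowers _
    · exact mul_mem (inv_mem (mem_zpowers x)) (inv_mem (mem_zpowers x))), by
      rintro _ rfl; exact h⟩
  have h2 : x ∈ relCent {a} (H ⊓ 𝒞(H)) := by
    rcases hy with rfl | rfl
    · exact h1
    · refine H70.mem_of_pow_mem_coprime ((Nat.coprime_primes Nat.prime_two c.pp).2 c.odd.symm)
        ?_ (by rw [c.pow]; exact one_mem _)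
      have := inv_mem h1
      rwa [mul_inv_rev, inv_inv, ← pow_two] at this
  have h3 : a ∈ B ⊓ relCent (zpowers x : Set G) (H ⊓ 𝒞(H)) :=
    ⟨ha, (le_sup_left.trans c.nZ) (hBH ha), fun g hg => by
      rw [← commutatorElement_inv]
      exact inv_mem ((zpowers_le.2 h2 hg).2 a rfl)⟩
  have h4 : ⁅B ⊓ relCent (zpowers x : Set G) (H ⊓ 𝒞(H)), zpowers x⁆ ≤ H ⊓ 𝒞(H) :=
    (le_relCent.1 inf_le_right).2
  have h5 : ⁅⁅H, zpowers x⁆, B ⊓ relCent (zpowers x : Set G) (H ⊓ 𝒞(H))⁆ = ⊥ :=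
    commutator_commutator_eq_bot_of_rotate
      (commutator_eq_bot_iff.2 ((commutator_comm _ _).le.trans (h4.trans inf_le_right)))
      (commutator_eq_bot_iff.2 ((commutator_comm _ _).le.trans
        ((commutator_mono le_rfl inf_le_left).trans (hHB.trans c.Z_le))))
  rw [c.comm] at h5
  exact ⟨hBH ha, cent_symm (commutator_eq_bot_iff.1 h5) h3⟩

theorem Cx.caseB (c : Cx p x H) (hBH : B ≤ H) (nP : zpowers x ≤ 𝒩(B))
    (hHB : ⁅H, B⁆ ≤ H ⊓ 𝒞(H)) : B ≤ H ⊓ 𝒞(H) := by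
  have xm := mem_zpowers x
  have hz : ∀ z ∈ H ⊓ 𝒞(H), ∀ g ∈ H, g * z = z * g := fun z hz g hg => hz.2 g hg
  have hzx : ∀ z ∈ H ⊓ 𝒞(H), x * z = z * x := fun z hz => c.Z_le hz x xm
  have c1 : ∀ g ∈ H, ∀ b ∈ B, ⁅g, b⁆ ∈ H ⊓ 𝒞(H) := fun g hg b hb =>
    hHB (commutator_mem_commutator hg hb)
  have c2 : ∀ b ∈ B, ∀ g ∈ H, ⁅b, g⁆ ∈ H ⊓ 𝒞(H) := fun b hb g hg => by
    rw [← commutatorElement_inv]; exact inv_mem (c1 g hg b hb)
  have cz : ∀ z ∈ H ⊓ 𝒞(H), ∀ a ∈ H, ∀ w ∈ H, ⁅a * z, w * z⁆ = ⁅a, w⁆ := by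
    intro z hz' a ha w hw
    have e1 := hz z hz' w hw
    have e2 := hz z hz' _ (inv_mem ha)
    calc ⁅a * z, w * z⁆ = a * (z * w) * (a⁻¹ * z⁻¹) * w⁻¹ := by
          rw [commutatorElement_def]; group
      _ = a * w * (z * a⁻¹) * z⁻¹ * w⁻¹ := by rw [← e1]; group
      _ = _ := by rw [← e2, commutatorElement_def]; group
  intro b hb
  have hβ : b⁻¹ * (x * b * x⁻¹) ∈ B := mul_mem (inv_mem hb) (conj_mem_of_norm nP xm hb)
  have key : ∀ h ∈ H, ∀ u β, u = h⁻¹ * (x * h * x⁻¹) → β = b⁻¹ * (x * b * x⁻¹) →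
      ⁅β, x * u * x⁻¹⁆ * ⁅β, x * β * x⁻¹⁆ * ⁅u, x * β * x⁻¹⁆ = 1 := by
    intro h hh u β hu eβ
    rw [← eβ] at hβ
    have uK : u ∈ Kh x h := hu ▸ t_mem x h
    have uH : u ∈ H := Kh_le_of_mem c.norm hh uK
    have wH : x * u * x⁻¹ ∈ H := conj_mem_of_norm c.norm xm uH
    have hγ : x * β * x⁻¹ ∈ B := conj_mem_of_norm nP xm hβ
    have z0 := c1 _ (inv_mem uH) _ (inv_mem hb)
    have e1 : (h * b)⁻¹ * (x * (h * b) * x⁻¹) = u * β * ⁅u⁻¹, b⁻¹⁆ := by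
      rw [mul_assoc u, hz _ z0 _ (hBH hβ), commutatorElement_def, hu, eβ]; group
    have m1 := t_mem x (h * b)
    have m2 := conj_mem_of_norm (norm_Kh x (h * b)) xm m1
    have m3 := commutator_le_self _ (commutator_mem_commutator m1 m2)
    have e2 : x * (u * β * ⁅u⁻¹, b⁻¹⁆) * x⁻¹ = x * u * x⁻¹ * (x * β * x⁻¹) * ⁅u⁻¹, b⁻¹⁆ := by
      calc x * (u * β * ⁅u⁻¹, b⁻¹⁆) * x⁻¹ =
            x * u * x⁻¹ * (x * β * x⁻¹) * (x * ⁅u⁻¹, b⁻¹⁆) * x⁻¹ := by group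
        _ = _ := by rw [hzx _ z0]; group
    rw [e1, e2, cz _ z0 _ (mul_mem uH (hBH hβ)) _ (mul_mem wH (hBH hγ)),
      H79.commutator_mul_left_of_central (hz _ (c2 _ hβ _ (mul_mem wH (hBH hγ))) _ uH),
      H79.commutator_mul_right_of_central (hz _ (c2 _ hβ _ (hBH hγ)) _ wH),
      H79.commutator_mul_right_of_central (hz _ (c1 _ uH _ hγ) _ wH)] at m3
    have m4 : ⁅u, x * u * x⁻¹⁆ ∈ Kh x h := commutator_le_self _
      (commutator_mem_commutator uK (conj_mem_of_norm (norm_Kh x h) xm uK))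
    have z1 := mul_mem (c2 _ hβ _ wH) (c2 _ hβ _ (hBH hγ))
    rw [← mul_assoc, ← hz _ z1 _ (Kh_le_of_mem c.norm hh m4), mul_assoc] at m3
    exact c.eq_one hh (mul_mem hh (hBH hb)) m4 (mul_mem z1 (c1 _ uH _ hγ)) m3
  have k1 := key 1 (one_mem H) 1 _ (by group) rfl
  simp only [mul_one, mul_inv_cancel, commutatorElement_one_right, commutatorElement_one_left,
    one_mul] at k1
  have k2 : ⁅H, zpowers x⁆ ≤ 𝒞[(x * (b⁻¹ * (x * b * x⁻¹)) * x⁻¹)⁻¹ *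
      (x⁻¹ * (b⁻¹ * (x * b * x⁻¹)) * x)] := by
    refine comm_le_of_t c.norm fun h hh => mem_cent1.2 ?_
    have k3 := key h hh _ _ rfl rfl
    have uH : h⁻¹ * (x * h * x⁻¹) ∈ H := Kh_le_of_mem c.norm hh (t_mem x h)
    rw [k1, mul_one] at k3
    generalize h⁻¹ * (x * h * x⁻¹) = u at k3 uH
    generalize b⁻¹ * (x * b * x⁻¹) = β at k3 hβ
    have k4 := hzx _ (c2 _ hβ _ (conj_mem_of_norm c.norm xm uH))
    have k5 : ⁅β, x * u * x⁻¹⁆ = ⁅x⁻¹ * β * x, u⁆ := by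
      calc ⁅β, x * u * x⁻¹⁆ = x⁻¹ * (x * ⁅β, x * u * x⁻¹⁆) := by group
        _ = _ := by rw [k4, commutatorElement_def, commutatorElement_def]; group
    rw [k5] at k3
    generalize x⁻¹ * β * x = a at k3
    generalize x * β * x⁻¹ = a' at k3
    calc u * (a'⁻¹ * a) = a'⁻¹ * ⁅u, a'⁆⁻¹ * u * a := by rw [commutatorElement_def]; group
      _ = a'⁻¹ * ⁅a, u⁆ * u * a := by rw [eq_inv_of_mul_eq_one_left k3]
      _ = _ := by rw [commutatorElement_def]; group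
  rw [c.comm] at k2
  have k3 : b⁻¹ * (x * b * x⁻¹) ∈ H ⊓ 𝒞(H) := by
    generalize b⁻¹ * (x * b * x⁻¹) = β at k2 hβ
    have m1 : (x * β * x⁻¹)⁻¹ * (x⁻¹ * β * x) ∈ H ⊓ 𝒞(H) :=
      ⟨hBH (mul_mem (inv_mem (conj_mem_of_norm nP xm hβ)) (conj_mem_of_norm' nP xm hβ)),
        le_cent1_iff.1 k2⟩
    have m2 := conj_mem_of_norm' (le_sup_right.trans c.nZ) xm m1
    refine inv_mem_iff.1 (c.mem_Z hBH hHB (inv_mem hβ) (Or.inr rfl) ?_)
    have e : ⁅x⁻¹ * x⁻¹, β⁻¹⁆ = (x⁻¹ * ((x * β * x⁻¹)⁻¹ * (x⁻¹ * β * x)) * x)⁻¹ := by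
      rw [commutatorElement_def]; group
    exact e ▸ inv_mem m2
  refine inv_mem_iff.1 (c.mem_Z hBH hHB (inv_mem hb) (Or.inl rfl) ?_)
  have e : ⁅x, b⁻¹⁆ = (b⁻¹ * (x * b * x⁻¹))⁻¹ := by rw [commutatorElement_def]; group
  exact e ▸ inv_mem k3

theorem Cx.false (c : Cx p x H) : False := by
  obtain ⟨B, b1, b2, b3, b4, b5, s, S, hs, hS, b6⟩ :=
    exists_chief c.solv c.nH le_sup_left c.not_le_Z
  have n1 : B ≤ 𝒩(S) := b6.ge.trans (sup_le le_normalizer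
    (norm_of_cent (b5.trans (inf_le_right.trans (cent_anti (hS.le.trans b1))))))
  have e : S = B := (b4 S hS.le (b2.trans (hS.norm_of_normal n1))).resolve_left
    fun h => b3 (b6.ge.trans (sup_le h b5))
  have hq : IsPi {s} B := e ▸ hS.pi
  by_cases h0 : B ⊓ 𝒞(H) = ⊥
  · refine c.caseA b1 b2 (fun e => b3 (e.le.trans bot_le)) (fun N h1 h2 => (b4 N h1 h2).imp_left
      fun h => le_bot_iff.1 ((le_inf h1 (h.trans inf_le_right)).trans h0.le))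
      (commutator_eq_bot_iff.1 (le_bot_iff.1
        ((le_inf der_le (b5.trans inf_le_right)).trans h0.le))) h0 hq
  · exact b3 (c.caseB b1 (le_sup_right.trans b2) (c.comm_le b1 b2 b4 b3 b5 hq h0))

end

theorem main {p : ℕ} (hp : p.Prime) (h2 : p ≠ 2) (n : ℕ) : ∀ (G : Type u) [Group G] [Finite G]
    (H : Subgroup G) (x : G), Nat.card H = n → x ^ p = 1 → Group.IsSolvable H →
    zpowers x ≤ 𝒩(H) → (Nat.card H).Coprime p → ⁅H, zpowers x⁆ ⊓ 𝒞(zpowers x) ≤ Dx x H := by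
  induction n using Nat.strong_induction_on with
  | _ n ih =>
  intro G _ _ H x hn hx hs hN hc
  have cop : ∀ K ≤ H, (Nat.card (zpowers x)).Coprime (Nat.card K) := fun K hK => by
    rw [Nat.card_zpowers]
    exact (hc.symm.of_dvd_left (orderOf_dvd_of_pow_eq_one hx)).of_dvd_right (card_dvd_of_le hK)
  have sub : ∀ K, K < H → zpowers x ≤ 𝒩(K) → ⁅K, zpowers x⁆ ⊓ 𝒞(zpowers x) ≤ Dx x H :=
    fun K hK nK => (ih _ (hn ▸ card_lt_of_lt hK) G K x rfl hx (solvable_of_le hs hK.le) nK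
      (hc.of_dvd_left (card_dvd_of_le hK.le))).trans (Dx_mono hK.le)
  rcases (commutator_le_left_of_norm hN).lt_or_eq with h1 | h1
  · have := sub _ h1 (le_norm_commutator_right _ _)
    rwa [coprime_comm_comm hN (cop H le_rfl) (Or.inr hs)] at this
  rw [h1]
  by_contra bad
  refine Cx.false ⟨hp, h2, hx, hs, hN, hc, h1, sub, fun N hNH nN h0 => ?_, bad⟩
  have nH : H ≤ 𝒩(N) := le_sup_left.trans nN
  have nP : zpowers x ≤ 𝒩(N) := le_sup_right.trans nN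
  have eP := quo_zpowers (N := N) ⟨x, nP (mem_zpowers x)⟩
  have h3 := ih _ (hn ▸ card_quo_lt nH (by rwa [inf_eq_left.2 hNH])) (Quo N) (quo H N)
    (coset N ⟨x, nP (mem_zpowers x)⟩) rfl
    (by rw [← map_pow, show (⟨x, nP (mem_zpowers x)⟩ : ↥𝒩(N)) ^ p = 1 from Subtype.ext hx, map_one])
    (solvable_quo hs N) (eP ▸ quo_norm N hN) (hc.of_dvd_left (card_quo_dvd H N))
  rw [← eP, ← quo_commutator nH nP, h1] at h3
  refine (quo_le_quo_iff' (inf_le_left.trans nH) ((Dx_le hN).trans nH)).1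
    ((quo_inf_cent_le _ _ _).trans (h3.trans (iSup_le ?_)))
  rintro ⟨_, h, hh, rfl⟩
  rw [← eP, ← quo_Kh, ← coprime_quo_cent (norm_Kh _ _) nP (cop N hNH)
    (Or.inr (solvable_of_le hs hNH))]
  exact quo_mono N (le_Dx hh)

end Cfsg.Agent.H84.Fl
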