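import Cfsg.Agent.H27.SpGen
import Cfsg.Agent.H9.Transport

/-!
`Sp₆(2)` is generated by three conjugate regular unipotent elements.
-/

set_option autoImplicit false

namespace Cfsg.Agent.H84.Sp62

open Matrix H27

/-- Position of a coordinate. -/
def ix : Fin 3 ⊕ Fin 3 → ℕ := Sum.elim (·.val) (·.val + 3)

/-- The vector with a given bit pattern. -/
def vec (x : Fin 64) : Fin 3 ⊕ Fin 3 → ZMod 2 := fun i => ((x.val >>> ix i : ℕ) : ZMod 2)

/-- The matrix with a given bit pattern. -/
def mat (c : ℕ) : Matrix (Fin 3 ⊕ Fin 3) (Fin 3 ⊕ Fin 3) (ZMod 2) :=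
  Matrix.of fun i j => ((c >>> (6 * ix j + ix i) : ℕ) : ZMod 2)

/-- A symplectic matrix with a given bit pattern. -/
def sp (c : ℕ) (h : mat c * J (Fin 3) (ZMod 2) * (mat c)ᵀ = J (Fin 3) (ZMod 2) := by
    decide +kernel) : symplecticGroup (Fin 3) (ZMod 2) := ⟨mat c, SymplecticGroup.mem_iff.2 h⟩

/-- Table lookup. -/
def tb (T : ℕ) (x : Fin 64) : Fin 64 := Fin.ofNat 64 (T >>> (6 * x.val))

def t0 : ℕ := 5678486981799754954963110308728838160443709855558910644220169891528690056364726415948712208103258451656073813533120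
def t1 : ℕ := 10679176819191998212296632983245911447810852226123385611894822487317263735009359585240734709085521120106817175519680
def t2 : ℕ := 5971585076330617654539443473435107252762563165384482424729102394674625722229076202960357601668401758237201171712320

/-- One step of the orbit computation. -/
def step (l : List (Fin 64)) : List (Fin 64) :=
  (l ++ l.map (tb t0) ++ l.map (tb t1) ++ l.map (tb t2)).dedup

theorem zmod : ∃ u g h : symplecticGroup (Fin 3) (ZMod 2), (u.1 - 1) ^ 6 = 0 ∧ (u.1 - 1) ^ 5 ≠ 0 ∧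
    Subgroup.closure ({u, g * u * g⁻¹, h * u * h⁻¹} : Set _) = ⊤ := by
  have e1 : sp 34663841921 * sp 52634801799 * (sp 34663841921)⁻¹ = sp 55185470983 :=
    mul_inv_eq_iff_eq_mul.2 (Subtype.ext (by decide +kernel))
  have e2 : sp 65772210140 * sp 52634801799 * (sp 65772210140)⁻¹ = sp 20883136037 :=
    mul_inv_eq_iff_eq_mul.2 (Subtype.ext (by decide +kernel))
  have e3 : sp 55185470983 * sp 20883136037 * sp 20883136037 = sp 8198434079 :=
    Subtype.ext (by decide +kernel)
  have e4 : sp 8198434079 * sp 8198434079 * sp 8198434079 = spT (vec 21) 1 :=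
    Subtype.ext (by decide +kernel)
  refine ⟨sp 52634801799, sp 34663841921, sp 65772210140, ?_, ?_, ?_⟩
  · rw [show 6 = 2 * 3 from rfl, pow_mul, sq, pow_three]; decide +kernel
  · rw [show 5 = 2 * 2 + 1 from rfl, pow_succ, pow_mul, sq, sq]; decide +kernel
  rw [e1, e2]
  have m1 : sp 52634801799 ∈ Subgroup.closure {sp 52634801799, sp 55185470983, sp 20883136037} :=
    Subgroup.subset_closure (by simp)
  have m2 : sp 55185470983 ∈ Subgroup.closure {sp 52634801799, sp 55185470983, sp 20883136037} :=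
    Subgroup.subset_closure (by simp)
  have m3 : sp 20883136037 ∈ Subgroup.closure {sp 52634801799, sp 55185470983, sp 20883136037} :=
    Subgroup.subset_closure (by simp)
  generalize Subgroup.closure {sp 52634801799, sp 55185470983, sp 20883136037} = H at m1 m2 m3
  have mv : ∀ A ∈ H, ∀ T, (∀ x, A.1 *ᵥ vec x = vec (tb T x)) → ∀ x, spT (vec x) 1 ∈ H →
      spT (vec (tb T x)) 1 ∈ H := fun A hA T h x hx => by
    rw [← h, ← conj_spT]
    exact mul_mem (mul_mem hA hx) (inv_mem hA)
  have key : ∀ n, ∀ x ∈ step^[n] [21], spT (vec x) 1 ∈ H := fun n => by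
    induction n with
    | zero =>
      have := mul_mem (mul_mem m2 m3) m3
      rw [e3] at this
      simpa [← e4] using mul_mem (mul_mem this this) this
    | succ n ih =>
      intro x hx
      simp only [Function.iterate_succ_apply', step, List.mem_dedup, List.mem_append,
        List.mem_map] at hx
      rcases hx with ((hx | ⟨y, hy, rfl⟩) | ⟨y, hy, rfl⟩) | ⟨y, hy, rfl⟩
      · exact ih x hx
      · exact mv _ m1 _ (by decide +kernel) y (ih y hy)
      · exact mv _ m2 _ (by decide +kernel) y (ih y hy)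
      · exact mv _ m3 _ (by decide +kernel) y (ih y hy)
  refine sp_eq_top_of_spT_mem H fun w c => ?_
  rcases (by decide : ∀ c : ZMod 2, c = 0 ∨ c = 1) c with rfl | rfl
  · rw [spT_zero]; exact one_mem H
  rcases (by decide +kernel : ∀ w, w = 0 ∨ ∃ x ∈ step^[6] [21], w = vec x) w with rfl | ⟨x, hx, rfl⟩
  · have := spT_smul (m := 3) (0 : Fin 3 ⊕ Fin 3 → ZMod 2) 0 1
    rw [zero_smul] at this
    rw [this, show (1 : ZMod 2) * 0 ^ 2 = 0 by simp, spT_zero]
    exact one_mem H
  · exact key 6 x hx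

theorem gen {F : Type*} [Field F] [Fintype F] (hF : Fintype.card F = 2) :
    ∃ u g h : symplecticGroup (Fin 3) F, IsNilpotent (u.1 - 1) ∧ (u.1 - 1) ^ 5 ≠ 0 ∧
      Subgroup.closure ({u, g * u * g⁻¹, h * u * h⁻¹} : Set _) = ⊤ := by
  obtain ⟨u, g, h, h1, h2, h3⟩ := zmod
  let e := ZMod.ringEquivOfPrime F Nat.prime_two hF
  let j := H9.spMapEquiv (ι := Fin 3) e
  have e1 : ∀ k, ((j u).1 - 1) ^ k = e.mapMatrix ((u.1 - 1) ^ k) := fun k => by
    rw [map_pow, map_sub, map_one]; rfl
  refine ⟨j u, j g, j h, ⟨6, by rw [e1, h1, map_zero]⟩, by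
    rwa [e1, Ne, map_eq_zero_iff _ e.mapMatrix.injective], ?_⟩
  have := congrArg (Subgroup.map j.toMonoidHom) h3
  rw [MonoidHom.map_closure, Subgroup.map_top_of_surjective _ j.surjective] at this
  simpa [Set.image_insert_eq] using this

end Cfsg.Agent.H84.Sp62
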