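import Cfsg.Agent.H62.MaxClAut

/-!
The Engel congruence in groups of exponent `p` (Zassenhaus), and the `p`-th powers in a `p`-group
of maximal class.
-/

set_option autoImplicit false

namespace Cfsg.Agent.H84

open Subgroup H62
open scoped commutatorElement

variable {G : Type*} [Group G] {p n : ℕ}

/-- Families with values in a term of the lower central series. -/
def Lam (G : Type*) [Group G] (p m : ℕ) : Subgroup ((ZMod p)ˣ → G) :=
  Subgroup.pi Set.univ fun _ => LL G m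

theorem mem_Lam {m : ℕ} {y : (ZMod p)ˣ → G} : y ∈ Lam G p m ↔ ∀ a, y a ∈ LL G m :=
  ⟨fun h a => h a trivial, fun h a _ => h a⟩

/-- Polynomial families of degree at least `j`. -/
def FF (p : ℕ) (x : G) (j m : ℕ) : Subgroup ((ZMod p)ˣ → G) :=
  Subgroup.closure ({y | ∃ i g, j ≤ i ∧ g ∈ LL G m ∧ (i ≤ m ∨ i = 1 ∧ g = x) ∧
    y = fun a : (ZMod p)ˣ => g ^ (a : ZMod p).val ^ i} ∪ Lam G p (m + 1))

theorem le_FF (x : G) (j m : ℕ) : Lam G p (m + 1) ≤ FF p x j m :=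
  fun _ h => Subgroup.subset_closure (Or.inr h)

theorem FF_le (x : G) (j m : ℕ) : FF p x j m ≤ Lam G p m := (Subgroup.closure_le _).2 (by
  rintro _ (⟨i, g, -, hg, -, rfl⟩ | h)
  · exact mem_Lam.2 fun a => pow_mem hg _
  · exact mem_Lam.2 fun a => LL_anti m.le_succ (mem_Lam.1 h a))

theorem FF_anti (x : G) {j m j' m' : ℕ} (hj : j' ≤ j) (hm : m' ≤ m) : FF p x j m ≤ FF p x j' m' := by
  rcases hm.eq_or_lt with rfl | hm
  · refine Subgroup.closure_mono (Set.union_subset_union_left _ ?_)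
    rintro _ ⟨i, g, h1, h2⟩
    exact ⟨i, g, hj.trans h1, h2⟩
  · exact (FF_le x j m).trans (le_trans (fun y hy => mem_Lam.2 fun a =>
      LL_anti hm (mem_Lam.1 hy a)) (le_FF x j' m'))

instance (x : G) (j m : ℕ) : (FF p x j m).Normal := ⟨fun y hy g => by
  rw [show g * y * g⁻¹ = ⁅g, y⁆ * y by simp [commutatorElement_def]]
  exact mul_mem (le_FF x j m (mem_Lam.2 fun a => LL_comm'' (mem_Lam.1 (FF_le x j m hy) a) _)) hy⟩

theorem comm_closure {Q : Type*} [Group Q] {N : Subgroup Q} [N.Normal] {A : Set Q} {b : Q}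
    (h : ∀ a ∈ A, ⁅a, b⁆ ∈ N) {a : Q} (ha : a ∈ Subgroup.closure A) : ⁅a, b⁆ ∈ N := by
  induction ha using Subgroup.closure_induction with
  | mem a ha => exact h a ha
  | one => simp
  | mul a a' _ _ h1 h2 => exact comm_mul_left_mem h1 h2
  | inv a _ h1 =>
    rw [show ⁅a⁻¹, b⁆ = a⁻¹ * ⁅a, b⁆⁻¹ * a⁻¹⁻¹ by simp only [commutatorElement_def]; group]
    exact ‹N.Normal›.conj_mem _ (inv_mem h1) _

theorem comm_pow_pow {m m' : ℕ} {g g' : G} (hg : g ∈ LL G m) (hg' : g' ∈ LL G m') (u v : ℕ) :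
    (⁅g, g'⁆ ^ (u * v))⁻¹ * ⁅g ^ u, g' ^ v⁆ ∈ LL G (m + m' + 1 + 1) := by
  have c1 := comm_pow_right_of_center (y := ((g ^ u : G) : G ⧸ LL G (m + m' + 1 + 1)))
    (g := (g' : G ⧸ _)) (mk_mem_center (LL_comm (pow_mem hg u) hg')) v
  have c2 := comm_pow_left_of_center (y := (g : G ⧸ LL G (m + m' + 1 + 1)))
    (g := (g' : G ⧸ _)) (mk_mem_center (LL_comm hg hg')) u
  rw [← QuotientGroup.eq, pow_mul]
  exact (c1.trans (congrArg (· ^ v) c2)).symm

theorem FF_comm (x : G) {j m j' m' : ℕ} {a b : (ZMod p)ˣ → G} (ha : a ∈ FF p x j m)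
    (hb : b ∈ FF p x j' m') : ⁅a, b⁆ ∈ FF p x (j + j') (m + m' + 1) := by
  refine comm_closure (fun a ha => ?_) ha
  have ha' := mem_Lam.1 (FF_le x j m (Subgroup.subset_closure ha))
  rcases ha with ⟨i, g, h1, h2, h3, rfl⟩ | ha
  swap
  · exact le_FF _ _ _ (mem_Lam.2 fun c => LL_anti (by omega)
      (LL_comm (mem_Lam.1 ha c) (mem_Lam.1 (FF_le _ _ _ hb) c)))
  rw [← commutatorElement_inv]
  refine inv_mem (comm_closure (fun b hb => ?_) hb)
  rw [← commutatorElement_inv]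
  refine inv_mem ?_
  rcases hb with ⟨i', g', k1, k2, k3, rfl⟩ | hb
  swap
  · exact le_FF _ _ _ (mem_Lam.2 fun c => LL_anti (by omega) (LL_comm (ha' c) (mem_Lam.1 hb c)))
  by_cases h : g = g'
  · subst h
    rw [commutatorElement_eq_one_iff_mul_comm.2 (funext fun c => (Commute.pow_pow_self g _ _).eq)]
    exact one_mem _
  rw [← mul_inv_cancel_left (fun a : (ZMod p)ˣ => ⁅g, g'⁆ ^ (a : ZMod p).val ^ (i + i')) ⁅_, _⁆]
  refine mul_mem (Subgroup.subset_closure (Or.inl ⟨i + i', _, by omega, LL_comm h2 k2, Or.inl ?_, rfl⟩))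
    (le_FF _ _ _ (mem_Lam.2 fun c => ?_))
  · rcases h3 with h3 | ⟨rfl, rfl⟩ <;> rcases k3 with k3 | ⟨rfl, rfl⟩ <;> first | omega | simp at h
  · simp only [pow_add]
    exact comm_pow_pow h2 k2 _ _

theorem tOp_pow (s x : G) (a r : ℕ) :
    ((tOp s)^[r] x ^ a)⁻¹ * (tOp s)^[r] (x ^ a) ∈ LL G (r + 1) := by
  induction r with
  | zero => simp
  | succ r ih =>
    have := comm_eig (s := s⁻¹) (s' := s⁻¹) (c := 1) (by simpa using tOp_mem (i := 0) s (mem_top x) r)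
      ih (by simp)
    rw [← QuotientGroup.eq, mul_one] at this
    rw [← QuotientGroup.eq, Function.iterate_succ_apply', Function.iterate_succ_apply', tOp, tOp,
      ← commutatorElement_inv, ← commutatorElement_inv _ s⁻¹, inv_pow, QuotientGroup.mk_inv, this,
      QuotientGroup.mk_inv]

open scoped IsMulCommutative in
/-- The Engel congruence. -/
theorem engel [hp : Fact p.Prime] (h : ∀ g : G, g ^ p ∈ LL G p) (s x : G) :
    (tOp s)^[p - 1] x ∈ LL G p := by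
  obtain ⟨q, rfl⟩ : ∃ q, p = q + 1 := ⟨p - 1, by have := hp.out.pos; omega⟩
  have hF : BiFil fun j k => FF (q + 1) x j (k - 1) :=
    ⟨fun h1 h2 => FF_anti x h1 (by omega), fun ha hb => FF_anti x le_rfl (by omega) (FF_comm x ha hb)⟩
  have hM : ∀ g : (ZMod (q + 1))ˣ → G, g ^ (q + 1) ∈ FF (q + 1) x 2 q := fun g =>
    le_FF _ _ _ (mem_Lam.2 fun a => h _)
  have h1 := key_power (M := FF (q + 1) x 2 q) hF hp.out.two_le le_rfl (fun j h1 h2 g _ => by
    obtain ⟨m, hm⟩ := hp.out.dvd_choose_self (by omega : j ≠ 0) h2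
    rw [hm, pow_mul]
    exact pow_mem (hM g) m) (s := fun _ => s) (x := fun a => x ^ (a : ZMod (q + 1)).val)
    (Subgroup.subset_closure (Or.inl ⟨0, s, le_rfl, mem_top s, Or.inl le_rfl, by simp⟩))
    (Subgroup.subset_closure (Or.inl ⟨1, x, le_rfl, mem_top x, Or.inr ⟨rfl, rfl⟩, by simp⟩))
  have h2 := (mul_mem_cancel_left (mul_mem (inv_mem (hM _)) (mul_mem (inv_mem (hM _)) (hM _)))).1 h1
  rw [inv_mem_iff, Nat.add_sub_cancel] at h2
  let ev (a : (ZMod (q + 1))ˣ) : Lam G (q + 1) q →* center (G ⧸ LL G (q + 1)) :=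
    (((QuotientGroup.mk' _).comp (Pi.evalMonoidHom _ a)).comp (Subgroup.subtype _)).codRestrict _
      fun y => mk_mem_center (mem_Lam.1 y.2 a)
  let Φ := ∏ a, ev a ^ ((a⁻¹ : (ZMod (q + 1))ˣ) : ZMod (q + 1)).val
  have hΦ : ∀ (i : ℕ) (g : G) (hg : g ∈ LL G q) (y : Lam G (q + 1) q),
      (∀ a : (ZMod (q + 1))ˣ, (g ^ (a : ZMod (q + 1)).val ^ (i + 1))⁻¹ * y.1 a ∈ LL G (q + 1)) → ∃ N : ℕ,
        (N : ZMod (q + 1)) = (if q ∣ i then -1 else 0) ∧ (Φ y).1 = (g : G ⧸ LL G (q + 1)) ^ N := by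
    intro i g hg y hy
    refine ⟨∑ a : (ZMod (q + 1))ˣ, (a : ZMod (q + 1)).val ^ (i + 1) *
      ((a⁻¹ : (ZMod (q + 1))ˣ) : ZMod (q + 1)).val, ?_, ?_⟩
    · have := FiniteField.sum_pow_units (ZMod (q + 1)) i
      rw [ZMod.card, Nat.add_sub_cancel] at this
      rw [← this]
      push_cast
      refine Finset.sum_congr rfl fun a _ => ?_
      rw [ZMod.natCast_zmod_val, ZMod.natCast_zmod_val, pow_succ, mul_assoc,
        mul_inv_cancel₀ a.ne_zero, mul_one]
    · have : ∀ a, ev a y = (⟨_, mk_mem_center hg⟩ : center _) ^ (a : ZMod (q + 1)).val ^ (i + 1) :=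
        fun a => Subtype.ext (QuotientGroup.eq.2 (hy a)).symm
      simp only [Φ, MonoidHom.finset_prod_apply, MonoidHom.pow_apply, this, ← pow_mul,
        Finset.prod_pow_eq_pow_sum]
      rfl
  have h0 : ∀ (g : G) (N : ℕ), (N : ZMod (q + 1)) = 0 → (g : G ⧸ LL G (q + 1)) ^ N = 1 :=
    fun g N hN => by
      obtain ⟨k, rfl⟩ := (ZMod.natCast_eq_zero_iff _ _).1 hN
      rw [pow_mul, ← QuotientGroup.mk_pow, (QuotientGroup.eq_one_iff _).2 (h g), one_pow]
  have h3 : FF (q + 1) x 2 q ≤ Φ.ker.map (Subgroup.subtype _) := (Subgroup.closure_le _).2 (by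
    rintro y hy
    refine ⟨⟨y, FF_le x 2 q (Subgroup.subset_closure hy)⟩, ?_, rfl⟩
    rcases hy with ⟨i, g, k1, k2, k3, rfl⟩ | hy
    · obtain ⟨i, rfl⟩ : ∃ j, i = j + 1 := ⟨i - 1, by omega⟩
      obtain ⟨N, e1, e2⟩ := hΦ i g k2 ⟨_, FF_le x 2 q (Subgroup.subset_closure
        (Or.inl ⟨i + 1, g, k1, k2, k3, rfl⟩))⟩ fun a => by simp
      rw [if_neg (Nat.not_dvd_of_pos_of_lt (by omega) (by omega))] at e1
      exact Subtype.ext (e2.trans (h0 g N e1))
    · obtain ⟨N, -, e2⟩ := hΦ 0 1 (one_mem _) ⟨y, FF_le x 2 q (le_FF _ _ _ hy)⟩ fun a => by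
        simpa using mem_Lam.1 hy a
      exact Subtype.ext (e2.trans (one_pow N)))
  obtain ⟨y, hy, ey⟩ := h3 h2
  have e : ∀ r a, (tOp (fun _ => s))^[r] (fun a : (ZMod (q + 1))ˣ => x ^ (a : ZMod (q + 1)).val) a =
      (tOp s)^[r] (x ^ (a : ZMod (q + 1)).val) := fun r a => by
    induction r with
    | zero => rfl
    | succ r ih => rw [Function.iterate_succ_apply', Function.iterate_succ_apply', ← ih]; rfl
  obtain ⟨N, e1, e2⟩ := hΦ 0 _ (by simpa using tOp_mem (i := 0) s (mem_top x) q) y fun a => by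
    rw [show y.1 = _ from ey, e, zero_add, pow_one]
    exact tOp_pow s x _ q
  have := h0 ((tOp s)^[q] x) (N + 1) (by simp [e1])
  rw [pow_succ, ← e2, show Φ y = 1 from hy] at this
  exact (QuotientGroup.eq_one_iff _).1 ((one_mul _).symm.trans this)

theorem exists_pow_not_mem [Finite G] [hp : Fact p.Prime] (h : MC G p n) (hn : p + 1 ≤ n) :
    ∃ g : G, g ^ p ∉ LL G p := by
  by_contra hc
  push Not at hc
  have h2 := hp.out.two_le
  obtain ⟨s, hs⟩ := h.exists_unif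
  obtain ⟨y, hy⟩ : ∃ y, tOp s y ∉ LL G 2 := by
    by_contra hy
    push Not at hy
    refine hs 0 (by omega) fun y _ => ?_
    simpa [tOp, commutatorElement_def, mul_assoc] using LL_conj (hy y) s
  have h3 := h.tOp_not_mem hs le_rfl (LL_comm'' (i := 0) (mem_top y) s⁻¹) hy (p - 2) (by omega)
  have h4 := engel hc s y
  rw [show p - 1 = p - 2 + 1 by omega, Function.iterate_succ_apply] at h4
  exact h3 (LL_anti (by omega) h4)

end Cfsg.Agent.H84
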