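import Cfsg.Agent.H1.Hall
import Cfsg.Agent.H1.Product
import Cfsg.Agent.H3.PGroup
import Cfsg.Agent.H47.Cyc

/-! Solvable groups whose `p`-subgroups of equal order are conjugate. -/

set_option autoImplicit false
set_option linter.unusedSectionVars false

namespace Cfsg.Agent.H84.EqConj

open Subgroup Pointwise Cfsg.Agent.H1 Cfsg.Agent.H2

universe u

/-- conjugate subgroups -/
def Cj {G : Type*} [Group G] (H K : Subgroup G) : Prop := ∃ g : G, K = MulAut.conj g • H

section
variable {G : Type*} [Group G]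

theorem Cj.rfl' (H : Subgroup G) : Cj H H := ⟨1, (conj_one_smul H).symm⟩

theorem Cj.trans {H K L : Subgroup G} (h1 : Cj H K) (h2 : Cj K L) : Cj H L := by
  obtain ⟨g, rfl⟩ := h1
  obtain ⟨h, rfl⟩ := h2
  exact ⟨h * g, conj_smul_conj_smul H h g⟩

theorem Cj.symm {H K : Subgroup G} (h : Cj H K) : Cj K H := by
  obtain ⟨g, rfl⟩ := h
  exact ⟨g⁻¹, by rw [conj_smul_conj_smul, inv_mul_cancel, conj_one_smul]⟩

theorem cj_smul (H : Subgroup G) (g : G) : Cj H (MulAut.conj g • H) := ⟨g, rfl⟩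

theorem smul_sup' (H K : Subgroup G) (g : G) :
    MulAut.conj g • (H ⊔ K) = MulAut.conj g • H ⊔ MulAut.conj g • K := by
  simp only [conj_smul_eq_map]; exact Subgroup.map_sup _ _ _

theorem smul_inf' (H K : Subgroup G) (g : G) :
    MulAut.conj g • (H ⊓ K) = MulAut.conj g • H ⊓ MulAut.conj g • K := by
  ext x; simp only [mem_conj_smul, mem_inf]

theorem smul_normal (N : Subgroup G) [hN : N.Normal] (g : G) : MulAut.conj g • N = N :=
  conj_smul_eq_iff_mem_normalizer.mpr (by rw [normalizer_eq_top]; trivial)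

theorem smul_of_mem {L : Subgroup G} {g : G} (hg : g ∈ L) : MulAut.conj g • L = L :=
  conj_smul_eq_iff_mem_normalizer.mpr (le_normalizer hg)

theorem smul_mono {H K : Subgroup G} (h : H ≤ K) (g : G) :
    MulAut.conj g • H ≤ MulAut.conj g • K := fun x hx =>
  mem_conj_smul.mpr (h (mem_conj_smul.mp hx))

/-- conjugacy inside a subgroup -/
theorem cj_of_subgroupOf {H K X : Subgroup G} (hH : H ≤ X) (hK : K ≤ X)
    (h : Cj (H.subgroupOf X) (K.subgroupOf X)) : ∃ v ∈ X, K = MulAut.conj v • H := by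
  obtain ⟨v, hv⟩ := h
  refine ⟨v, v.2, ?_⟩
  have := congrArg (fun L : Subgroup X => L.map X.subtype) hv
  simp only [map_conj_smul, subgroupOf_map_subtype, inf_eq_left.mpr hH, inf_eq_left.mpr hK] at this
  exact this

end

/-- `p`-subgroups of the same order are conjugate -/
def PC (G : Type*) [Group G] : Prop :=
  ∀ p : ℕ, p.Prime → ∀ H K : Subgroup G, IsPGroup p H → IsPGroup p K →
    Nat.card H = Nat.card K → Cj H K

/-- `p`-subgroups are cyclic for `p ≠ r` -/
def ZC (G : Type*) [Group G] (r : ℕ) : Prop :=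
  ∀ p : ℕ, p.Prime → p ≠ r → ∀ H : Subgroup G, IsPGroup p H → IsCyclic H

variable {G : Type u} [Group G] [Finite G]

theorem exists_lift (N : Subgroup G) [N.Normal] {q : ℕ} (hq : q.Prime) (H : Subgroup (G ⧸ N))
    (hH : IsPGroup q H) : ∃ Q : Subgroup G, IsPGroup q Q ∧ Q.map (QuotientGroup.mk' N) = H ∧
      Nat.card Q = q ^ (Nat.card H * Nat.card N).factorization q := by
  have := Fact.mk hq
  let L := H.comap (QuotientGroup.mk' N)
  let P : Sylow q L := Sylow.nonempty.some
  have hf := MonoidHom.subgroupComap_surjective_of_surjective (QuotientGroup.mk' N) H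
    (QuotientGroup.mk'_surjective N)
  have htop : (⊤ : Subgroup H) = (P.mapSurjective hf : Subgroup H) :=
    (P.mapSurjective hf).3 (hH.to_subgroup ⊤) le_top
  refine ⟨(P : Subgroup L).map L.subtype, P.2.map _, ?_, ?_⟩
  · apply le_antisymm
    · rw [map_le_iff_le_comap]; exact map_subtype_le _
    · intro x hx
      have h1 : (⟨x, hx⟩ : H) ∈ (P.mapSurjective hf : Subgroup H) := htop ▸ mem_top _
      rw [Sylow.coe_mapSurjective] at h1
      obtain ⟨y, hy, hxy⟩ := h1
      exact ⟨y, ⟨y, hy, rfl⟩, congrArg Subtype.val hxy⟩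
  · rw [card_map_of_injective L.subtype_injective, P.card_eq_multiplicity, card_comap_mk']

theorem PC.quot (h : PC G) (N : Subgroup G) [N.Normal] : PC (G ⧸ N) := by
  intro q hq H K hH hK hc
  obtain ⟨Q, hQ, rfl, hQc⟩ := exists_lift N hq H hH
  obtain ⟨R, hR, rfl, hRc⟩ := exists_lift N hq K hK
  obtain ⟨g, rfl⟩ := h q hq Q R hQ hR (by rw [hQc, hRc, hc])
  exact ⟨_, map_conj_smul _ _ _⟩

theorem ZC.quot {r : ℕ} (h : ZC G r) (N : Subgroup G) [N.Normal] : ZC (G ⧸ N) r := by
  intro q hq hqr H hH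
  obtain ⟨Q, hQ, rfl, -⟩ := exists_lift N hq H hH
  have := h q hq hqr Q hQ
  exact isCyclic_of_surjective _ (MonoidHom.subgroupMap_surjective (QuotientGroup.mk' N) Q)

theorem pc_of_zc (h : ZC G 0) : PC G := by
  intro q hq H K hH hK hc
  have := Fact.mk hq
  obtain ⟨P, hP⟩ := hH.exists_le_sylow
  obtain ⟨R, hR⟩ := hK.exists_le_sylow
  obtain ⟨g, rfl⟩ := MulAction.exists_smul_eq G P R
  refine ⟨g, H47.cyc_eq_of_card_eq (h q hq hq.ne_zero _ (g • P).2) hR ?_ ?_⟩
  · exact smul_mono hP g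
  · rw [H2.card_conj_smul, hc]

/-- a `p`-subgroup contains, or is contained in, a normal `p`-subgroup -/
theorem PC.le_or_le (h : PC G) {p : ℕ} (hp : p.Prime) {N : Subgroup G} [N.Normal]
    (hN : IsPGroup p N) {S : Subgroup G} (hS : IsPGroup p S) : S ≤ N ∨ N ≤ S := by
  have := Fact.mk hp
  obtain ⟨a, ha⟩ := IsPGroup.iff_card.mp hS
  obtain ⟨b, hb⟩ := IsPGroup.iff_card.mp hN
  rcases le_total a b with hab | hab
  · left
    obtain ⟨A, hA⟩ := Sylow.exists_subgroup_card_pow_prime p (G := N) (n := a)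
      (hb ▸ pow_dvd_pow p hab)
    obtain ⟨g, hg⟩ := h p hp (A.map N.subtype) S ((hN.to_subgroup A).map _) hS
      (by rw [card_map_of_injective N.subtype_injective, hA, ha])
    rw [hg]
    exact (smul_mono (map_subtype_le _) g).trans (smul_normal N g).le
  · right
    obtain ⟨A, hA⟩ := Sylow.exists_subgroup_card_pow_prime p (G := S) (n := b)
      (ha ▸ pow_dvd_pow p hab)
    obtain ⟨g, hg⟩ := h p hp N (A.map S.subtype) hN ((hS.to_subgroup A).map _)
      (by rw [card_map_of_injective S.subtype_injective, hA, hb])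
    rw [smul_normal] at hg
    rw [← hg]
    exact map_subtype_le _

/-- a Sylow subgroup of a subgroup, as a subgroup of the whole group -/
theorem exists_syl (H : Subgroup G) {p : ℕ} (hp : p.Prime) :
    ∃ S : Subgroup G, S ≤ H ∧ IsPGroup p S ∧ Nat.card S = p ^ (Nat.card H).factorization p ∧
      ∀ N : Subgroup G, N.Normal → IsPGroup p N → H ⊓ N ≤ S := by
  have := Fact.mk hp
  let P : Sylow p H := Sylow.nonempty.some
  refine ⟨(P : Subgroup H).map H.subtype, map_subtype_le _, P.2.map _, ?_, ?_⟩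
  · rw [card_map_of_injective H.subtype_injective, P.card_eq_multiplicity]
  · intro N hN hNp x hx
    have h1 : IsPGroup p (N.subgroupOf H) := hNp.comap_subtype
    have h2 := IsPGroup.le_sylow_of_normal h1 P
    exact ⟨⟨x, hx.1⟩, h2 (show (⟨x, hx.1⟩ : H) ∈ N.subgroupOf H from hx.2), rfl⟩

theorem PC.card_inf (h : PC G) {p : ℕ} (hp : p.Prime) {N : Subgroup G} [hNn : N.Normal]
    (hN : IsPGroup p N) {H K : Subgroup G} (hc : Nat.card H = Nat.card K) :
    Nat.card (H ⊓ N : Subgroup G) = Nat.card (K ⊓ N : Subgroup G) := by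
  obtain ⟨S, hS1, hS2, hS3, hS4⟩ := exists_syl H hp
  obtain ⟨T, hT1, hT2, hT3, hT4⟩ := exists_syl K hp
  have e1 : H ⊓ N = S ⊓ N :=
    le_antisymm (le_inf (hS4 N hNn hN) inf_le_right) (inf_le_inf_right _ hS1)
  have e2 : K ⊓ N = T ⊓ N :=
    le_antisymm (le_inf (hT4 N hNn hN) inf_le_right) (inf_le_inf_right _ hT1)
  obtain ⟨g, hg⟩ := h p hp S T hS2 hT2 (by rw [hS3, hT3, hc])
  rw [e1, e2, hg, ← H2.card_conj_smul (S ⊓ N) g, smul_inf', smul_normal N]

theorem card_map_mk (N : Subgroup G) [N.Normal] (H : Subgroup G) :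
    Nat.card (H.map (QuotientGroup.mk' N)) * Nat.card (H ⊓ N : Subgroup G) = Nat.card H := by
  have h1 := card_comap_mk' N (H.map (QuotientGroup.mk' N))
  rw [comap_map_eq, QuotientGroup.ker_mk'] at h1
  have h2 := card_sup_mul_card_inf_of_normal H N
  rw [h1] at h2
  have h3 : 0 < Nat.card N := Nat.card_pos
  apply Nat.eq_of_mul_eq_mul_right h3
  rw [← h2]; ring

/-- a Hall `p'`-subgroup of `H` when `H ⊓ N` is a Sylow `p`-subgroup of `H` -/
theorem exists_compl (hG : Group.IsSolvable G) {p : ℕ} (hp : p.Prime) {N : Subgroup G}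
    [N.Normal] {H : Subgroup G}
    (hH : Nat.card (H ⊓ N : Subgroup G) = p ^ (Nat.card H).factorization p) :
    ∃ T : Subgroup G, T ≤ H ∧ ¬ p ∣ Nat.card T ∧ H = (H ⊓ N) ⊔ T ∧
      Nat.card T * Nat.card (H ⊓ N : Subgroup G) = Nat.card H := by
  have hpos : Nat.card H ≠ 0 := Nat.card_pos.ne'
  obtain ⟨T, hT⟩ := hall_exists {q | ¬ q ∣ p ^ (Nat.card H).factorization p} H inferInstance
  have hcop := (Nat.coprime_ordCompl hp hpos).symm.pow_right ((Nat.card H).factorization p)
  have hmul : Nat.card H = ordCompl[p] (Nat.card H) * p ^ (Nat.card H).factorization p := by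
    rw [mul_comm]; exact (Nat.ordProj_mul_ordCompl_eq_self _ p).symm
  rw [hall_iff_card hmul hcop] at hT
  have hTc : Nat.card (T.map H.subtype) = ordCompl[p] (Nat.card H) := by
    rw [card_map_of_injective H.subtype_injective, hT]
  have hnd : ¬ p ∣ Nat.card (T.map H.subtype) := by
    rw [hTc]; exact Nat.not_dvd_ordCompl hp hpos
  have hc : Nat.card (T.map H.subtype) * Nat.card (H ⊓ N : Subgroup G) = Nat.card H := by
    rw [hTc, hH, ← hmul]
  refine ⟨T.map H.subtype, map_subtype_le _, hnd, ?_, hc⟩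
  symm
  apply eq_of_le_of_card_ge (sup_le inf_le_left (map_subtype_le _))
  rw [← hc]
  apply Nat.le_of_dvd Nat.card_pos
  apply Nat.Coprime.mul_dvd_of_dvd_of_dvd
  · rw [hTc, hH]; exact hcop
  · exact card_dvd_of_le le_sup_right
  · exact card_dvd_of_le le_sup_left

/-- `T` is a Hall `p'`-subgroup of `H N` -/
theorem hall_sup {p : ℕ} (hp : p.Prime) {N : Subgroup G} [N.Normal] (hN : IsPGroup p N)
    {H T : Subgroup G} (hT : T ≤ H) (hTp : ¬ p ∣ Nat.card T)
    (hc : Nat.card T * Nat.card (H ⊓ N : Subgroup G) = Nat.card H) :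
    Hall {q | q ≠ p} (T.subgroupOf (H ⊔ N)) := by
  have := Fact.mk hp
  have hle : T ≤ H ⊔ N := hT.trans le_sup_left
  constructor
  · intro q _ hq hqp
    rw [card_subgroupOf_of_le hle, hqp] at hq
    exact hTp hq
  · intro q hq hd hqp
    apply hqp
    have h1 := card_mul_relIndex_of_le hle
    have h2 := card_sup_mul_card_inf_of_normal H N
    have h3 : T.relIndex (H ⊔ N) = Nat.card N := by
      rw [← h1, ← hc] at h2
      have h4 : 0 < Nat.card T * Nat.card (H ⊓ N : Subgroup G) :=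
        Nat.mul_pos Nat.card_pos Nat.card_pos
      apply Nat.eq_of_mul_eq_mul_left h4
      rw [← h2]; ring
    obtain ⟨b, hb⟩ := IsPGroup.iff_card.mp hN
    have h5 : q ∣ p ^ b := by rw [← hb, ← h3]; exact hd
    exact (Nat.prime_dvd_prime_iff_eq hq hp).mp (hq.dvd_of_dvd_pow h5)

/-- the normalizer of a `p`-subgroup has index prime to `p` -/
theorem PC.not_dvd_index (h : PC G) {p : ℕ} (hp : p.Prime) {A : Subgroup G} (hA : IsPGroup p A) :
    ¬ p ∣ (normalizer (A : Set G)).index := by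
  have := Fact.mk hp
  obtain ⟨P, hP⟩ := hA.exists_le_sylow
  obtain ⟨a, ha⟩ := IsPGroup.iff_card.mp hA
  obtain ⟨B, hBn, -, hB⟩ := H3.exists_normal_le_card_eq P.2 ⊤ a (by
    rw [card_top, ← ha]; exact card_le_of_le hP)
  obtain ⟨g, hg⟩ := h p hp (B.map (P : Subgroup G).subtype) A ((P.2.to_subgroup B).map _) hA
    (by rw [card_map_of_injective (P : Subgroup G).subtype_injective, hB, ha])
  have h1 : (P : Subgroup G) ≤ normalizer ((B.map (P : Subgroup G).subtype : Subgroup G) : Set G) := by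
    intro x hx
    rw [← conj_smul_eq_iff_mem_normalizer]
    have := map_conj_smul (P : Subgroup G).subtype B ⟨x, hx⟩
    rw [smul_normal] at this
    exact this.symm
  have h2 : ((g • P : Sylow p G) : Subgroup G) ≤ normalizer (A : Set G) := by
    rw [hg, normalizer_conj_smul]
    exact smul_mono h1 g
  exact fun hd => (g • P).not_dvd_index (hd.trans (index_dvd_of_le h2))

/-- the key step: two subgroups `A T`, `B T` with `A`, `B` `p`-groups of the same order -/
theorem key (ih : ∀ (X : Type u) [Group X] [Finite X], Nat.card X < Nat.card G →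
      Group.IsSolvable X → ZC X 0 → ∀ H K : Subgroup X, Nat.card H = Nat.card K → Cj H K)
    (hG : Group.IsSolvable G) (h : PC G) {p : ℕ} (hp : p.Prime) (hz : ZC G p)
    (hpG : p ∣ Nat.card G) {A B T : Subgroup G} (hA : IsPGroup p A) (hB : IsPGroup p B)
    (hc : Nat.card A = Nat.card B) (hT : ¬ p ∣ Nat.card T) (hTA : T ≤ normalizer (A : Set G))
    (hTB : T ≤ normalizer (B : Set G)) : Cj (A ⊔ T) (B ⊔ T) := by
  have := Fact.mk hp
  obtain ⟨U, hU, hTU⟩ := hall_exists_ge {q | q ≠ p} hG T (fun q _ hd hqp => hT (hqp ▸ hd))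
  have hUp : ¬ p ∣ Nat.card U := fun hd => hU.1 p hp hd rfl
  have hcop : U.index.Coprime (normalizer (A : Set G)).index := by
    apply Nat.coprime_of_dvd'
    intro q hq h1 h2
    have h3 : q = p := by
      by_contra hne
      exact hU.2 q hq h1 hne
    exact absurd (h3 ▸ h2) (h.not_dvd_index hp hA)
  obtain ⟨g, hg⟩ := h p hp A B hA hB hc
  obtain ⟨u, hu, x, hx, rfl⟩ := mul_eq_of_coprime U _ hcop g
  rw [← conj_smul_conj_smul, conj_smul_eq_iff_mem_normalizer.mpr hx] at hg
  let X := U ⊓ normalizer (B : Set G)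
  have h1 : T ≤ X := le_inf hTU hTB
  have h2 : MulAut.conj u • T ≤ X := by
    refine le_inf ?_ ?_
    · rw [← smul_of_mem hu]; exact smul_mono hTU u
    · rw [hg, normalizer_conj_smul]; exact smul_mono hTA u
  have hXp : ¬ p ∣ Nat.card X := fun hd => hUp (hd.trans (card_dvd_of_le inf_le_left))
  have hlt : Nat.card X < Nat.card G := by
    apply card_lt_of_ne_top
    intro he
    rw [he, card_top] at hXp
    exact hXp hpG
  have hzX : ZC X 0 := by
    intro q hq _ H hH
    by_cases hqp : q = p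
    · subst hqp
      obtain ⟨a, ha⟩ := IsPGroup.iff_card.mp hH
      rcases Nat.eq_zero_or_pos a with h0 | h0
      · rw [h0, pow_zero] at ha
        have : Subsingleton H := (Nat.card_eq_one_iff_unique.mp ha).1
        infer_instance
      · exact absurd ((ha ▸ dvd_pow_self q h0.ne' : q ∣ Nat.card H).trans
          H.card_subgroup_dvd_card) hXp
    · have := hz q hq hqp (H.map X.subtype) (hH.map _)
      exact isCyclic_of_surjective _ (H.equivMapOfInjective X.subtype X.subtype_injective).symm.surjective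
  obtain ⟨v, hv, hvT⟩ := cj_of_subgroupOf h2 h1 (ih X hlt inferInstance hzX _ _ (by
    rw [card_subgroupOf_of_le h2, card_subgroupOf_of_le h1, H2.card_conj_smul]))
  refine ⟨v * u, ?_⟩
  rw [smul_sup', ← conj_smul_conj_smul, ← conj_smul_conj_smul, ← hg, ← hvT,
    conj_smul_eq_iff_mem_normalizer.mpr hv.2]

theorem le_norm_inf (H N : Subgroup G) [hN : N.Normal] :
    H ≤ normalizer ((H ⊓ N : Subgroup G) : Set G) := by
  intro x hx
  rw [← conj_smul_eq_iff_mem_normalizer, smul_inf', smul_of_mem hx, smul_normal]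

theorem main (G : Type u) [Group G] [Finite G] : Group.IsSolvable G → PC G → ∀ r, ZC G r →
    ∀ H K : Subgroup G, Nat.card H = Nat.card K → Cj H K := by
  refine card_induction (P := fun G _ _ => Group.IsSolvable G → PC G → ∀ r, ZC G r →
    ∀ H K : Subgroup G, Nat.card H = Nat.card K → Cj H K) G ?_
  intro G _ _ ih hG h r hz H K hc
  rcases subsingleton_or_nontrivial G with hs | hs
  · rw [Subsingleton.elim H K]; exact Cj.rfl' K
  obtain ⟨N, p, hp, hNn, hN, -, hNp, -⟩ := exists_minimal_normal_of_solvable (G := G)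
  have := Fact.mk hp
  have hci := h.card_inf hp hNp hc
  -- reduce to `H N = K N`
  suffices hsuf : ∀ H K : Subgroup G, Nat.card H = Nat.card K → H ⊔ N = K ⊔ N → Cj H K by
    have h1 : Nat.card (H.map (QuotientGroup.mk' N)) = Nat.card (K.map (QuotientGroup.mk' N)) := by
      have h2 := card_map_mk N H
      have h3 := card_map_mk N K
      rw [hc, hci, ← h3] at h2
      exact Nat.eq_of_mul_eq_mul_right Nat.card_pos h2
    obtain ⟨g, hg⟩ := ih (G ⧸ N) (card_quotient_lt N hN) inferInstance (h.quot N) r (hz.quot N)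
      _ _ h1
    obtain ⟨g, rfl⟩ := QuotientGroup.mk'_surjective N g
    rw [← map_conj_smul] at hg
    have h4 := congrArg (comap (QuotientGroup.mk' N)) hg
    rw [comap_map_eq, comap_map_eq, QuotientGroup.ker_mk'] at h4
    exact (cj_smul H g).trans (hsuf _ _ (by rw [H2.card_conj_smul, hc]) h4.symm)
  intro H K hc hsup
  have hci := h.card_inf hp hNp hc
  obtain ⟨S, hS1, hS2, hS3, hS4⟩ := exists_syl H hp
  rcases h.le_or_le hp hNp hS2 with hSN | hNS
  swap
  · have h1 : N ≤ H := hNS.trans hS1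
    have h2 : K ≤ H := by rw [← sup_eq_left.mpr h1, hsup]; exact le_sup_left
    rw [eq_of_le_of_card_ge h2 hc.le]
    exact Cj.rfl' H
  have hHN : Nat.card (H ⊓ N : Subgroup G) = p ^ (Nat.card H).factorization p := by
    rw [← hS3, le_antisymm (hS4 N hNn hNp) (le_inf hS1 hSN)]
  have hKN : Nat.card (K ⊓ N : Subgroup G) = p ^ (Nat.card K).factorization p := by
    rw [← hci, hHN, hc]
  obtain ⟨T, hT1, hT2, hT3, hT4⟩ := exists_compl hG hp hHN
  obtain ⟨T', hT1', hT2', hT3', hT4'⟩ := exists_compl hG hp hKN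
  have e1 := hall_sup hp hNp hT1 hT2 hT4
  have e2 := hall_sup hp hNp hT1' hT2' hT4'
  rw [← hsup] at e2
  obtain ⟨l, hl⟩ := hall_conj _ inferInstance _ _ e2 e1
  obtain ⟨l, -, hl⟩ := cj_of_subgroupOf (hsup ▸ hT1'.trans le_sup_left) (hT1.trans le_sup_left)
    ⟨l, hl.symm⟩
  -- replace `K` by its conjugate
  refine Cj.trans ?_ (cj_smul K l).symm
  have hK' : MulAut.conj l • K = (MulAut.conj l • K ⊓ N) ⊔ T := by
    conv_lhs => rw [hT3']
    rw [smul_sup', smul_inf', smul_normal N, ← hl]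
  have hTK : T ≤ MulAut.conj l • K := hl ▸ smul_mono hT1' l
  have hcard : Nat.card (H ⊓ N : Subgroup G) = Nat.card (MulAut.conj l • K ⊓ N : Subgroup G) :=
    h.card_inf hp hNp (by rw [H2.card_conj_smul, hc])
  rw [hT3, hK']
  by_cases hpr : p = r
  · subst hpr
    refine key (fun X _ _ hX hs hzX => ih X hX hs (pc_of_zc hzX) 0 hzX) hG h hp hz ?_
      (hNp.to_inf_right) (hNp.to_inf_right) hcard hT2 (hT1.trans (le_norm_inf H N))
      (hTK.trans (le_norm_inf _ N))
    obtain ⟨b, hb⟩ := IsPGroup.iff_card.mp hNp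
    have hb0 : b ≠ 0 := by
      rintro rfl
      exact hN (card_eq_one.mp (by rw [hb, pow_zero]))
    exact (hb ▸ dvd_pow_self p hb0 : p ∣ Nat.card N).trans N.card_subgroup_dvd_card
  · rw [H47.cyc_eq_of_card_eq (hz p hp hpr N hNp) inf_le_right inf_le_right hcard]
    exact Cj.rfl' _

end Cfsg.Agent.H84.EqConj
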