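import Mathlib

/-! Linear algebra of a fixed-point-free operator of prime order `q` in characteristic `p`. -/

set_option autoImplicit false
set_option linter.style.haveILetI false

namespace Cfsg.Agent.H84

open Polynomial Module

variable {p q : ℕ} [hp : Fact p.Prime] [hq : Fact q.Prime]
  {V : Type*} [AddCommGroup V] [Module (ZMod p) V]

theorem aeval_cyclotomic_eq_zero {T : End (ZMod p) V} (hT : T ^ q = 1)
    (hf : ∀ v, T v = v → v = 0) : aeval T (cyclotomic q (ZMod p)) = 0 := by
  rw [cyclotomic_prime]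
  ext v
  apply hf
  have := congrArg (fun S : End (ZMod p) V => S v) (mul_geom_sum T q)
  simp only [hT, sub_self, LinearMap.zero_apply, End.mul_apply, LinearMap.sub_apply,
    End.one_apply, sub_eq_zero] at this
  simpa using this

omit hp in
theorem orderOf_unitOfCoprime (h : (p ^ 1).Coprime q) :
    orderOf (ZMod.unitOfCoprime (p ^ 1) h) = orderOf (p : ZMod q) := by
  rw [← orderOf_units, ZMod.coe_unitOfCoprime, pow_one]

theorem orderOf_eq_of_conj [Finite V] [Nontrivial V] (hpq : p ≠ q) {T : End (ZMod p) V}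
    (hT : T ^ q = 1) (hf : ∀ v, T v = v → v = 0)
    (hdom : ∀ f : (ZMod p)[X], ∀ y ≠ 0, aeval T f y = 0 → aeval T f = 0)
    (hconj : ∀ i < q, i.Coprime q → ∃ A : End (ZMod p) V, Function.Surjective A ∧
      A * T = T ^ i * A) : orderOf (p : ZMod q) = q - 1 := by
  classical
  have hint : IsIntegral (ZMod p) T := Algebra.IsIntegral.isIntegral T
  set μ := minpoly (ZMod p) T with hμ
  have hirr : Irreducible μ := by
    refine Prime.irreducible ⟨minpoly.ne_zero hint, minpoly.not_isUnit _ _, fun f g h => ?_⟩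
    rw [minpoly.dvd_iff] at h ⊢
    rw [minpoly.dvd_iff, or_iff_not_imp_right]
    intro hg
    obtain ⟨y, hy⟩ : ∃ y, aeval T g y ≠ 0 := by
      by_contra! h'
      exact hg (LinearMap.ext h')
    exact hdom f _ hy (by rw [← End.mul_apply, ← map_mul, h]; rfl)
  have hdvd : μ ∣ cyclotomic q (ZMod p) := minpoly.dvd _ _ (aeval_cyclotomic_eq_zero hT hf)
  have hc : p.Coprime q := (Nat.coprime_primes hp.out hq.out).2 hpq
  have hdeg := natDegree_of_dvd_cyclotomic_of_irreducible (f := 1) (by simp) hc hdvd hirr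
  rw [orderOf_unitOfCoprime] at hdeg
  haveI := Fact.mk hirr
  haveI : NeZero (q : AdjoinRoot μ) := ⟨fun h => by
    haveI : CharP (AdjoinRoot μ) p := charP_of_injective_algebraMap
      (algebraMap (ZMod p) (AdjoinRoot μ)).injective p
    exact hpq ((Nat.prime_dvd_prime_iff_eq hp.out hq.out).1 ((CharP.cast_eq_zero_iff _ p q).1 h))⟩
  haveI : NeZero q := ⟨hq.out.ne_zero⟩
  have hζ : IsPrimitiveRoot (AdjoinRoot.root μ) q := by
    rw [← isRoot_cyclotomic_iff, ← map_cyclotomic q (algebraMap (ZMod p) _), IsRoot, eval_map_algebraMap,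
      AdjoinRoot.aeval_eq, AdjoinRoot.mk_eq_zero]
    exact hdvd
  have hsub : primitiveRoots q (AdjoinRoot μ) ⊆ (μ.aroots (AdjoinRoot μ)).toFinset := by
    intro ξ hξ
    obtain ⟨i, hi, hic, rfl⟩ := hζ.isPrimitiveRoot_iff.1 (isPrimitiveRoot_of_mem_primitiveRoots hξ)
    obtain ⟨A, hA, hAT⟩ := hconj i hi hic
    have h1 : ∀ f : (ZMod p)[X], A * aeval T f = aeval (T ^ i) f * A := fun f => by
      induction f using Polynomial.induction_on' with
      | add f g hf hg => simp only [map_add, mul_add, add_mul, hf, hg]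
      | monomial n a =>
        simp only [aeval_monomial, Algebra.algebraMap_eq_smul_one, smul_mul_assoc, one_mul,
          mul_smul_comm]
        rw [(SemiconjBy.pow_right hAT n).eq]
    have h2 : aeval (T ^ i) μ = 0 := by
      ext v
      obtain ⟨w, rfl⟩ := hA v
      rw [← End.mul_apply, ← h1, hμ, minpoly.aeval, mul_zero]
      rfl
    rw [Multiset.mem_toFinset, mem_aroots]
    refine ⟨hirr.ne_zero, ?_⟩
    rw [← expand_aeval, AdjoinRoot.aeval_eq, AdjoinRoot.mk_eq_zero]
    exact minpoly.dvd _ _ (by rwa [expand_aeval])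
  have h1 := (Finset.card_le_card hsub).trans ((Multiset.toFinset_card_le _).trans
    ((card_roots' _).trans natDegree_map_le))
  rw [hζ.card_primitiveRoots, Nat.totient_prime hq.out, hdeg] at h1
  refine le_antisymm (Nat.le_of_dvd (by have := hq.out.two_le; omega) ?_) h1
  exact ZMod.orderOf_dvd_card_sub_one ((ZMod.isUnit_iff_coprime p q).2 hc).ne_zero

theorem exists_equivs_of_orderOf [Finite V] (hpq : p ≠ q) {T : End (ZMod p) V}
    (hT : T ^ q = 1) (hf : ∀ v, T v = v → v = 0) (ho : orderOf (p : ZMod q) = q - 1) :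
    (∀ v w : V, v ≠ 0 → w ≠ 0 → ∃ e : V ≃+ V, e v = w ∧ ∀ u, e (T u) = T (e u)) ∧
      ∃ e : V ≃+ V, ∀ u, e (T u) = (T ^ p) (e u) := by
  classical
  have hc : p.Coprime q := (Nat.coprime_primes hp.out hq.out).2 hpq
  have hirr : Irreducible (cyclotomic q (ZMod p)) :=
    irreducible_of_dvd_cyclotomic_of_natDegree (f := 1) (by simp) hc dvd_rfl (by
      rw [orderOf_unitOfCoprime, ho, natDegree_cyclotomic, Nat.totient_prime hq.out])
  haveI := Fact.mk hirr
  let K := AdjoinRoot (cyclotomic q (ZMod p))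
  let ψ : K →+* End (ZMod p) V := Ideal.Quotient.lift _ (aeval T).toRingHom fun a ha => by
    obtain ⟨b, rfl⟩ := Ideal.mem_span_singleton.1 ha
    simp [aeval_cyclotomic_eq_zero hT hf]
  letI : Module K V := Module.compHom V ψ
  have hζ : ∀ u : V, (AdjoinRoot.root (cyclotomic q (ZMod p)) : K) • u = T u := fun u => by
    change aeval T (X : (ZMod p)[X]) u = T u
    rw [aeval_X]
  have hζp : ∀ (k : ℕ) (u : V), (AdjoinRoot.root (cyclotomic q (ZMod p)) ^ k : K) • u =
      (T ^ k) u := fun k => by
    induction k with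
    | zero => simp
    | succ k ih => intro u; rw [pow_succ, mul_smul, hζ, ih, pow_succ, End.mul_apply]
  haveI : Module.Finite K V := Module.Finite.of_finite
  refine ⟨fun v w hv hw => ?_, ?_⟩
  · obtain ⟨g, hg⟩ := Submodule.exists_linearEquiv_restrict_eq
      ((LinearEquiv.toSpanNonzeroSingleton K V v hv).symm.trans
        (LinearEquiv.toSpanNonzeroSingleton K V w hw))
    refine ⟨g.toAddEquiv, ?_, fun u => ?_⟩
    · have := hg (LinearEquiv.toSpanNonzeroSingleton K V v hv 1)
      rw [LinearEquiv.trans_apply, LinearEquiv.symm_apply_apply] at this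
      simpa using this.symm
    · rw [← hζ, ← hζ]; exact g.map_smul _ _
  · haveI : CharP K p := charP_of_injective_algebraMap (algebraMap (ZMod p) K).injective p
    haveI : Module.Finite (ZMod p) K := (cyclotomic.monic q (ZMod p)).finite_adjoinRoot
    haveI : Finite K := Module.finite_of_finite (ZMod p)
    let b := Module.Basis.ofVectorSpace K V
    refine ⟨b.repr.toAddEquiv.trans ((Finsupp.mapRange.addEquiv
      (frobeniusEquiv K p).toAddEquiv).trans b.repr.toAddEquiv.symm), fun u => ?_⟩
    rw [← hζ, ← hζp]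
    apply b.repr.injective
    ext i
    simp [frobenius_def, mul_pow]

end Cfsg.Agent.H84
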