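import Cfsg.Agent.H27.TvSL

/-!
Transvection calculus along the powers of an automorphism `u`: vectors `b j = u ^ j f`,
functionals `X i = χ ∘ u ^ (-i)`, and the sequence `c k = χ (u ^ k f)`.
-/

set_option autoImplicit false
set_option linter.unusedSectionVars false

namespace Cfsg.Agent.H84.RU

open Module H27

variable {F V : Type*} [Field F] [AddCommGroup V] [Module F V]

theorem inv_mem_subring [Finite F] (M : Subring F) {a : F} (ha : a ∈ M) : a⁻¹ ∈ M := by
  rcases eq_or_ne a 0 with rfl | h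
  · simpa using M.zero_mem
  have := Fintype.ofFinite F
  have h1 := FiniteField.pow_card_sub_one_eq_one a h
  have h2 : 1 < Fintype.card F := Fintype.one_lt_card
  have : a⁻¹ = a ^ (Fintype.card F - 2) := by
    rw [show Fintype.card F - 1 = Fintype.card F - 2 + 1 by omega, pow_succ] at h1
    exact (eq_inv_of_mul_eq_one_left h1).symm
  rw [this]
  exact M.pow_mem ha _

/-- The vectors `u ^ j f`. -/
def bb (u : V ≃ₗ[F] V) (f : V) (j : ℤ) : V := (u ^ j) f

/-- The functionals `χ ∘ u ^ (-i)`. -/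
def XX (u : V ≃ₗ[F] V) (χ : Dual F V) (i : ℤ) : Dual F V :=
  χ ∘ₗ ((u ^ (-i) : V ≃ₗ[F] V) : V →ₗ[F] V)

/-- The sequence `χ (u ^ k f)`. -/
def cc (u : V ≃ₗ[F] V) (f : V) (χ : Dual F V) (k : ℤ) : F := χ (bb u f k)

variable {u : V ≃ₗ[F] V} {f : V} {χ : Dual F V} {H : Subgroup (V ≃ₗ[F] V)}

theorem zpow_bb (j k : ℤ) : (u ^ k) (bb u f j) = bb u f (j + k) := by
  rw [bb, bb, ← le_mul_apply, ← zpow_add, add_comm]

theorem XX_apply (i : ℤ) (v : V) : XX u χ i v = χ ((u ^ (-i)) v) := rfl

theorem XX_bb (i j : ℤ) : XX u χ i (bb u f j) = cc u f χ (j - i) := by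
  rw [XX_apply, zpow_bb, sub_eq_add_neg]; rfl

theorem XX_zpow (i k : ℤ) (v : V) : XX u χ (i + k) ((u ^ k) v) = XX u χ i v := by
  rw [XX_apply, XX_apply, ← le_mul_apply, ← zpow_add]; congr 3; ring

theorem bb_zero : bb u f 0 = f := by simp [bb]

theorem XX_zero : XX u χ 0 = χ := by ext; simp [XX_apply]

/-- The transvection with centre `b j` and axis `a • X i` lies in `H`. -/
def PP (H : Subgroup (V ≃ₗ[F] V)) (u : V ≃ₗ[F] V) (f : V) (χ : Dual F V) (j i : ℤ) (a : F) :
    Prop := T1 H (bb u f j) (a • XX u χ i)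

theorem PP.shift (hu : u ∈ H) {j i j' i' : ℤ} {a : F} (h : PP H u f χ j i a)
    (e : j' - i' = j - i) : PP H u f χ j' i' a := by
  obtain ⟨k, rfl⟩ : ∃ k, j' = j + k := ⟨j' - j, by ring⟩
  obtain rfl : i' = i + k := by omega
  rw [PP, ← zpow_bb]
  refine T1.of_conj (H.zpow_mem hu k) ?_
  rwa [show (a • XX u χ (i + k)) ∘ₗ ((u ^ k : V ≃ₗ[F] V) : V →ₗ[F] V) = a • XX u χ i from
    LinearMap.ext fun v => by simp [XX_zpow]]

theorem PP.comm {j i j' i' : ℤ} {a a' : F} (h : PP H u f χ j i a) (h' : PP H u f χ j' i' a')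
    (h1 : cc u f χ (j - i') = 0) (h2 : cc u f χ (j' - i') = 0) :
    PP H u f χ j i' (cc u f χ (j' - i) * a * a') := by
  have := T1.comm_left h h' (by simp [XX_bb, h1]) (by simp [XX_bb, h2])
  rwa [smul_smul, LinearMap.smul_apply, XX_bb, smul_eq_mul, mul_comm a] at this

theorem PP.add {j i : ℤ} {a a' : F} (h : PP H u f χ j i a) (h' : PP H u f χ j i a')
    (h1 : cc u f χ (j - i) = 0) : PP H u f χ j i (a + a') := by
  rw [PP, add_smul]
  exact T1.add_right h h' (by simp [XX_bb, h1])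

theorem PP.neg {j i : ℤ} {a : F} (h : PP H u f χ j i a) (h1 : cc u f χ (j - i) = 0) :
    PP H u f χ j i (-a) := by
  rw [PP, show -a • XX u χ i = -(a • XX u χ i) by module]
  exact T1.neg_right h (by simp [XX_bb, h1])

theorem pp_zero (j i : ℤ) : PP H u f χ j i 0 := by
  rw [PP, zero_smul]; exact t1_zero_right _

/-- The elements multiplying a root set into itself. -/
def mult (S : F → Prop) (h0 : S 0) (hadd : ∀ a b, S a → S b → S (a + b))
    (hneg : ∀ a, S a → S (-a)) : Subring F where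
  carrier := {μ | ∀ a, S a → S (μ * a)}
  mul_mem' {μ ν} hμ hν a ha := by rw [mul_assoc]; exact hμ _ (hν _ ha)
  one_mem' a ha := by rwa [one_mul]
  add_mem' {μ ν} hμ hν a ha := by rw [add_mul]; exact hadd _ _ (hμ _ ha) (hν _ ha)
  zero_mem' a _ := by rwa [zero_mul]
  neg_mem' {μ} hμ a ha := by rw [neg_mul]; exact hneg _ (hμ _ ha)

/-- All quotients `g i * (g j)⁻¹` of the conjugates of the transvection `g = T(f, χ)`. -/
def Quot (H : Subgroup (V ≃ₗ[F] V)) (u : V ≃ₗ[F] V) (f : V) (χ : Dual F V) : Prop :=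
  ∀ i j : ℤ, Has H fun v => v - XX u χ j v • bb u f j +
    XX u χ i (v - XX u χ j v • bb u f j) • bb u f i

theorem PP.move (hq : Quot H u f χ) {m : ℤ} {a : F} (h : PP H u f χ m 0 a)
    (h0 : cc u f χ 0 = 0) (h1 : cc u f χ m = 0) (h2 : cc u f χ (m + 1) = 0) :
    PP H u f χ (m + 1) 0 (cc u f χ (-1) * a) := by
  obtain ⟨g, hg, e⟩ := hq (m + 1) m
  have h3 : T1 H (g (bb u f m)) (a • XX u χ 0) := T1.of_conj hg (by
    rwa [show (a • XX u χ 0) ∘ₗ (g : V →ₗ[F] V) = a • XX u χ 0 from
      LinearMap.ext fun v => by simp [e, XX_bb, h1, h2]])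
  rw [e] at h3
  have h4 := T1.sub_left h3 h (by simp [XX_bb, h1])
  simp only [XX_bb, sub_self, h0, zero_smul, sub_zero, add_sub_cancel_left, sub_add_cancel_left,
    t1_smul, smul_smul] at h4
  exact h4

section Start

variable {b0 b1 b2 : V} {x0 x1 x2 : Dual F V}

theorem start_two {x y : F} (h00 : x0 b0 = 0) (h01 : x0 b1 = 0) (h02 : x0 b2 = 0)
    (h11 : x1 b1 = 0) (h12 : x1 b2 = 0) (h22 : x2 b2 = 0) (h10 : x1 b0 = x) (h21 : x2 b1 = x)
    (h20 : x2 b0 = y) (e : Has H fun v => v - x1 v • b1 + x0 (v - x1 v • b1) • b0)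
    (e' : Has H fun v => v - x2 v • b2 + x1 (v - x2 v • b2) • b1) :
    T1 H b2 ((x * x) • x0) := by
  have a : Has H fun v => v + x0 v • b0 - x1 v • b1 :=
    e.congr fun v => by simp only [map_sub, map_smul, h01]; module
  have a' : Has H fun v => v + x1 v • b1 - x2 v • b2 :=
    e'.congr fun v => by simp only [map_sub, map_smul, h12]; module
  have i : Has H fun v => v - x0 v • b0 + (x1 v - x * x0 v) • b1 := a.inv fun v => by
    simp only [map_add, map_sub, map_smul, h00, h01, h10, h11, smul_eq_mul]; module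
  have i' : Has H fun v => v - x1 v • b1 + (x2 v - x * x1 v) • b2 := a'.inv fun v => by
    simp only [map_add, map_sub, map_smul, h11, h12, h21, h22, smul_eq_mul]; module
  have k : Has H fun v => v - (x * x0 v) • b1 + ((y + x * x) * x0 v - x * x1 v) • b2 :=
    (a.comp (a'.comp (i.comp i'))).congr fun v => by
      simp only [map_add, map_sub, map_smul, h00, h01, h02, h10, h11, h12, h20, h21, h22,
        smul_eq_mul]
      module
  have k' : Has H fun v => v + (x * x0 v) • b1 - ((y + x * x) * x0 v - x * x1 v) • b2 :=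
    k.inv fun v => by
      simp only [map_add, map_sub, map_smul, h01, h02, h11, h12, smul_eq_mul]; module
  exact (a.comp (k.comp (i.comp k'))).congr fun v => by
    simp only [map_add, map_sub, map_smul, h00, h01, h02, h10, h11, h12, smul_eq_mul,
      LinearMap.smul_apply]
    module

theorem start_one {x : F} (h2 : (2 : F) = 0) (h00 : x0 b0 = 0) (h01 : x0 b1 = 0)
    (h11 : x1 b1 = 0) (h10 : x1 b0 = x)
    (e : Has H fun v => v - x1 v • b1 + x0 (v - x1 v • b1) • b0) : T1 H b1 (x • x0) :=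
  (e.comp e).congr fun v => by
    simp only [map_add, map_sub, map_smul, h00, h01, h10, h11, smul_eq_mul, LinearMap.smul_apply]
    have : (2 : F) • (x0 v • b0 - (x1 v + x * x0 v) • b1) = 0 := by rw [h2, zero_smul]
    linear_combination (norm := module) this

end Start

/-- The core of the argument: all root groups of the window of zeros lie in `H`. -/
theorem pp_all [Finite F] (hu : u ∈ H) (hq : Quot H u f χ) (L : ℕ) (hL : 1 ≤ L)
    (hz : ∀ m : ℤ, 0 ≤ m → m ≤ L → cc u f χ m = 0) (hx : cc u f χ (-1) ≠ 0)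
    (hγ : cc u f χ (L + 1) ≠ 0) (hs : 2 ≤ L ∨ (2 : F) = 0)
    (hgen : ∀ M : Subring F, cc u f χ (L + 1) * cc u f χ (-1) ^ (L + 1) ∈ M →
      (2 ≤ L → cc u f χ (-2) / cc u f χ (-1) ^ 2 ∈ M) → M = ⊤)
    {m : ℤ} (hm : 0 ≤ m) (hmL : m ≤ L) (a : F) : PP H u f χ m 0 a := by
  set x := cc u f χ (-1) with hxd
  set γ := cc u f χ (L + 1) with hγd
  have h0 := hz 0 le_rfl (by omega)
  have up : ∀ (k m : ℕ) (a : F), m + k ≤ L → PP H u f χ m 0 a →
      PP H u f χ (m + k : ℕ) 0 (x ^ k * a) := by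
    intro k m a hk h
    induction k with
    | zero => simpa using h
    | succ k ih =>
      have := (ih (by omega)).move hq h0 (hz _ (by omega) (by omega)) (hz _ (by omega) (by omega))
      rw [pow_succ', mul_assoc]
      exact_mod_cast this
  have dn : ∀ (m : ℕ) (a b : F), m + 1 ≤ L → PP H u f χ L 0 a → PP H u f χ (m + 1 : ℕ) 0 b →
      PP H u f χ m 0 (γ * a * b) := by
    intro m a b hm h h'
    have := (h.shift hu (j' := m) (i' := m - L) (by ring)).comm h'
      (hz _ (by omega) (by omega)) (hz _ (by omega) (by omega))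
    rwa [show ((m + 1 : ℕ) : ℤ) - (m - L) = L + 1 by push_cast; ring] at this
  have hst : PP H u f χ L 0 (x ^ L) := by
    rcases hs with hs | hs
    · have h1 := hz 1 (by omega) (by omega)
      have := up (L - 2) 2 (x * x) (by omega) (start_two (b0 := bb u f 0) (b1 := bb u f 1)
        (x1 := XX u χ 1) (x2 := XX u χ 2) (y := cc u f χ (-2)) (by simpa [XX_bb]) (by simpa [XX_bb])
        (by simpa [XX_bb] using hz 2 (by omega) (by omega)) (by simpa [XX_bb]) (by simpa [XX_bb])
        (by simpa [XX_bb]) (by simp [XX_bb, hxd]) (by simp [XX_bb, hxd]) (by simp [XX_bb])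
        (hq 0 1) (hq 1 2))
      rwa [show 2 + (L - 2) = L by omega, ← sq, ← pow_add, show L - 2 + 2 = L by omega] at this
    · have := up (L - 1) 1 x (by omega) (start_one (b0 := bb u f 0) (x1 := XX u χ 1) hs
        (by simpa [XX_bb]) (by simpa [XX_bb] using hz 1 (by omega) (by omega)) (by simpa [XX_bb])
        (by simp [XX_bb, hxd]) (hq 0 1))
      rwa [show 1 + (L - 1) = L by omega, ← pow_succ, show L - 1 + 1 = L by omega] at this
  obtain ⟨L, rfl⟩ : ∃ L', L = L' + 1 := ⟨L - 1, by omega⟩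
  have hpow : ∀ k : ℕ, PP H u f χ (L + 1 : ℕ) 0 ((x * γ * x ^ (L + 1)) ^ k * x ^ (L + 1)) := by
    intro k
    induction k with
    | zero => simpa using hst
    | succ k ih =>
      convert up 1 L _ le_rfl (dn L _ _ le_rfl hst ih) using 1
      ring
  have hκ : PP H u f χ (L + 1 : ℕ) 0 (x * γ)⁻¹ := by
    have := Fintype.ofFinite F
    have h1 := FiniteField.pow_card_sub_one_eq_one (x * γ * x ^ (L + 1)) (by simp [hx, hγ])
    have h2 : 1 < Fintype.card F := Fintype.one_lt_card
    convert hpow (Fintype.card F - 2) using 1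
    rw [show Fintype.card F - 1 = Fintype.card F - 2 + 1 by omega, pow_succ] at h1
    refine (eq_inv_of_mul_eq_one_left ?_).symm
    rw [← h1]; ring
  have down : ∀ (m : ℕ) (a : F), m ≤ L + 1 → PP H u f χ m 0 (x ^ m * a) → PP H u f χ 0 0 a := by
    intro m
    induction m with
    | zero => intro a _ h; simpa using h
    | succ m ih =>
      intro a hm h
      refine ih a (by omega) ?_
      convert dn m _ _ hm hκ h using 1
      field_simp
      ring
  have h1 : PP H u f χ 0 0 1 := down _ _ le_rfl (by simpa using hst)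
  have hM := hgen (mult (PP H u f χ 0 0) (pp_zero 0 0) (fun a b ha hb => ha.add hb (by simpa))
    (fun a ha => ha.neg (by simpa))) (fun a ha => by
      have := dn 0 _ _ (by omega) (by simpa using up (L + 1) 0 a (by omega) ha)
        (up 1 0 1 (by omega) h1)
      rwa [show γ * (x ^ (L + 1) * a) * (x ^ 1 * 1) = γ * x ^ (L + 1 + 1) * a by ring] at this) (fun h2 a ha => by
      refine down 2 _ h2 ?_
      have := (ha.shift hu (j' := 2) (i' := 2) (by ring)).comm h1
        (by simpa using hz 2 (by omega) (by omega)) (by simpa)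
      rwa [show cc u f χ (0 - 2) * a * 1 = x ^ 2 * (cc u f χ (-2) / x ^ 2 * a) by
        rw [zero_sub]; field_simp] at this)
  have hall : ∀ a, PP H u f χ 0 0 a := fun a => by
    have : a ∈ mult _ _ _ _ := hM ▸ Subring.mem_top a
    simpa using this 1 h1
  lift m to ℕ using hm
  have := up m 0 ((x ^ m)⁻¹ * a) (by omega) (hall _)
  rwa [mul_inv_cancel_left₀ (pow_ne_zero _ hx), zero_add] at this

/-- The functionals all of whose multiples give transvections with centre `v` in `H`. -/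
def Dset (H : Subgroup (V ≃ₗ[F] V)) (v : V) : Submodule F (Dual F V) where
  carrier := {φ | φ v = 0 ∧ ∀ a : F, T1 H v (a • φ)}
  add_mem' {φ ψ} h h' := ⟨by simp [h.1, h'.1], fun a => by
    rw [smul_add]; exact (h.2 a).add_right (h'.2 a) (by simp [h.1])⟩
  zero_mem' := ⟨rfl, fun a => by rw [smul_zero]; exact t1_zero_right _⟩
  smul_mem' c φ h := ⟨by simp [h.1], fun a => by rw [smul_smul]; exact h.2 _⟩

theorem SLV_le_of_Dset [FiniteDimensional F V] (hu : u ∈ H)
    (hb : Submodule.span F (Set.range (bb u f)) = ⊤) (j : ℤ)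
    (h : ∀ φ : Dual F V, φ (bb u f j) = 0 → φ ∈ Dset H (bb u f j)) : SLV F V ≤ H := by
  have h1 : bb u f j ∈ Aset H := fun φ hφ => by simpa using (h φ hφ).2 1
  refine SLV_le_of_Aset (eq_top_iff.2 (hb ▸ Submodule.span_le.2 ?_))
  rintro _ ⟨k, rfl⟩
  have := Aset_apply h1 (H.zpow_mem hu (k - j))
  rwa [zpow_bb, add_sub_cancel] at this

theorem SLV_le_of_window [FiniteDimensional F V] (hu : u ∈ H) (L : ℕ) (hL : 1 ≤ L)
    (hz : ∀ m : ℤ, 0 ≤ m → m ≤ L → cc u f χ m = 0) (hx : cc u f χ (-1) ≠ 0)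
    (hγ : cc u f χ (L + 1) ≠ 0) (hp : ∀ m : ℤ, 0 ≤ m → m ≤ L → ∀ a, PP H u f χ m 0 a)
    (hb : Submodule.span F (Set.range (bb u f)) = ⊤)
    (hX : Submodule.span F ((fun j : ℕ => XX u χ (2 - j)) '' Set.Iio (L + 3)) = ⊤) :
    SLV F V ≤ H := by
  refine SLV_le_of_Dset hu hb 0 fun φ hφ => ?_
  set ψ := cc u f χ (-1) • XX u χ 2 - cc u f χ (-2) • XX u χ 1 with hψ
  have hψ0 : ψ (bb u f 0) = 0 := by simp [hψ, XX_bb, mul_comm]
  have hψD : ψ ∈ Dset H (bb u f 0) := by
    have h1 : ψ ∈ Dset H (bb u f (L + 1)) := Submodule.sub_mem _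
      (Submodule.smul_mem _ _ ⟨by rw [XX_bb]; exact hz _ (by omega) (by omega), fun a =>
        (hp (L - 1) (by omega) (by omega) a).shift hu (by ring)⟩)
      (Submodule.smul_mem _ _ ⟨by rw [XX_bb]; exact hz _ (by omega) (by omega), fun a =>
        (hp L (by omega) (by omega) a).shift hu (by ring)⟩)
    refine ⟨hψ0, fun a => ?_⟩
    have := T1.comm_left (hp 0 le_rfl (by omega) 1) (h1.2 ((cc u f χ (L + 1))⁻¹ * a))
      (by simp [hψ0]) (by simp [h1.1])
    rwa [one_smul, XX_bb, sub_zero, smul_smul, mul_inv_cancel_left₀ hγ] at this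
  have key : ∀ φ ∈ Submodule.span F ((fun j : ℕ => XX u χ (2 - j)) '' Set.Iio (L + 3)),
      ∃ a : F, φ - a • XX u χ 1 ∈ Dset H (bb u f 0) := by
    intro φ hφ
    induction hφ using Submodule.span_induction with
    | mem _ h =>
      obtain ⟨j, hj, rfl⟩ := h
      rw [Set.mem_Iio] at hj
      rcases j with _ | _ | j
      · refine ⟨cc u f χ (-2) / cc u f χ (-1), ?_⟩
        convert Submodule.smul_mem _ (cc u f χ (-1))⁻¹ hψD using 1
        simp only [hψ, smul_sub, smul_smul, inv_mul_cancel₀ hx, one_smul, div_eq_inv_mul]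
        simp
      · exact ⟨1, by simp⟩
      · refine ⟨0, ?_⟩
        rw [zero_smul, sub_zero]
        exact ⟨by rw [XX_bb]; exact hz _ (by omega) (by omega), fun a =>
          (hp j (by omega) (by omega) a).shift hu (by push_cast; ring)⟩
    | zero => exact ⟨0, by simp⟩
    | add φ φ' _ _ h h' =>
      obtain ⟨a, h⟩ := h
      obtain ⟨a', h'⟩ := h'
      exact ⟨a + a', by convert Submodule.add_mem _ h h' using 1; module⟩
    | smul c φ _ h =>
      obtain ⟨a, h⟩ := h
      exact ⟨c * a, by convert Submodule.smul_mem _ c h using 1; module⟩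
  obtain ⟨a, ha⟩ := key φ (hX ▸ Submodule.mem_top)
  have h1 := ha.1
  simp only [LinearMap.sub_apply, hφ, LinearMap.smul_apply, XX_bb, smul_eq_mul, zero_sub,
    neg_eq_zero, mul_eq_zero, hx, or_false] at h1
  simpa [h1] using ha

end Cfsg.Agent.H84.RU
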