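import Cfsg.Agent.H84.RUCore
import Cfsg.Agent.H67.Transv
import Cfsg.Agent.H67.Regular

/-!
Regular unipotent automorphisms with a cyclic vector; generation of `SL(V)` by `u` and a
conjugate of `u` by a transvection; transport to matrices.
-/

set_option autoImplicit false
set_option linter.unusedSectionVars false

namespace Cfsg.Agent.H84.RU

open Module H27 Polynomial
open scoped MatrixGroups

variable {F V : Type*} [Field F] [AddCommGroup V] [Module F V]

theorem span_pow_eq_top [FiniteDimensional F V] (T : End F V) {n : ℕ} (hN : (T - 1) ^ n = 0)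
    (hn : finrank F V = n) {w : V} (hw : ((T - 1) ^ (n - 1)) w ≠ 0) :
    Submodule.span F ((fun j : ℕ => (T ^ j) w) '' Set.Iio n) = ⊤ := by
  have h1 : ∀ i k : ℕ, i + k < n → ((T - 1) ^ i) ((T ^ k) w) ∈
      Submodule.span F ((fun j : ℕ => (T ^ j) w) '' Set.Iio n) := by
    intro i
    induction i with
    | zero => intro k hk; exact Submodule.subset_span ⟨k, by simpa using hk, rfl⟩
    | succ i ih =>
      intro k hk
      rw [pow_succ, End.mul_apply, LinearMap.sub_apply, map_sub, End.one_apply, ← End.mul_apply T,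
        ← pow_succ']
      exact Submodule.sub_mem _ (ih _ (by omega)) (ih _ (by omega))
  set U := Submodule.span F ((fun j : ℕ => ((T - 1) ^ j) w) '' Set.Iio n) with hU
  have h2 : U ≤ LinearMap.ker ((T - 1) ^ finrank F U) := by
    refine H67.invariant_le_ker_pow _ hN U fun v hv => ?_
    refine (Submodule.span_le.2 ?_ : U ≤ U.comap (T - 1)) hv
    rintro _ ⟨j, hj, rfl⟩
    change (T - 1) (((T - 1) ^ j) w) ∈ U
    rw [← End.mul_apply, ← pow_succ']
    rcases (Nat.succ_le_of_lt hj).eq_or_lt with e | e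
    · rw [show j + 1 = n from e, hN]; exact U.zero_mem
    · exact Submodule.subset_span ⟨j + 1, e, rfl⟩
  have hn0 : n ≠ 0 := by
    rintro rfl
    have := finrank_zero_iff.1 hn
    exact hw (Subsingleton.elim _ _)
  have h3 : U = ⊤ := by
    refine Submodule.eq_top_of_finrank_eq (le_antisymm (Submodule.finrank_le U) ?_)
    by_contra hc
    obtain ⟨k, hk⟩ : ∃ k, n - 1 = k + finrank F U := ⟨n - 1 - finrank F U, by omega⟩
    have := h2 (Submodule.subset_span ⟨0, Nat.pos_of_ne_zero hn0, rfl⟩)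
    rw [LinearMap.mem_ker] at this
    exact hw (by rw [hk, pow_add, End.mul_apply]; simpa using congrArg ((T - 1) ^ k : End F V) this)
  rw [eq_top_iff, ← h3]
  refine Submodule.span_le.2 ?_
  rintro _ ⟨j, hj, rfl⟩
  simpa using h1 j 0 hj

/-- `u` is regular unipotent on the `n`-dimensional space `V`, with cyclic vector `f`. -/
structure Reg (u : V ≃ₗ[F] V) (f : V) (n : ℕ) : Prop where
  fin : FiniteDimensional F V
  nil : ((u : End F V) - 1) ^ n = 0
  dim : finrank F V = n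
  cyc : (((u : End F V) - 1) ^ (n - 1)) f ≠ 0

theorem exists_reg (F : Type*) [Field F] {n : ℕ} (hn : 1 ≤ n) :
    ∃ (u : AdjoinRoot (X ^ n : F[X]) ≃ₗ[F] AdjoinRoot (X ^ n : F[X])) (f : _), Reg u f n := by
  have h0 : (X ^ n : F[X]) ≠ 0 := pow_ne_zero _ X_ne_zero
  set N : End F (AdjoinRoot (X ^ n : F[X])) := LinearMap.mulLeft F (AdjoinRoot.root _) with hN
  have h1 : ∀ k, (N ^ k) 1 = AdjoinRoot.mk _ (X ^ k) := fun k => by
    simp [hN, LinearMap.pow_mulLeft]
  have h2 : N ^ n = 0 := by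
    rw [hN, LinearMap.pow_mulLeft, ← AdjoinRoot.mk_X, ← map_pow, AdjoinRoot.mk_self]
    simp
  have h3 : IsUnit (1 + N) := IsNilpotent.isUnit_one_add ⟨n, h2⟩
  have e : ((LinearEquiv.ofBijective (1 + N) ((End.isUnit_iff _).1 h3) : _ ≃ₗ[F] _) : End F _) - 1
      = N := by ext1 x; simp
  refine ⟨LinearEquiv.ofBijective (1 + N) ((End.isUnit_iff _).1 h3), 1,
    H67.finite_adjoinRoot h0, by rw [e, h2], by rw [H67.finrank_adjoinRoot, natDegree_X_pow], ?_⟩
  rw [e, h1, Ne, AdjoinRoot.mk_eq_zero]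
  intro h
  have := natDegree_le_of_dvd h (pow_ne_zero _ X_ne_zero)
  simp only [natDegree_pow, natDegree_X] at this
  omega

variable {u : V ≃ₗ[F] V} {f : V} {χ : Dual F V} {H : Subgroup (V ≃ₗ[F] V)} {n : ℕ}

theorem bb_succ (k : ℤ) : u (bb u f k) = bb u f (k + 1) := by
  rw [← zpow_bb, zpow_one]

theorem pow_bb (k : ℤ) (j : ℕ) : ((u : End F V) ^ j) (bb u f k) = bb u f (k + j) := by
  induction j with
  | zero => simp
  | succ j ih => rw [pow_succ', End.mul_apply, ih, Nat.cast_succ, ← add_assoc, ← bb_succ]; rfl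

theorem chi_pow (m : ℕ) (k : ℤ) :
    χ ((((u : End F V) - 1) ^ m) (bb u f k)) = (fwdDiff 1)^[m] (cc u f χ) k := by
  induction m generalizing k with
  | zero => rfl
  | succ m ih =>
    rw [pow_succ, End.mul_apply, LinearMap.sub_apply, map_sub, map_sub, End.one_apply,
      LinearEquiv.coe_coe, bb_succ, ih, ih, Function.iterate_succ_apply', fwdDiff]

namespace Reg

variable (h : Reg u f n)
include h

theorem pos : 1 ≤ n := by
  by_contra hc
  have := h.fin
  have := finrank_zero_iff.1 (h.dim.trans (show n = 0 by omega))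
  exact h.cyc (Subsingleton.elim _ _)

theorem top_apply (v : V) :
    (((u : End F V) - 1) ^ (n - 1)) (u v) = (((u : End F V) - 1) ^ (n - 1)) v := by
  have := congrArg (· v) h.nil
  rwa [show n = n - 1 + 1 by have := h.pos; omega, pow_succ, End.mul_apply, LinearMap.sub_apply,
    map_sub, LinearMap.zero_apply, sub_eq_zero] at this

theorem top_zpow (k : ℤ) (v : V) :
    (((u : End F V) - 1) ^ (n - 1)) ((u ^ k) v) = (((u : End F V) - 1) ^ (n - 1)) v := by
  induction k using Int.induction_on with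
  | zero => rfl
  | succ k ih => rw [add_comm, zpow_add, zpow_one, le_mul_apply, h.top_apply, ih]
  | pred k ih => rw [← ih, ← h.top_apply, ← le_mul_apply, ← zpow_one_add]; congr 3; ring

theorem zpow_top (k : ℤ) (v : V) :
    (u ^ k) ((((u : End F V) - 1) ^ (n - 1)) v) = (((u : End F V) - 1) ^ (n - 1)) v := by
  refine (MulAction.stabilizer (V ≃ₗ[F] V) _).zpow_mem (?_ : u _ = _) k
  have := congrArg (· v) h.nil
  rwa [show n = n - 1 + 1 by have := h.pos; omega, pow_succ', End.mul_apply, LinearMap.sub_apply,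
    LinearMap.zero_apply, sub_eq_zero] at this

theorem span_window (s : ℤ) :
    Submodule.span F ((fun j : ℕ => bb u f (s + j)) '' Set.Iio n) = ⊤ := by
  have := h.fin
  simpa only [pow_bb] using span_pow_eq_top _ h.nil h.dim (w := bb u f s)
    (by rw [bb, h.top_zpow]; exact h.cyc)

theorem span_bb : Submodule.span F (Set.range (bb u f)) = ⊤ :=
  eq_top_iff.2 (h.span_window 0 ▸ Submodule.span_mono (by rintro _ ⟨j, -, rfl⟩; exact ⟨_, rfl⟩))

theorem eq_zero_of_window (s : ℤ) {φ : Dual F V} (hφ : ∀ j : ℕ, j < n → φ (bb u f (s + j)) = 0) :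
    φ = 0 :=
  LinearMap.ext_on (h.span_window s) (by rintro _ ⟨j, hj, rfl⟩; exact hφ j hj)

theorem exists_chi (s : ℤ) (a : ℕ → F) :
    ∃ χ : Dual F V, ∀ j : ℕ, j < n → cc u f χ (s + j) = a j := by
  have := h.fin
  let b := basisOfTopLeSpanOfCardEqFinrank (R := F) (fun j : Fin n => bb u f (s + (j : ℕ)))
    (h.span_window s ▸ Submodule.span_mono (by rintro _ ⟨j, hj, rfl⟩; exact ⟨⟨j, hj⟩, rfl⟩))
    (by simp [h.dim])
  refine ⟨b.constr F fun j => a j, fun j hj => ?_⟩
  have := b.constr_basis F (fun j => a j) ⟨j, hj⟩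
  rwa [coe_basisOfTopLeSpanOfCardEqFinrank] at this

theorem rel (χ : Dual F V) (k : ℤ) :
    ∑ j ∈ Finset.range (n + 1), ((-1 : ℤ) ^ (n - j) * n.choose j) • cc u f χ (k + j) = 0 := by
  have := chi_pow (u := u) (f := f) (χ := χ) n k
  rw [h.nil, fwdDiff_iter_eq_sum_shift] at this
  simpa using this.symm

theorem chi_top (χ : Dual F V) (k : ℤ) : χ ((((u : End F V) - 1) ^ (n - 1)) f) =
    ∑ j ∈ Finset.range n, ((-1 : ℤ) ^ (n - 1 - j) * (n - 1).choose j) • cc u f χ (k + j) := by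
  have := chi_pow (u := u) (f := f) (χ := χ) (n - 1) k
  rw [bb, h.top_zpow, fwdDiff_iter_eq_sum_shift, Nat.sub_add_cancel h.pos] at this
  simpa using this

theorem span_XX (hχ : χ ((((u : End F V) - 1) ^ (n - 1)) f) ≠ 0) (s : ℤ) :
    Submodule.span F ((fun j : ℕ => XX u χ (s - j)) '' Set.Iio n) = ⊤ := by
  have := h.fin
  have e : ∀ (T : End F V) (k : ℕ) (φ : Dual F V) (v : V),
      ((T.dualMap : End F (Dual F V)) ^ k) φ v = φ ((T ^ k) v) := by
    intro T k
    induction k with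
    | zero => intro φ v; rfl
    | succ k ih => intro φ v; rw [pow_succ', pow_succ, End.mul_apply, End.mul_apply, ← ih]; rfl
  have e1 : ((u : End F V).dualMap : End F (Dual F V)) - 1 = ((u : End F V) - 1).dualMap := by
    ext; simp
  have := span_pow_eq_top ((u : End F V).dualMap : End F (Dual F V)) (n := n)
    (by rw [e1]; ext φ v; simp [e, h.nil]) (by rw [Subspace.dual_finrank_eq, h.dim])
    (w := XX u χ s) (fun h0 => hχ (by
      have := congrArg (· f) h0
      simpa only [e1, e, LinearMap.zero_apply, XX_apply, h.zpow_top] using this))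
  rw [← this]
  congr 2
  ext j v
  rw [e, XX_apply, XX_apply, ← bb_zero (u := u) (f := v), pow_bb, zpow_bb, zpow_bb]
  congr 2
  ring

end Reg

/-- `SL_n(F)` is generated by two conjugate regular unipotent elements. -/
def Gen2 (F : Type*) [Field F] (n : ℕ) : Prop :=
  ∃ u g : Matrix.SpecialLinearGroup (Fin n) F, (IsNilpotent ((u : Matrix (Fin n) (Fin n) F) - 1) ∧
    ((u : Matrix (Fin n) (Fin n) F) - 1) ^ (n - 1) ≠ 0) ∧
    Subgroup.closure ({u, g * u * g⁻¹} : Set (Matrix.SpecialLinearGroup (Fin n) F)) = ⊤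

theorem Reg.gen2 (h : Reg u f n) {g : V ≃ₗ[F] V} (hg : g ∈ SLV F V)
    (hH : SLV F V ≤ Subgroup.closure {u, g * u * g⁻¹}) : Gen2 F n := by
  have := h.fin
  let b := finBasisOfFinrankEq F V h.dim
  let ι : Matrix.SpecialLinearGroup (Fin n) F →* (V ≃ₗ[F] V) :=
    (glB b : GL (Fin n) F →* _).comp Matrix.SpecialLinearGroup.toGL
  have hι : Function.Injective ι :=
    (glB b).injective.comp Matrix.SpecialLinearGroup.toGL_injective
  have hs : ∀ g ∈ SLV F V, ∃ A, ι A = g := fun g hg => by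
    obtain ⟨A, hA⟩ := (glB b).surjective g
    rw [mem_SLV, ← hA, det_glB] at hg
    exact ⟨⟨A, hg⟩, hA ▸ congrArg (glB b) (Units.ext rfl)⟩
  have e : ∀ (A : GL (Fin n) F) k, glB b A = u → ((u : End F V) - 1) ^ k =
      Matrix.toLinAlgEquiv b (((A : Matrix (Fin n) (Fin n) F) - 1) ^ k) := fun A k hA => by
    rw [map_pow, map_sub, map_one, ← hA, glB_coe]; rfl
  have hN : ∀ A : GL (Fin n) F, glB b A = u → IsNilpotent ((A : Matrix (Fin n) (Fin n) F) - 1) :=
    fun A hA => ⟨n, (Matrix.toLinAlgEquiv b).injective (by rw [← e _ _ hA, h.nil, map_zero])⟩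
  obtain ⟨A, eA⟩ := hs u (by
    obtain ⟨A, hA⟩ := (glB b).surjective u
    rw [mem_SLV, ← hA, det_glB]
    simpa using H67.det_smul_one_add_of_isNilpotent 1 (hN A hA))
  obtain ⟨B, eB⟩ := hs g hg
  refine ⟨A, B, ⟨hN _ eA, fun h0 => h.cyc ?_⟩, ?_⟩
  · rw [e _ _ eA, Matrix.SpecialLinearGroup.coe_GL_coe_matrix, h0, map_zero]; rfl
  · rw [eq_top_iff]
    intro C _
    rw [← Subgroup.mem_map_iff_mem hι, MonoidHom.map_closure, Set.image_pair, map_mul, map_mul,
      map_inv, eA, eB]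
    exact hH (mem_SLV.2 ((det_glB b _).trans C.2))

theorem quot_closure (h0 : χ f = 0) :
    Quot (Subgroup.closure {u, tv f χ h0 * u * (tv f χ h0)⁻¹}) u f χ := by
  intro i j
  have hu : u ∈ Subgroup.closure {u, tv f χ h0 * u * (tv f χ h0)⁻¹} :=
    Subgroup.subset_closure (by simp)
  have hv : tv f χ h0 * u * (tv f χ h0)⁻¹ ∈ Subgroup.closure {u, tv f χ h0 * u * (tv f χ h0)⁻¹} :=
    Subgroup.subset_closure (by simp)
  refine ⟨_, Subgroup.mul_mem _ (Subgroup.mul_mem _ (Subgroup.zpow_mem _ hu i)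
    (Subgroup.zpow_mem _ hv (j - i))) (Subgroup.zpow_mem _ hu (-j)), fun v => ?_⟩
  have e1 : ∀ w, (u ^ i) ((u ^ (j - i)) w) = (u ^ j) w := fun w => by
    rw [← le_mul_apply, ← zpow_add, add_sub_cancel]
  have e2 : ∀ w, (u ^ (j - i)) w = (u ^ (-i)) ((u ^ j) w) := fun w => by
    rw [← le_mul_apply, ← zpow_add, neg_add_eq_sub]
  have e3 : (u ^ j) ((u ^ (-j)) v) = v := by rw [← le_mul_apply, ← zpow_add]; simp
  rw [conj_zpow]
  simp only [le_mul_apply, tv_apply, tv_inv_apply, map_add, map_sub, map_smul, e1, XX_apply, bb,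
    e3]
  simp only [e2, e3]
  module

theorem Reg.gen2_of_window [Finite F] (h : Reg u f n) (L : ℕ) (hL : 1 ≤ L) (hn : n ≤ L + 3)
    (hz : ∀ m : ℤ, 0 ≤ m → m ≤ L → cc u f χ m = 0) (hx : cc u f χ (-1) ≠ 0)
    (hγ : cc u f χ (L + 1) ≠ 0) (hs : 2 ≤ L ∨ (2 : F) = 0)
    (hgen : ∀ M : Subring F, cc u f χ (L + 1) * cc u f χ (-1) ^ (L + 1) ∈ M →
      (2 ≤ L → cc u f χ (-2) / cc u f χ (-1) ^ 2 ∈ M) → M = ⊤)
    (hχ : χ ((((u : End F V) - 1) ^ (n - 1)) f) ≠ 0) : Gen2 F n := by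
  have := h.fin
  have h0 : χ f = 0 := by simpa [cc, bb_zero] using hz 0 le_rfl (by omega)
  have hu : u ∈ Subgroup.closure {u, tv f χ h0 * u * (tv f χ h0)⁻¹} :=
    Subgroup.subset_closure (by simp)
  refine h.gen2 (tv_mem_SLV f χ h0) (SLV_le_of_window hu L hL hz hx hγ
    (fun m h1 h2 => pp_all hu (quot_closure h0) L hL hz hx hγ hs hgen h1 h2) h.span_bb ?_)
  exact eq_top_iff.2 (h.span_XX hχ 2 ▸ Submodule.span_mono
    (Set.image_mono (Set.Iio_subset_Iio hn)))

/-- A functional with values `x, 0, …, 0, y` on the window starting at `-1`. -/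
theorem Reg.exists_ends (h : Reg u f (n + 2)) (x y : F) : ∃ χ : Dual F V, cc u f χ (-1) = x ∧
    (∀ m : ℤ, 0 ≤ m → m < n → cc u f χ m = 0) ∧ cc u f χ n = y ∧
    χ ((((u : End F V) - 1) ^ (n + 2 - 1)) f) = (-1) ^ (n + 1) * x + y := by
  obtain ⟨χ, hχ⟩ := h.exists_chi (-1) fun j => if j = 0 then x else if j = n + 1 then y else 0
  have h1 : cc u f χ (-1) = x := by simpa using hχ 0 (by omega)
  have h2 : ∀ m : ℤ, 0 ≤ m → m < n → cc u f χ m = 0 := fun m h0 hm => by
    lift m to ℕ using h0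
    have := hχ (m + 1) (by omega)
    rwa [if_neg (by omega), if_neg (by omega), show -1 + ((m + 1 : ℕ) : ℤ) = m by omega] at this
  have h3 : cc u f χ n = y := by simpa using hχ (n + 1) (by omega)
  refine ⟨χ, h1, h2, h3, ?_⟩
  rw [h.chi_top χ (-1), Finset.sum_range_succ, Finset.sum_range_succ', Finset.sum_eq_zero]
  · simp [h1, h3]
  · intro j hj
    rw [h2 _ (by omega) (by have := Finset.mem_range.1 hj; omega), smul_zero]

theorem exists_prim (F : Type*) [Field F] [Finite F] :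
    ∃ θ : F, θ ≠ 0 ∧ ∀ a : F, a ≠ 0 → ∃ k : ℕ, θ ^ k = a := by
  obtain ⟨θ, hθ⟩ := IsCyclic.exists_monoid_generator (α := Fˣ)
  refine ⟨θ, θ.ne_zero, fun a ha => ?_⟩
  obtain ⟨k, hk⟩ := hθ (Units.mk0 a ha)
  exact ⟨k, by simpa using congrArg Units.val hk⟩

theorem eq_top_of_prim {θ : F} (hθ : ∀ a : F, a ≠ 0 → ∃ k : ℕ, θ ^ k = a) {M : Subring F}
    (h : θ ∈ M) : M = ⊤ := by
  refine eq_top_iff.2 fun a _ => ?_
  rcases eq_or_ne a 0 with rfl | ha
  · exact M.zero_mem
  · obtain ⟨k, rfl⟩ := hθ a ha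
    exact M.pow_mem h k

/-- The extreme window. -/
theorem gen2_extreme [Finite F] {x : F} (hx : x ≠ 0) (hn : 1 ≤ n) (hs : 2 ≤ n ∨ (2 : F) = 0)
    (hgen : ∀ M : Subring F, (n = 1 → x ^ 3 ∈ M) → (n = 2 → 4 / x ∈ M) → M = ⊤) :
    Gen2 F (n + 2) := by
  obtain ⟨u, f, h⟩ := exists_reg F (n := n + 2) (by omega)
  obtain ⟨χ, h1, h2, h3, h4⟩ := h.exists_ends x 0
  have hz : ∀ m : ℤ, 0 ≤ m → m ≤ n → cc u f χ m = 0 := fun m h0 hm =>
    hm.eq_or_lt.elim (fun e => e ▸ h3) (h2 m h0)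
  refine h.gen2_of_window n hn (by omega) hz (h1 ▸ hx) (fun h0 => hx ?_) hs
    (fun M hM hM' => hgen M ?_ ?_) (by rw [h4]; simp [hx])
  · rw [← h1, cc, h.eq_zero_of_window 0 (φ := χ) fun j hj => ?_, LinearMap.zero_apply]
    rcases (Nat.lt_succ_iff.1 hj).eq_or_lt with rfl | hj
    · simpa [cc] using h0
    · exact hz _ (by omega) (by omega)
  · rintro rfl
    have := h.rel χ (-1)
    simp [Finset.sum_range_succ, h1, hz 0, hz 1] at this
    rw [h1, show cc u f χ ((1 : ℕ) + 1) = x from by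
      linear_combination (norm := (push_cast; ring_nf)) this] at hM
    convert hM using 1
    ring
  · rintro rfl
    have := h.rel χ (-2)
    simp [Finset.sum_range_succ, h1, hz 0, hz 1, hz 2] at this
    convert hM' le_rfl using 1
    rw [h1, show cc u f χ (-2) = 4 * x by linear_combination this]
    field_simp

/-- The window with one free end. -/
theorem gen2_partial [Finite F] {θ : F} (h0 : θ ≠ 0) (h1 : θ ^ 2 ≠ 1)
    (hθ : ∀ a : F, a ≠ 0 → ∃ k : ℕ, θ ^ k = a) (hn : 1 ≤ n) (hs : 2 ≤ n ∨ (2 : F) = 0) :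
    Gen2 F (n + 3) := by
  obtain ⟨u, f, h⟩ := exists_reg F (n := n + 1 + 2) (by omega)
  obtain ⟨χ, h2, h3, h4, h5⟩ := h.exists_ends 1 θ
  push_cast at h3 h4
  refine h.gen2_of_window n hn le_rfl (fun m h0 hm => h3 m h0 (by omega)) (by simp [h2])
    (h4 ▸ h0) hs (fun M hM _ => eq_top_of_prim hθ (by simpa [h2, h4] using hM)) ?_
  rw [h5, mul_one]
  intro e
  apply h1
  rw [← neg_eq_of_add_eq_zero_right e, neg_sq, ← pow_mul, mul_comm, pow_mul]
  simp

theorem gen2_of_four_le [Finite F] (hn : 4 ≤ n) : Gen2 F n := by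
  obtain ⟨θ, h0, hθ⟩ := exists_prim F
  obtain ⟨n, rfl⟩ : ∃ m, n = m + 4 := ⟨n - 4, by omega⟩
  by_cases h : n = 0 ∧ (2 : F) ≠ 0
  · obtain ⟨rfl, h2⟩ := h
    have h4 : (4 : F) ≠ 0 := by rw [show (4 : F) = 2 * 2 by norm_num]; exact mul_ne_zero h2 h2
    exact gen2_extreme (n := 2) (x := 4 / θ) (div_ne_zero h4 h0) (by omega) (Or.inl le_rfl)
      fun M _ hM => eq_top_of_prim hθ (by convert hM rfl using 1; field_simp)
  by_cases h1 : θ ^ 2 = 1
  · refine gen2_extreme (n := n + 2) one_ne_zero (by omega) (Or.inl (by omega)) fun M _ _ =>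
      eq_top_of_prim hθ ?_
    rcases mul_self_eq_one_iff.1 (sq θ ▸ h1) with rfl | rfl
    exacts [M.one_mem, M.neg_mem M.one_mem]
  · exact gen2_partial (n := n + 1) h0 h1 hθ (by omega) (by by_contra hc; exact h ⟨by omega, by tauto⟩)

end Cfsg.Agent.H84.RU
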