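import Mathlib
import Cfsg.Agent.H35.Simple
import Cfsg.Agent.H35.Orbits
import Cfsg.Agent.H83.ClassSize

/-! Groups with few Sylow `p`-subgroups. -/

set_option autoImplicit false
set_option linter.style.haveILetI false
open Subgroup MulAction

namespace Cfsg.Agent.H84

variable {G : Type*} [Group G] [Finite G] {p : ℕ} [hp : Fact p.Prime]

theorem sylow_index_eq_of_card_le (hn : Nat.card (Sylow p G) ≤ p ^ 2) {P Q : Sylow p G}
    (h : P ≠ Q) : ((Q : Subgroup G).subgroupOf P).index = p := by
  obtain ⟨k, hk⟩ := P.isPGroup'.index ((Q : Subgroup G).subgroupOf P)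
  have h1 := H35.card_orbit_sylow P.isPGroup' Q
  have h2 : orbit (P : Subgroup G) Q ⊂ Set.univ := by
    rw [Set.ssubset_univ_iff]
    intro hu
    have : P ∈ orbit (P : Subgroup G) Q := hu ▸ Set.mem_univ _
    obtain ⟨g, hg⟩ := this
    apply h
    have h3 : Q = g⁻¹ • P := by rw [eq_inv_smul_iff]; exact hg
    rw [h3]
    exact (Sylow.smul_eq_iff_mem_normalizer.2 (le_normalizer (g⁻¹).2)).symm
  have h3 := Set.ncard_lt_ncard h2
  rw [Set.ncard_univ, ← Nat.card_coe_set_eq, h1, hk] at h3
  have h4 : k < 2 := (Nat.pow_lt_pow_iff_right hp.out.one_lt).1 (h3.trans_le hn)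
  have h5 : k ≠ 0 := by
    rintro rfl
    rw [pow_zero, index_eq_one, subgroupOf_eq_top] at hk
    exact h (Sylow.ext (Q.is_maximal' P.isPGroup' (P.is_maximal' Q.isPGroup' hk).le))
  rw [hk]
  interval_cases k
  · exact absurd rfl h5
  · exact pow_one p

theorem inf_le_smul_of_card_le (hn : Nat.card (Sylow p G) ≤ p ^ 2) {P Q : Sylow p G}
    (h : P ≠ Q) {g : G} (hg : g ∈ (P : Subgroup G)) :
    (P : Subgroup G) ⊓ Q ≤ ((g • Q : Sylow p G) : Subgroup G) := by
  have h1 := sylow_index_eq_of_card_le hn h
  have hN : ((Q : Subgroup G).subgroupOf P).Normal := by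
    apply normal_of_index_eq_minFac_card
    obtain ⟨k, hk⟩ := IsPGroup.iff_card.1 P.isPGroup'
    have hk0 : k ≠ 0 := by
      rintro rfl
      have := index_dvd_card ((Q : Subgroup G).subgroupOf P)
      rw [h1, hk, pow_zero, Nat.dvd_one] at this
      exact hp.out.ne_one this
    rw [h1, hk, hp.out.pow_minFac hk0]
  rintro x ⟨hxP, hxQ⟩
  rw [Sylow.coe_subgroup_smul, mem_pointwise_smul_iff_inv_smul_mem]
  have := hN.conj_mem ⟨x, hxP⟩ hxQ (⟨g, hg⟩ : (P : Subgroup G))⁻¹
  simpa [mem_subgroupOf] using this

theorem card_inf_mul_of_card_le (hn : Nat.card (Sylow p G) ≤ p ^ 2) {P Q : Sylow p G}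
    (h : P ≠ Q) : Nat.card ((P : Subgroup G) ⊓ Q : Subgroup G) * p =
      p ^ (Nat.card G).factorization p := by
  rw [← P.card_eq_multiplicity, ← card_mul_index ((Q : Subgroup G).subgroupOf P),
    sylow_index_eq_of_card_le hn h, ← inf_subgroupOf_left,
    Nat.card_congr (subgroupOfEquivOfLe inf_le_left).toEquiv]

theorem inf_eq_of_le_of_card_le (hn : Nat.card (Sylow p G) ≤ p ^ 2) {P Q R S : Sylow p G}
    (h : P ≠ Q) (h' : R ≠ S) (hle : (P : Subgroup G) ⊓ Q ≤ (R : Subgroup G) ⊓ S) :
    (P : Subgroup G) ⊓ Q = (R : Subgroup G) ⊓ S := by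
  apply eq_of_le_of_card_ge hle
  have h1 := card_inf_mul_of_card_le hn h
  rw [← card_inf_mul_of_card_le hn h'] at h1
  exact (Nat.eq_of_mul_eq_mul_right hp.out.pos h1).ge

/-- If there are at most `p ^ 2` Sylow subgroups, the intersection of two distinct ones lies in
all of them. -/
theorem inf_le_of_card_le (hn : Nat.card (Sylow p G) ≤ p ^ 2) {P Q : Sylow p G}
    (h : P ≠ Q) (R : Sylow p G) : (P : Subgroup G) ⊓ Q ≤ R := by
  by_contra hR
  have hL : ∀ S : orbit (P : Subgroup G) Q, (P : Subgroup G) ⊓ Q ≤ (S.1 : Subgroup G) := by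
    rintro ⟨_, g, rfl⟩
    exact inf_le_smul_of_card_le hn h g.2
  have hRS : ∀ S : orbit (P : Subgroup G) Q, R ≠ S.1 := fun S e => hR (e ▸ hL S)
  have hO : ∀ (S : orbit (P : Subgroup G) Q) (T : orbit (R : Subgroup G) S.1),
      (R : Subgroup G) ⊓ S.1 ≤ (T.1 : Subgroup G) ∧ R ≠ T.1 := by
    rintro S ⟨_, g, rfl⟩
    refine ⟨inf_le_smul_of_card_le hn (hRS S) g.2, fun e => hRS S ?_⟩
    have h3 : S.1 = g⁻¹ • R := by rw [eq_inv_smul_iff]; exact e.symm
    rw [h3]
    exact (Sylow.smul_eq_iff_mem_normalizer.2 (le_normalizer (g⁻¹).2)).symm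
  let Φ : Option (Σ S : orbit (P : Subgroup G) Q, orbit (R : Subgroup G) S.1) → Sylow p G :=
    fun o => o.elim R (fun x => x.2.1)
  have hΦ : Function.Injective Φ := by
    rintro (_ | ⟨S, T⟩) (_ | ⟨S', T'⟩) e
    · rfl
    · exact absurd e (hO S' T').2
    · exact absurd e.symm (hO S T).2
    · have e : T.1 = T'.1 := e
      have hS : S = S' := by
        by_contra hne
        have hne' : S.1 ≠ S'.1 := fun e => hne (Subtype.ext e)
        have e1 := inf_eq_of_le_of_card_le hn (hRS S) (hO S T).2 (le_inf inf_le_left (hO S T).1)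
        have e2 := inf_eq_of_le_of_card_le hn (hRS S') (hO S' T').2
          (le_inf inf_le_left (hO S' T').1)
        have e3 := inf_eq_of_le_of_card_le hn h hne' (le_inf (hL S) (hL S'))
        have e4 := inf_eq_of_le_of_card_le hn (hRS S) hne'
          (le_inf inf_le_right (by rw [e1, e, ← e2]; exact inf_le_right))
        apply hR
        rw [e3, ← e4]
        exact inf_le_left
      subst hS
      rw [Subtype.ext e]
  have hc := Nat.card_le_card_of_injective Φ hΦ
  haveI := Fintype.ofFinite (orbit (P : Subgroup G) Q)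
  rw [Finite.card_option, Nat.card_sigma] at hc
  have h1 : ∀ S : orbit (P : Subgroup G) Q, Nat.card (orbit (R : Subgroup G) S.1) = p := fun S => by
    rw [H35.card_orbit_sylow R.isPGroup', sylow_index_eq_of_card_le hn (hRS S)]
  simp only [h1, Finset.sum_const, Finset.card_univ, smul_eq_mul] at hc
  rw [← Nat.card_eq_fintype_card, H35.card_orbit_sylow P.isPGroup',
    sylow_index_eq_of_card_le hn h] at hc
  nlinarith

/-- In a simple group with more than one and at most `p ^ 2` Sylow `p`-subgroups these have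
order `p`. -/
theorem card_sylow_eq_of_simple [IsSimpleGroup G] (hn : Nat.card (Sylow p G) ≤ p ^ 2)
    (hn1 : Nat.card (Sylow p G) ≠ 1) (P : Sylow p G) : Nat.card (P : Subgroup G) = p := by
  haveI : Nontrivial (Sylow p G) := by
    rw [← Finite.one_lt_card_iff_nontrivial]
    have := Nat.card_pos (α := Sylow p G)
    omega
  obtain ⟨Q, hQ⟩ := exists_ne P
  have hN : ((P : Subgroup G) ⊓ Q).Normal := by
    constructor
    intro x hx g
    have key : ∀ R : Sylow p G, g * x * g⁻¹ ∈ (R : Subgroup G) := by
      intro R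
      have := inf_le_of_card_le hn hQ.symm (g⁻¹ • R) hx
      rw [Sylow.coe_subgroup_smul, mem_pointwise_smul_iff_inv_smul_mem] at this
      simpa using this
    exact ⟨key P, key Q⟩
  have h1 := card_inf_mul_of_card_le hn hQ.symm
  rcases hN.eq_bot_or_eq_top with h | h
  · rw [h, card_bot, one_mul] at h1
    rw [P.card_eq_multiplicity, ← h1]
  · exfalso
    apply hQ
    ext1
    rw [eq_top_iff.2 (h.ge.trans inf_le_left), eq_top_iff.2 (h.ge.trans inf_le_right)]

/-- A simple group with exactly `2 p + 1` Sylow `p`-subgroups has odd order `(2p+1) p e`. -/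
theorem simple_two_mul_add_one [IsSimpleGroup G] (hp2 : p ≠ 2)
    (hn : Nat.card (Sylow p G) = 2 * p + 1) :
    ∃ e : ℕ, Nat.card G = (2 * p + 1) * p * e ∧ e ∣ p - 1 ∧ e ≠ 1 ∧ Odd e := by
  classical
  have hp3 : 3 ≤ p := by have := hp.out.two_le; omega
  obtain ⟨P⟩ : Nonempty (Sylow p G) := inferInstance
  have hP : Nat.card (P : Subgroup G) = p :=
    card_sylow_eq_of_simple (by rw [hn]; nlinarith) (by omega) P
  haveI hPc : IsCyclic (P : Subgroup G) := isCyclic_of_prime_card hP
  have hG := H35.card_normalizer_mul_card_sylow P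
  have hGpos : 0 < Nat.card (normalizer ((P : Subgroup G) : Set G)) := Nat.card_pos
  have hGbig : 2 * p + 1 ≤ Nat.card G := by rw [← hG, hn]; exact Nat.le_mul_of_pos_left _ hGpos
  have hpG : p ∣ Nat.card G := hP ▸ card_subgroup_dvd_card _
  have hPC : (P : Subgroup G) ≤ centralizer (P : Set G) := le_centralizer _
  -- the centralizer of `P` is `P`
  have hC : centralizer (P : Set G) = P := by
    by_contra hne
    have h1 : (P : Subgroup G).relIndex (centralizer (P : Set G)) ≠ 1 := by
      rw [Ne, relIndex_eq_one]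
      exact fun h => hne (le_antisymm h hPC)
    obtain ⟨r, hr, hrd⟩ := Nat.exists_prime_and_dvd h1
    have hrp : r ≠ p := by
      rintro rfl
      exact P.not_dvd_index (hrd.trans (relIndex_dvd_index_of_le hPC))
    haveI := Fact.mk hr
    obtain ⟨x, hx⟩ := exists_prime_orderOf_dvd_card' (G := centralizer (P : Set G)) r
      (hrd.trans (relIndex_dvd_card _ _))
    obtain ⟨x, hxC⟩ := x
    rw [← Subgroup.orderOf_coe] at hx
    simp only at hx
    haveI := Fintype.ofFinite (Sylow p G)
    let σ := MulAction.toPermHom G (Sylow p G)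
    have hcomm : ∀ g ∈ (P : Subgroup G), g * x = x * g := fun g hg => hxC g hg
    letI act : MulAction (P : Subgroup G) (Function.fixedPoints (σ x)) :=
      { smul := fun g Q => ⟨(g : G) • Q.1, by
          have hQ : x • Q.1 = Q.1 := Q.2
          show x • (g : G) • Q.1 = (g : G) • Q.1
          rw [← mul_smul, ← hcomm g g.2, mul_smul, hQ]⟩
        one_smul := fun Q => Subtype.ext (one_smul G Q.1)
        mul_smul := fun a b Q => Subtype.ext (mul_smul (a : G) (b : G) Q.1) }
    have hxP : x • P = P := Sylow.smul_eq_iff_mem_normalizer.2 (centralizer_le_normalizer _ hxC)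
    have hF : Nat.card (Function.fixedPoints (σ x)) ≡ 1 [MOD p] := by
      have h2 := P.isPGroup'.card_modEq_card_fixedPoints (Function.fixedPoints (σ x))
      have h3 : fixedPoints (P : Subgroup G) (Function.fixedPoints (σ x)) = {⟨P, hxP⟩} := by
        ext Q
        rw [Set.mem_singleton_iff, mem_fixedPoints]
        constructor
        · intro hQ
          have : Q.1 ∈ fixedPoints (P : Subgroup G) (Sylow p G) :=
            fun g => congrArg Subtype.val (hQ g)
          rw [P.isPGroup'.sylow_mem_fixedPoints_iff] at this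
          exact Subtype.ext (Sylow.ext (P.is_maximal' Q.1.isPGroup' this))
        · rintro rfl g
          exact Subtype.ext (Sylow.smul_eq_iff_mem_normalizer.2 (le_normalizer g.2))
      have h4 : Nat.card (fixedPoints (P : Subgroup G) (Function.fixedPoints (σ x))) = 1 := by
        rw [h3]; exact Nat.card_unique
      rwa [h4] at h2
    have hσr : σ x ^ r ^ 1 = 1 := by rw [pow_one, ← map_pow, ← hx, pow_orderOf_eq_one, map_one]
    have hF2 : Fintype.card (Sylow p G) ≡ Fintype.card (Function.fixedPoints (σ x)) [MOD r] :=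
      Equiv.Perm.card_fixedPoints_modEq (f := (σ x : Sylow p G → Sylow p G)) (n := 1) (by
        have h2 := hσr
        rw [DFunLike.ext'_iff, Equiv.Perm.coe_pow] at h2
        exact (hom_coe_pow (fun g : Function.End (Sylow p G) ↦ g) rfl (fun g h ↦ rfl)
          (σ x : Sylow p G → Sylow p G) (r ^ 1)).trans h2)
    rw [← Nat.card_eq_fintype_card, ← Nat.card_eq_fintype_card, hn] at hF2
    have hFle : Nat.card (Function.fixedPoints (σ x)) ≤ 2 * p + 1 :=
      hn ▸ Finite.card_subtype_le _
    have hcases : Nat.card (Function.fixedPoints (σ x)) = 1 ∨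
        Nat.card (Function.fixedPoints (σ x)) = p + 1 ∨
        Nat.card (Function.fixedPoints (σ x)) = 2 * p + 1 := by
      have hpos : 1 ≤ Nat.card (Function.fixedPoints (σ x)) :=
        Nat.card_pos_iff.2 ⟨⟨⟨P, hxP⟩⟩, inferInstance⟩
      obtain ⟨k, hk⟩ := (Nat.modEq_iff_dvd' hpos).1 hF.symm
      have hk3 : k < 3 := by
        by_contra hk3
        have : p * 3 ≤ p * k := Nat.mul_le_mul_left _ (by omega)
        omega
      interval_cases k <;> omega
    rcases hcases with h2 | h2 | h2
    · rw [h2] at hF2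
      have h3 : r ∣ 2 * p := by
        have := (Nat.modEq_iff_dvd' (by omega)).1 hF2.symm
        simpa using this
      have hr2 : r = 2 := by
        rcases (Nat.Prime.dvd_mul hr).1 h3 with h | h
        · exact (Nat.prime_dvd_prime_iff_eq hr Nat.prime_two).1 h
        · exact absurd ((Nat.prime_dvd_prime_iff_eq hr hp.out).1 h) hrp
      subst hr2
      have hs := Equiv.Perm.sign_of_pow_two_eq_one (σ := σ x) (by simpa using hσr)
      rw [← Nat.card_eq_fintype_card, ← Nat.card_eq_fintype_card, hn, h2,
        show (2 * p + 1 - 1) / 2 = p by omega, (hp.out.odd_of_ne_two hp2).neg_one_pow] at hs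
      rcases (MonoidHom.normal_ker (Equiv.Perm.sign.comp σ)).eq_bot_or_eq_top with h | h
      · have := Nat.card_le_card_of_injective _ ((MonoidHom.ker_eq_bot_iff _).1 h)
        rw [Nat.card_eq_fintype_card (α := ℤˣ), Fintype.card_units_int] at this
        omega
      · have : x ∈ (Equiv.Perm.sign.comp σ).ker := h ▸ mem_top _
        rw [MonoidHom.mem_ker, MonoidHom.comp_apply, hs] at this
        exact absurd this (by decide)
    · rw [h2] at hF2
      have h3 : r ∣ p := by
        have := (Nat.modEq_iff_dvd' (by omega)).1 hF2.symm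
        rwa [show 2 * p + 1 - (p + 1) = p by omega] at this
      exact hrp ((Nat.prime_dvd_prime_iff_eq hr hp.out).1 h3)
    · have h3 : Function.fixedPoints (σ x) = Set.univ := by
        apply Set.eq_of_subset_of_ncard_le (Set.subset_univ _)
        rw [Set.ncard_univ, hn, ← h2, Nat.card_coe_set_eq]
      have h4 : x ∈ σ.ker := by
        rw [MonoidHom.mem_ker]
        ext1 Q
        exact (h3 ▸ Set.mem_univ Q : Q ∈ Function.fixedPoints (σ x))
      rcases (MonoidHom.normal_ker σ).eq_bot_or_eq_top with h | h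
      · rw [h, mem_bot] at h4
        rw [h4, orderOf_one] at hx
        exact hr.ne_one hx.symm
      · have h5 : normalizer ((P : Subgroup G) : Set G) = ⊤ := by
          rw [eq_top_iff]
          intro g _
          have : g ∈ σ.ker := h ▸ mem_top _
          rw [MonoidHom.mem_ker] at this
          exact Sylow.smul_eq_iff_mem_normalizer.1 (congrArg (fun τ : Equiv.Perm _ => τ P) this)
        have h6 := P.card_eq_index_normalizer
        rw [hn] at h6
        have h7 : (normalizer ((P : Subgroup G) : Set G)).index = 1 := by rw [h5, index_top]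
        have h8 : (normalizer ((P : Subgroup G) : Set G)).index = 2 * p + 1 := h6.symm
        omega
  set e := (centralizer (P : Set G)).relIndex (normalizer (P : Set G)) with he
  have hNe : Nat.card (normalizer (P : Set G)) = p * e := by
    have h2 := ((centralizer (P : Set G)).subgroupOf (normalizer (P : Set G))).card_mul_index
    rw [Nat.card_congr (subgroupOfEquivOfLe (centralizer_le_normalizer _)).toEquiv] at h2
    rw [← h2, hC, hP, he, hC]; rfl
  have hGe : Nat.card G = (2 * p + 1) * p * e := by rw [← hG, hNe, hn]; ring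
  refine ⟨e, hGe, H35.relIndex_dvd_pred hp.out _ hP, ?_, ?_⟩
  · intro h
    rw [he, relIndex_eq_one] at h
    exact H35.not_normalizer_le_centralizer P hpG (by rw [hP]; omega) h
  · by_contra hodd
    have h2G : 2 ∣ Nat.card G := by
      rw [hGe]
      exact Dvd.dvd.mul_left (even_iff_two_dvd.1 (Nat.not_odd_iff_even.1 hodd)) _
    have hidx : ¬ 2 ∣ (normalizer (P : Set G)).index := by
      rw [← P.card_eq_index_normalizer, hn]; omega
    obtain ⟨T, hT⟩ := H83.not_dvd_index_iff.1 hidx
    have hinj : Function.Injective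
        ((P : Subgroup G).normalizerMonoidHom.comp (inclusion hT)) := by
      rw [← MonoidHom.ker_eq_bot_iff, eq_bot_iff]
      intro t ht
      have h3 : inclusion hT t ∈ (P : Subgroup G).normalizerMonoidHom.ker := ht
      rw [normalizerMonoidHom_ker, mem_subgroupOf] at h3
      have h4 : (t : G) ∈ (P : Subgroup G) := hC ▸ h3
      have h5 : (t : G) ∈ (T : Subgroup G) ⊓ P := ⟨t.2, h4⟩
      rw [disjoint_iff.1 (IsPGroup.disjoint_of_ne 2 p hp2.symm _ _ T.isPGroup' P.isPGroup'),
        mem_bot] at h5
      exact mem_bot.2 (Subtype.ext h5)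
    haveI : IsCyclic (MulAut (P : Subgroup G)) := by
      haveI : IsCyclic (ZMod (Nat.card (P : Subgroup G)))ˣ := by rw [hP]; infer_instance
      exact isCyclic_of_injective (IsCyclic.mulAutMulEquiv (P : Subgroup G)).toMonoidHom
        (MulEquiv.injective _)
    have hTc : IsCyclic (T : Subgroup G) := isCyclic_of_injective _ hinj
    have hmin : (Nat.card G).minFac = 2 := (Nat.minFac_eq_two_iff _).2 h2G
    refine H35.not_normalizer_le_centralizer T h2G ?_ (hTc.normalizer_le_centralizer hmin)
    intro h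
    obtain ⟨k, hk⟩ := IsPGroup.iff_card.1 T.isPGroup'
    rw [← h, hk] at hpG
    exact hp2 ((Nat.prime_dvd_prime_iff_eq hp.out Nat.prime_two).1 (hp.out.dvd_of_dvd_pow hpG))

end Cfsg.Agent.H84
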