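import Cfsg.Agent.H30.CDatum
import Cfsg.Agent.H79.HHCrit

/-! Intertwiners for automorphisms of an extraspecial 2-group inside its twisted group algebra. -/

set_option autoImplicit false
set_option linter.unusedSectionVars false
set_option linter.unusedVariables false

namespace Cfsg.Agent.H84.XE

open Finset

/-- `x ∈ {1, z}` -/
def Zc {F : Type*} [Group F] (z x : F) : Prop := x = 1 ∨ x = z

/-- a group with central involution `z` and all commutators in `{1, z}` -/
structure Cz {F : Type*} [Group F] (z : F) : Prop where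
  z1 : z ≠ 1
  zz : z * z = 1
  zc : ∀ x, z * x = x * z
  cm : ∀ x y : F, x * y = y * x ∨ x * y = z * (y * x)

section Grp

variable {F : Type*} [Group F] {z : F}

open Classical in
/-- the commutator sign -/
noncomputable def sg (x y : F) : ℤ := if x * y = y * x then 1 else -1

theorem sg_eq_one {x y : F} : sg x y = 1 ↔ x * y = y * x := by
  unfold sg; split_ifs with h <;> simp [h]

theorem sg_symm (x y : F) : sg x y = sg y x := by
  classical exact if_congr eq_comm rfl rfl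

theorem sg_sq (x y : F) : sg x y * sg x y = 1 := by unfold sg; split_ifs <;> simp

theorem sg_map {F' : Type*} [Group F'] (φ : F ≃* F') (x y : F) : sg (φ x) (φ y) = sg x y := by
  classical exact if_congr (by rw [← map_mul, ← map_mul, φ.injective.eq_iff]) rfl rfl

namespace Cz

variable (h : Cz z)
include h

theorem zinv : z⁻¹ = z := inv_eq_of_mul_eq_one_right h.zz

theorem Zmul {x y : F} (hx : Zc z x) (hy : Zc z y) : Zc z (x * y) := by
  rcases hx with rfl | rfl <;> rcases hy with rfl | rfl <;> simp [Zc, h.zz]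

theorem Zinv {x : F} (hx : Zc z x) : Zc z x⁻¹ := by
  rcases hx with rfl | rfl <;> simp [Zc, h.zinv]

theorem Zcomm {x : F} (hx : Zc z x) (y : F) : x * y = y * x := by
  rcases hx with rfl | rfl
  exacts [by simp, h.zc y]

theorem Zsq {x : F} (hx : Zc z x) : x * x = 1 := by
  rcases hx with rfl | rfl
  exacts [by simp, h.zz]

theorem sg_mul (x y w : F) : sg x (y * w) = sg x y * sg x w := by
  have k : ∀ a b : F, a = z * b → a ≠ b := fun a b e e' => h.z1 (by rw [e'] at e; simpa using e.symm)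
  unfold sg
  rcases h.cm x y with a | a <;> rcases h.cm x w with b | b
  · rw [if_pos a, if_pos b, if_pos (by rw [← mul_assoc, a, mul_assoc, b, mul_assoc])]; rfl
  · rw [if_pos a, if_neg (k _ _ b), if_neg (k _ _ (by
      rw [← mul_assoc, a, mul_assoc, b, ← mul_assoc, ← h.zc]; simp only [mul_assoc]))]; rfl
  · rw [if_neg (k _ _ a), if_pos b, if_neg (k _ _ (by
      rw [← mul_assoc, a, mul_assoc, mul_assoc, b]; simp only [mul_assoc]))]; rfl
  · rw [if_neg (k _ _ a), if_neg (k _ _ b), if_pos (by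
      rw [← mul_assoc, a, mul_assoc, mul_assoc, b, ← mul_assoc y, ← h.zc, mul_assoc, ← mul_assoc,
        h.zz, one_mul, mul_assoc])]; rfl

/-- the sign as a homomorphism -/
noncomputable def ch (x : F) : F →* ℤ where
  toFun := sg x
  map_one' := sg_eq_one.2 (by simp)
  map_mul' := h.sg_mul x

theorem sg_inv (x y : F) : sg x y⁻¹ = sg x y := by
  have := h.sg_mul x y⁻¹ y
  rw [inv_mul_cancel, sg_eq_one.2 (by simp)] at this
  linear_combination (-sg x y) * this - sg x y⁻¹ * sg_sq x y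

theorem conj_mem {D : Subgroup F} (hz : z ∈ D) {x : F} (hx : x ∈ D) (y : F) : y * x * y⁻¹ ∈ D := by
  rcases h.cm y x with a | a
  · rwa [a, mul_inv_cancel_right]
  · rw [a, mul_assoc, mul_inv_cancel_right]; exact mul_mem hz hx

theorem normal {D : Subgroup F} (hz : z ∈ D) : D.Normal := ⟨fun x hx y => h.conj_mem hz hx y⟩

theorem sum_Zc [Fintype F] {M : Type*} [AddCommMonoid M] (g : F → M) (hg : ∀ x, ¬ Zc z x → g x = 0) :
    ∑ x, g x = g 1 + g z := by
  classical
  rw [← sum_pair h.z1.symm]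
  exact (sum_subset (subset_univ _) fun x _ hx => hg x (by simpa [Zc] using hx)).symm

end Cz

theorem sum_sg (h : Cz z) (D : Subgroup F) [Fintype D] {x : F} (hx : ¬ ∀ d ∈ D, x * d = d * x) :
    ∑ d : D, sg x d = 0 :=
  sum_hom_units_eq_zero ((h.ch x).comp D.subtype) fun e => hx fun d hd =>
    sg_eq_one.1 (DFunLike.congr_fun e ⟨d, hd⟩)

open Classical in
/-- the normalised character -/
noncomputable def tt (z x : F) : ℤ := if x = 1 then 1 else if x = z then -1 else 0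

theorem tt_one : tt z 1 = 1 := if_pos rfl

theorem tt_zero {x : F} (hx : ¬ Zc z x) : tt z x = 0 := by
  rw [tt, if_neg fun e => hx (Or.inl e), if_neg fun e => hx (Or.inr e)]

theorem Cz.tt_z (h : Cz z) : tt z z = -1 := by rw [tt, if_neg h.z1, if_pos rfl]

theorem Cz.tt_inv (h : Cz z) (x : F) : tt z x⁻¹ = tt z x := by
  classical exact if_congr inv_eq_one rfl (if_congr (by rw [inv_eq_iff_eq_inv, h.zinv]) rfl rfl)

theorem tt_map (φ : MulAut F) (hφ : φ z = z) (x : F) : tt z (φ x) = tt z x := by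
  have : φ x = z ↔ x = z := by rw [← φ.injective.eq_iff (a := x), hφ]
  classical exact if_congr (map_eq_one_iff φ φ.injective) rfl (if_congr this rfl rfl)

end Grp

variable {F A : Type*} [Group F] [Ring A] [Algebra ℂ A]

/-- a non-degenerate group with a representation in an algebra with trace -/
structure Sys (z : F) (ρ : F →* A) (τ : A →ₗ[ℂ] ℂ) : Prop extends Cz z where
  nd : ∀ x : F, (∀ y, x * y = y * x) → Zc z x
  ρz : ρ z = -1
  tr : ∀ x y, τ (x * y) = τ (y * x)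
  t1 : τ 1 = 1

/-- the span of the image -/
abbrev Sp (ρ : F →* A) : Submodule ℂ A := Submodule.span ℂ (Set.range ρ)

theorem mem_Sp (ρ : F →* A) (f : F) : ρ f ∈ Sp ρ := Submodule.subset_span ⟨f, rfl⟩

theorem Sp_one (ρ : F →* A) : 1 ∈ Sp ρ := map_one ρ ▸ mem_Sp ρ 1

theorem Sp_mul {ρ : F →* A} {x y : A} (hx : x ∈ Sp ρ) (hy : y ∈ Sp ρ) : x * y ∈ Sp ρ := by
  induction hx, hy using Submodule.span_induction₂ with
  | mem_mem x y hx hy =>
    obtain ⟨a, rfl⟩ := hx
    obtain ⟨b, rfl⟩ := hy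
    rw [← map_mul]; exact mem_Sp _ _
  | zero_left => simp
  | zero_right => simp
  | add_left x y w _ _ _ a b => rw [add_mul]; exact add_mem a b
  | add_right x y w _ _ _ a b => rw [mul_add]; exact add_mem a b
  | smul_left c x y _ _ a => rw [smul_mul_assoc]; exact Submodule.smul_mem _ _ a
  | smul_right c x y _ _ a => rw [mul_smul_comm]; exact Submodule.smul_mem _ _ a

theorem Sp_ext {ρ : F →* A} {M : Type*} [AddCommGroup M] [Module ℂ M] (f g : A →ₗ[ℂ] M)
    (h : ∀ e, f (ρ e) = g (ρ e)) {x : A} (hx : x ∈ Sp ρ) : f x = g x :=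
  LinearMap.eqOn_span (by rintro _ ⟨e, rfl⟩; exact h e) hx

/-- `U` intertwines `φ` -/
def Int (ρ : F →* A) (φ : MulAut F) (U : A) : Prop := U ∈ Sp ρ ∧ ∀ f, U * ρ f = ρ (φ f) * U

theorem Int.mul {ρ : F →* A} {φ ψ : MulAut F} {U W : A} (a : Int ρ φ U) (b : Int ρ ψ W) :
    Int ρ (φ * ψ) (U * W) :=
  ⟨Sp_mul a.1 b.1, fun f => by rw [mul_assoc, b.2, ← mul_assoc, a.2, mul_assoc]; rfl⟩

theorem Int.smul {ρ : F →* A} {φ : MulAut F} {U : A} (a : Int ρ φ U) (c : ℂ) : Int ρ φ (c • U) :=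
  ⟨Submodule.smul_mem _ _ a.1, fun f => by rw [smul_mul_assoc, a.2, mul_smul_comm]⟩

theorem Int.star {ρ : F →* A} {φ : MulAut F} {U : A} (a : Int ρ φ U) (al : A →ₐ[ℂ] A)
    (hal : ∀ f, al (ρ f) = ρ (φ f)) {x : A} (hx : x ∈ Sp ρ) : U * x = al x * U :=
  Sp_ext (LinearMap.mulLeft ℂ U) ((LinearMap.mulRight ℂ U).comp al.toLinearMap)
    (fun e => by simp [a.2, hal]) hx

variable [Fintype F]

/-- the basic intertwiners -/
noncomputable def T (ρ : F →* A) (φ : MulAut F) (e : F) : A := ∑ f, ρ (φ f * e * f⁻¹)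

theorem T_int (ρ : F →* A) (φ : MulAut F) (e : F) : Int ρ φ (T ρ φ e) :=
  ⟨Submodule.sum_mem _ fun _ _ => mem_Sp _ _, fun f => by
    rw [T, sum_mul, mul_sum, ← Equiv.sum_comp (Equiv.mulLeft f)]
    refine sum_congr rfl fun g _ => ?_
    rw [← map_mul, ← map_mul, Equiv.coe_mulLeft, map_mul φ]
    congr 1; group⟩

theorem T_conj (ρ : F →* A) (φ ψ : MulAut F) (al : A →ₐ[ℂ] A) (hal : ∀ f, al (ρ f) = ρ (ψ f)) :
    al (T ρ φ 1) = T ρ (ψ * φ * ψ⁻¹) 1 := by
  rw [T, T, map_sum]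
  exact Fintype.sum_equiv ψ.toEquiv _ _ fun f => by rw [hal]; simp

namespace Sys

variable {z : F} {ρ : F →* A} {τ : A →ₗ[ℂ] ℂ} (h : Sys z ρ τ)
include h

theorem fixz (φ : MulAut F) : φ z = z :=
  (h.nd (φ z) fun y => by
    obtain ⟨y, rfl⟩ := φ.surjective y
    rw [← map_mul, ← map_mul, h.zc]).resolve_left fun e => h.z1 (φ.injective (e.trans φ.map_one.symm))

theorem fixZ (φ : MulAut F) {x : F} (hx : Zc z x) : φ x = x := by
  rcases hx with rfl | rfl
  exacts [map_one φ, h.fixz φ]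

theorem rho_conj (f e : F) : ρ f * ρ e * ρ f⁻¹ = (sg e f : ℂ) • ρ e := by
  rw [← map_mul, ← map_mul, sg_symm]
  unfold sg
  split_ifs with a
  · simp [a]
  · rw [(h.cm f e).resolve_left a, mul_assoc, mul_inv_cancel_right, map_mul, h.ρz]; simp

theorem tau_rho (e : F) : τ (ρ e) = tt z e := by
  by_cases a : Zc z e
  · rcases a with rfl | rfl
    · simp [tt_one, h.t1]
    · simp [h.tt_z, h.ρz, h.t1]
  · obtain ⟨f, hf⟩ := not_forall.1 fun k => a (h.nd e k)
    have k := congrArg τ (h.rho_conj f e)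
    rw [h.tr, ← mul_assoc, ← map_mul, inv_mul_cancel, map_one, one_mul, sg, if_neg hf, map_smul] at k
    rw [tt_zero a]
    push_cast at k ⊢
    linear_combination k / 2

theorem avg {x : A} (hx : x ∈ Sp ρ) :
    ∑ f, ρ f * x * ρ f⁻¹ = ((Fintype.card F : ℂ) * τ x) • (1 : A) := by
  have := Sp_ext (ρ := ρ) (∑ f, (LinearMap.mulRight ℂ (ρ f⁻¹)).comp (LinearMap.mulLeft ℂ (ρ f)))
    ((Fintype.card F : ℂ) • τ.smulRight (1 : A)) (fun e => ?_) hx
  · simpa [smul_smul] using this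
  simp only [LinearMap.sum_apply, LinearMap.comp_apply, LinearMap.mulLeft_apply,
    LinearMap.mulRight_apply, h.rho_conj, ← sum_smul, LinearMap.smul_apply,
    LinearMap.smulRight_apply, h.tau_rho]
  by_cases a : Zc z e
  · simp only [sg_eq_one.2 (h.Zcomm a _)]
    rcases a with rfl | rfl <;> simp [tt_one, h.tt_z, h.ρz]
  · have := sum_hom_units_eq_zero (h.ch e) fun k => a (h.nd e fun y =>
      sg_eq_one.1 (DFunLike.congr_fun k y))
    rw [tt_zero a, ← Int.cast_sum]
    erw [this]; simp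

theorem scalar {x : A} (hx : Int ρ 1 x) : x = τ x • 1 := by
  have k := h.avg hx.1
  have e : ∀ f, ρ f * x * ρ f⁻¹ = x := fun f => by
    rw [mul_assoc, hx.2, ← mul_assoc, ← map_mul]; simp
  simp only [e, sum_const, card_univ] at k
  rw [← Nat.cast_smul_eq_nsmul ℂ, ← smul_smul] at k
  exact smul_right_injective A (Nat.cast_ne_zero.2 Fintype.card_ne_zero) k

theorem T_mul (φ : MulAut F) (e : F) :
    T ρ φ⁻¹ e⁻¹ * T ρ φ e = ((Fintype.card F : ℂ) * τ (ρ e⁻¹ * T ρ φ e)) • 1 := by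
  rw [← h.avg (Sp_mul (mem_Sp _ _) (T_int ρ φ e).1), T, sum_mul, ← Equiv.sum_comp φ.toEquiv]
  refine sum_congr rfl fun f _ => ?_
  rw [mul_assoc (ρ f), mul_assoc (ρ e⁻¹), (T_int ρ φ e).2]
  simp [mul_assoc]

theorem exists_unit (φ : MulAut F) : ∃ U : Aˣ, Int ρ φ U ∧ (U⁻¹ : Aˣ).1 ∈ Sp ρ := by
  have c0 : (Fintype.card F : ℂ) ≠ 0 := Nat.cast_ne_zero.2 Fintype.card_ne_zero
  obtain ⟨e, he⟩ : ∃ e, τ (ρ e⁻¹ * T ρ φ e) ≠ 0 := by
    by_contra hh
    push Not at hh
    have k : ∑ e, τ (ρ e⁻¹ * T ρ φ e) = ∑ f, (Fintype.card F : ℂ) * (tt z (φ f) * tt z f⁻¹) := by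
      simp only [T, mul_sum, map_sum]
      rw [sum_comm]
      refine sum_congr rfl fun f _ => ?_
      have := congrArg (fun x => τ (ρ (φ f) * x)) (h.avg (mem_Sp ρ f⁻¹))
      simp only [mul_sum, map_sum, mul_smul_comm, mul_one, map_smul, h.tau_rho, smul_eq_mul] at this
      rw [mul_comm (tt z (φ f) : ℂ), ← mul_assoc, ← this]
      exact sum_congr rfl fun e _ => by rw [h.tr, map_mul ρ, map_mul ρ]; simp only [mul_assoc]
    rw [h.sum_Zc (fun f => (Fintype.card F : ℂ) * (tt z (φ f) * tt z f⁻¹))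
      (fun x hx => by simp [h.tt_inv, tt_zero hx])] at k
    simp only [hh, h.fixz, h.zinv, h.tt_z, tt_one, map_one, inv_one, sum_const_zero] at k
    push_cast at k
    exact c0 (by linear_combination -k / 2)
  have a := T_int ρ φ e
  have b := T_int ρ φ⁻¹ e⁻¹
  have k1 := h.T_mul φ e
  set c := (Fintype.card F : ℂ) * τ (ρ e⁻¹ * T ρ φ e)
  have k2 := h.scalar (by simpa using a.mul b)
  rw [h.tr, k1, map_smul, h.t1, smul_eq_mul, mul_one] at k2
  have hc : c ≠ 0 := mul_ne_zero c0 he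
  exact ⟨⟨T ρ φ e, c⁻¹ • T ρ φ⁻¹ e⁻¹, by rw [mul_smul_comm, k2, smul_smul, inv_mul_cancel₀ hc, one_smul],
    by rw [smul_mul_assoc, k1, smul_smul, inv_mul_cancel₀ hc, one_smul]⟩, a, (b.smul _).1⟩

theorem cyc_step {R : Type*} [Group R] (bar : R →* MulAut F) (al : R → A →ₐ[ℂ] A)
    (hal : ∀ r f, al r (ρ f) = ρ (bar r f)) (N : Subgroup R) [hN : N.Normal] (hc : IsCyclic (R ⧸ N))
    (U0 : N →* A) (h0 : ∀ n : N, Int ρ (bar n) (U0 n))
    (hi : ∀ (r : R) (n : N), al r (U0 n) = U0 ⟨r * n * r⁻¹, hN.conj_mem _ n.2 r⟩) :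
    ∃ U : R →* A, ∀ r, Int ρ (bar r) (U r) := by
  haveI : Nontrivial A := ⟨⟨1, 0, fun e => by simpa [e] using h.t1⟩⟩
  let Γ : Subgroup (R × Aˣ) :=
    { carrier := {x | Int ρ (bar x.1) x.2 ∧ (x.2⁻¹ : Aˣ).1 ∈ Sp ρ}
      one_mem' := ⟨⟨Sp_one ρ, fun f => by simp⟩, Sp_one ρ⟩
      mul_mem' := fun {x y} a b => ⟨by simpa using a.1.mul b.1, by
        simpa only [Prod.snd_mul, mul_inv_rev, Units.val_mul] using Sp_mul b.2 a.2⟩
      inv_mem' := fun {x} a => ⟨⟨a.2, fun f => by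
        have := a.1.2 (bar x.1⁻¹ f)
        rw [← MulAut.mul_apply, ← map_mul, mul_inv_cancel, map_one, MulAut.one_apply] at this
        rw [Prod.snd_inv, Prod.fst_inv, Units.inv_mul_eq_iff_eq_mul, ← mul_assoc, this,
          Units.mul_inv_cancel_right]⟩, a.1.1⟩ }
  let D : H30.CDatum N Γ :=
    { π := (MonoidHom.fst _ _).comp Γ.subtype
      ι := ((1 : ℂˣ →* R).prod (Units.map (algebraMap ℂ A : ℂ →* A))).codRestrict _ fun c =>
        ⟨⟨by simpa [Algebra.algebraMap_eq_smul_one] using Submodule.smul_mem _ c.1 (Sp_one ρ),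
          fun f => by simp [Algebra.commutes]⟩,
          by simpa [Algebra.algebraMap_eq_smul_one] using Submodule.smul_mem _ c⁻¹.1 (Sp_one ρ)⟩
      ν := (N.subtype.prod U0.toHomUnits).codRestrict _ fun n => ⟨h0 n, (h0 n⁻¹).1⟩
      π_surj := fun r => by
        obtain ⟨U, a, b⟩ := h.exists_unit (bar r)
        exact ⟨⟨(r, U), a, b⟩, rfl⟩
      ι_inj := fun c d e => Units.ext ((algebraMap ℂ A).injective
        (congrArg (fun x : Γ => (x.1.2 : A)) e))
      ι_comm := fun c γ => Subtype.ext (Prod.ext ((one_mul γ.1.1).trans (mul_one γ.1.1).symm)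
        (Units.ext (Algebra.commutes (c : ℂ) (γ.1.2 : A))))
      π_ι := fun _ => rfl
      ker_π := fun γ hγ => by
        have h1 : γ.1.1 = 1 := hγ
        have h2 := h.scalar (by simpa [h1] using γ.2.1)
        have h3 : τ γ.1.2 ≠ 0 := fun e => γ.1.2.ne_zero (by rw [h2, e, zero_smul])
        exact ⟨Units.mk0 _ h3, Subtype.ext (Prod.ext h1.symm (Units.ext
          ((Algebra.algebraMap_eq_smul_one _).trans h2.symm)))⟩
      π_ν := fun _ => rfl
      ν_conj := fun γ n => Subtype.ext (Prod.ext rfl (Units.ext (by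
        change (γ.1.2 : A) * U0 n * (γ.1.2⁻¹ : Aˣ) = U0 _
        rw [γ.2.1.star (al γ.1.1) (hal _) (h0 n).1, Units.mul_inv_cancel_right, hi]; rfl))) }
  obtain ⟨s, hs, -⟩ := D.exists_section_of_good_one (D.good_one_of_isCyclic hc)
  refine ⟨(Units.coeHom A).comp ((MonoidHom.snd _ _).comp (Γ.subtype.comp s)), fun r => ?_⟩
  have := (s r).2.1
  rwa [show (s r).1.1 = r from hs r] at this

end Sys

end Cfsg.Agent.H84.XE
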