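import Cfsg.Agent.H84.XE1
import Mathlib.RingTheory.ZMod.UnitsCyclic
import Cfsg.Agent.H2.FpfCyclic

/-! The base case: a 2-group normalising a fixed-point-free automorphism of odd prime order. -/

set_option autoImplicit false
set_option linter.unusedSectionVars false
set_option linter.unusedVariables false

namespace Cfsg.Agent.H84.XE

open Finset

variable {F A : Type*} [Group F] [Fintype F] [Ring A] [Algebra ℂ A]

/-- no fixed points modulo the centre -/
def FPF (z : F) (φ : MulAut F) : Prop := ∀ e, Zc z (φ e * e⁻¹) → Zc z e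

/-- the integer structure constant -/
noncomputable def NN (z : F) (φ ψ : MulAut F) : ℤ :=
  ∑ p : F × F, tt z (φ p.1 * p.1⁻¹ * (ψ p.2 * p.2⁻¹))

namespace Sys

variable {z : F} {ρ : F →* A} {τ : A →ₗ[ℂ] ℂ} (h : Sys z ρ τ)
include h

theorem fpf_inv {φ : MulAut F} (a : FPF z φ) : FPF z φ⁻¹ := fun e he => by
  obtain ⟨e, rfl⟩ := φ.surjective e
  have := a e (by simpa using h.Zinv he)
  rwa [h.fixZ φ this]

theorem fpf_of_pow {φ : MulAut F} {n : ℕ} (a : FPF z (φ ^ n)) : FPF z φ := fun e he => a e (by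
  clear a
  induction n with
  | zero => exact Or.inl (by simp)
  | succ n ih =>
    have := h.Zmul ih he
    rw [← h.fixZ φ ih] at this
    simpa [pow_succ', mul_assoc] using this)

theorem tau_T {φ : MulAut F} (a : FPF z φ) : τ (T ρ φ 1) = 2 := by
  simp only [T, map_sum, h.tau_rho, mul_one]
  rw [h.sum_Zc (fun f => (tt z (φ f * f⁻¹) : ℂ)) fun x hx => by simp [tt_zero fun k => hx (a x k)]]
  simp only [h.fixz, map_one, mul_inv_cancel, tt_one]
  norm_num

theorem T_inv {φ : MulAut F} (a : FPF z φ) :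
    T ρ φ⁻¹ 1 * T ρ φ 1 = ((Fintype.card F : ℂ) * 2) • 1 := by
  simpa [h.tau_T a] using h.T_mul φ 1

theorem T_T {φ ψ : MulAut F} (c : FPF z (φ * ψ)) :
    (2 : ℂ) • (T ρ φ 1 * T ρ ψ 1) = (NN z φ ψ : ℂ) • T ρ (φ * ψ) 1 := by
  have c0 : (Fintype.card F : ℂ) * 2 ≠ 0 :=
    mul_ne_zero (Nat.cast_ne_zero.2 Fintype.card_ne_zero) two_ne_zero
  have k := h.scalar (x := T ρ (φ * ψ)⁻¹ 1 * (T ρ φ 1 * T ρ ψ 1)) (by
    simpa only [inv_mul_cancel] using (T_int ρ (φ * ψ)⁻¹ 1).mul ((T_int ρ φ 1).mul (T_int ρ ψ 1)))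
  generalize τ _ = t at k
  have k1 := congrArg (T ρ (φ * ψ) 1 * ·) k
  have k2 := h.T_inv (h.fpf_inv c)
  rw [inv_inv] at k2
  simp only [← mul_assoc (T ρ (φ * ψ) 1), k2, smul_mul_assoc, one_mul, mul_smul_comm, mul_one] at k1
  have k3 : τ (T ρ φ 1 * T ρ ψ 1) = NN z φ ψ := by
    simp only [T, NN, sum_mul_sum, map_sum, ← map_mul ρ, h.tau_rho, mul_one, Fintype.sum_prod_type,
      Int.cast_sum]
  have k4 := congrArg τ k1
  rw [map_smul, map_smul, k3, h.tau_T c, smul_eq_mul, smul_eq_mul] at k4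
  refine smul_right_injective A c0 ?_
  simp only
  rw [smul_comm, k1, smul_smul, smul_smul, k4, mul_comm]

theorem NN_inv (φ ψ : MulAut F) : NN z ψ⁻¹ φ⁻¹ = NN z φ ψ :=
  (Fintype.sum_equiv ((Equiv.prodComm F F).trans (ψ.toEquiv.prodCongr φ.toEquiv)) _ _ fun p => by
    rw [← h.tt_inv]; simp [mul_assoc]).symm

theorem NN_sq {φ ψ : MulAut F} (a : FPF z φ) (b : FPF z ψ) (c : FPF z (φ * ψ)) :
    NN z φ ψ ^ 2 = 8 * Fintype.card F := by
  have c0 : (Fintype.card F : ℂ) * 2 ≠ 0 :=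
    mul_ne_zero (Nat.cast_ne_zero.2 Fintype.card_ne_zero) two_ne_zero
  have k1 := h.T_T c
  have k2 := h.T_T (φ := ψ⁻¹) (ψ := φ⁻¹) (by rw [← mul_inv_rev]; exact h.fpf_inv c)
  rw [h.NN_inv, ← mul_inv_rev] at k2
  have k3 := congrArg τ (congrArg₂ (· * ·) k2 k1)
  simp only [smul_mul_smul_comm] at k3
  rw [h.T_inv c, mul_assoc (T ρ ψ⁻¹ 1), ← mul_assoc (T ρ φ⁻¹ 1), h.T_inv a, smul_mul_assoc, one_mul,
    mul_smul_comm, h.T_inv b] at k3
  simp only [map_smul, h.t1, smul_eq_mul, mul_one] at k3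
  have : ((NN z φ ψ ^ 2 : ℤ) : ℂ) = ((8 * Fintype.card F : ℤ) : ℂ) := by
    push_cast
    exact mul_right_cancel₀ c0 (by linear_combination -k3)
  exact_mod_cast this

theorem NN_mod {a : MulAut F} {q : ℕ} (hq : 0 < q) (aq : a ^ q = 1)
    (fp : ∀ j, 0 < j → j < q → FPF z (a ^ j)) {φ ψ : MulAut F} (h1 : Commute a φ) (h2 : Commute a ψ) :
    (q : ℤ) ∣ NN z φ ψ - 4 := by
  classical
  let α : MulAut F →* Equiv.Perm (F × F) := MulAction.toPermHom _ _
  let g : F × F → ℤ := fun p => tt z (φ p.1 * p.1⁻¹ * (ψ p.2 * p.2⁻¹))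
  have hg : ∀ i p, g ((α a ^ i) p) = g p := fun i p => by
    have e1 := DFunLike.congr_fun (h1.pow_left i).eq p.1
    have e2 := DFunLike.congr_fun (h2.pow_left i).eq p.2
    rw [← map_pow]
    change tt z (φ ((a ^ i) p.1) * ((a ^ i) p.1)⁻¹ * (ψ ((a ^ i) p.2) * ((a ^ i) p.2)⁻¹)) = _
    rw [MulAut.mul_apply, MulAut.mul_apply] at e1 e2
    rw [← e1, ← e2, ← map_inv, ← map_inv, ← map_mul, ← map_mul, ← map_mul, tt_map _ (h.fixz _)]
  have k := H79.sum_mem_of_free (Ideal.span {(q : ℤ)}).toAddSubmonoid (α a) hq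
    (by rw [← map_pow, aq, map_one]) g (fun r => by
      simp only [hg, sum_const, card_range, nsmul_eq_mul]
      exact Ideal.mem_span_singleton.2 (dvd_mul_right _ _))
    (univ.filter fun p => ¬ (Zc z p.1 ∧ Zc z p.2)) fun p hp => by
      simp only [mem_filter, mem_univ, true_and] at hp ⊢
      have k : ∀ x, Zc z (a x) → Zc z x := fun x hx => by
        have := h.fixZ a⁻¹ hx
        rw [MulAut.inv_apply_self] at this
        rwa [this]
      refine ⟨fun hh => hp ⟨k _ hh.1, k _ hh.2⟩, fun i i0 iq e => hp ?_⟩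
      rw [← map_pow] at e
      have e1 : (a ^ i) p.1 = p.1 := congrArg Prod.fst e
      have e2 : (a ^ i) p.2 = p.2 := congrArg Prod.snd e
      exact ⟨fp i i0 iq _ (Or.inl (by simp [e1])), fp i i0 iq _ (Or.inl (by simp [e2]))⟩
  have k2 : ∑ p ∈ univ.filter (fun p : F × F => Zc z p.1 ∧ Zc z p.2), g p = 4 := by
    rw [sum_filter, Fintype.sum_prod_type, h.sum_Zc _ fun x hx => by simp [hx],
      h.sum_Zc _ fun x hx => by simp [hx], h.sum_Zc _ fun x hx => by simp [hx]]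
    simp [g, Zc, h.fixz, tt_one]
  rw [← k2, NN, ← sum_filter_add_sum_filter_not univ (fun p : F × F => Zc z p.1 ∧ Zc z p.2),
    add_sub_cancel_left]
  exact Ideal.mem_span_singleton.1 k

theorem base {R : Type*} [Group R] (hR : IsPGroup 2 R) (bar : R →* MulAut F) (al : R → A →ₐ[ℂ] A)
    (hal : ∀ r f, al r (ρ f) = ρ (bar r f)) {a : MulAut F} {q : ℕ} (hq : q.Prime) (q2 : q ≠ 2)
    (ha : orderOf a = q) (fp : ∀ j, ¬ q ∣ j → FPF z (a ^ j))
    (hn : ∀ r, bar r ∈ Subgroup.normalizer (Subgroup.zpowers a : Set (MulAut F))) :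
    ∃ U : R →* A, ∀ r, Int ρ (bar r) (U r) := by
  have q3 : 2 < q := lt_of_le_of_ne hq.two_le q2.symm
  have aq : a ^ q = 1 := ha ▸ pow_orderOf_eq_one a
  have nd : ∀ {j}, 0 < j → j < q → ¬ q ∣ j := fun a b => Nat.not_dvd_of_pos_of_lt a b
  let f : R →* MulAut (Subgroup.zpowers a) :=
    (Subgroup.zpowers a).normalizerMonoidHom.comp (bar.codRestrict _ hn)
  have hc : IsCyclic (R ⧸ f.ker) := by
    haveI := ZMod.isCyclic_units_prime (p := Nat.card (Subgroup.zpowers a))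
      (by rwa [Nat.card_zpowers, ha])
    exact isCyclic_of_injective ((IsCyclic.mulAutMulEquiv _).toMonoidHom.comp (QuotientGroup.kerLift f))
      ((IsCyclic.mulAutMulEquiv _).injective.comp (QuotientGroup.kerLift_injective f))
  have cm : ∀ n ∈ f.ker, Commute a (bar n) := fun n hn => by
    have := congrArg Subtype.val (DFunLike.congr_fun (MonoidHom.mem_ker.1 hn)
      ⟨a, Subgroup.mem_zpowers a⟩)
    exact (mul_inv_eq_iff_eq_mul.1 this).symm
  have fp2 : ∀ n ∈ f.ker, ∀ j, 0 < j → j < q → FPF z (bar n * a ^ j) := fun n hn j j0 jq => by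
    obtain ⟨k, hk⟩ := hR n
    refine h.fpf_of_pow (n := 2 ^ k) ?_
    rw [((cm n hn).symm.pow_right j).mul_pow, ← map_pow, hk, map_one, one_mul, ← pow_mul]
    exact fp _ fun d => ((Nat.Prime.dvd_mul hq).1 d).elim (nd j0 jq) fun d =>
      q2 ((Nat.prime_dvd_prime_iff_eq hq Nat.prime_two).1 (hq.dvd_of_dvd_pow d))
  have fa : FPF z a := by simpa using fp 1 (nd one_pos (by omega))
  have faa : FPF z (a * a) := by simpa [sq] using fp 2 (nd two_pos q3)
  have fp' : ∀ j, 0 < j → j < q → FPF z (a ^ j) := fun j a b => fp j (nd a b)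
  have n0 := h.NN_sq fa fa faa
  have n1 : (NN z a a : ℂ) ^ 2 = 8 * Fintype.card F := by exact_mod_cast n0
  have n2 : (NN z a a : ℂ) ≠ 0 := fun e => by
    rw [e] at n1
    exact Nat.cast_ne_zero.2 Fintype.card_ne_zero (by linear_combination -n1 / 8 : (Fintype.card F : ℂ) = 0)
  let S : MulAut F → A := fun φ => (2 / NN z a a : ℂ) • T ρ φ 1
  have Si : ∀ φ, Int ρ φ (S φ) := fun φ => (T_int ρ φ 1).smul _
  have S1 : ∀ {φ}, FPF z φ → S φ⁻¹ * S φ = 1 := fun {φ} a => by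
    simp only [S, smul_mul_smul_comm, h.T_inv a, smul_smul]
    rw [← one_smul ℂ (1 : A), smul_smul, mul_one]
    congr 1
    field_simp
    linear_combination -n1
  have S1' : ∀ {φ}, FPF z φ → S φ * S φ⁻¹ = 1 := fun a => by simpa using S1 (h.fpf_inv a)
  have Sm : ∀ {φ ψ}, Commute a φ → Commute a ψ → FPF z φ → FPF z ψ → FPF z (φ * ψ) →
      S φ * S ψ = S (φ * ψ) := fun {φ ψ} c1 c2 f1 f2 f3 => by
    have e : NN z φ ψ = NN z a a := by
      refine (sq_eq_sq_iff_eq_or_eq_neg.1 ((h.NN_sq f1 f2 f3).trans n0.symm)).resolve_right fun e => ?_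
      have := dvd_add (h.NN_mod hq.pos aq fp' c1 c2) (h.NN_mod hq.pos aq fp' (.refl a) (.refl a))
      rw [e, show -NN z a a - 4 + (NN z a a - 4) = -((2 ^ 3 : ℕ) : ℤ) by push_cast; ring, dvd_neg,
        Int.natCast_dvd_natCast] at this
      exact q2 ((Nat.prime_dvd_prime_iff_eq hq Nat.prime_two).1 (hq.dvd_of_dvd_pow this))
    have k := h.T_T f3
    simp only [S, smul_mul_smul_comm]
    rw [show (2 / NN z a a * (2 / NN z a a) : ℂ) = 2 / (NN z a a * NN z a a) * 2 by field_simp,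
      ← smul_smul, k, e, smul_smul]
    congr 1
    field_simp
  have Sa : ∀ n ∈ f.ker, ∀ j, 0 < j → j + 1 < q →
      S (bar n * a ^ j) * S a = S (bar n * a ^ (j + 1)) := fun n hn j j0 jq => by
    rw [Sm ((cm n hn).mul_right ((Commute.refl a).pow_right j)) (.refl a) (fp2 n hn j j0 (by omega))
      fa (by rw [mul_assoc, ← pow_succ]; exact fp2 n hn _ (by omega) jq), mul_assoc, ← pow_succ]
  have f1 : ∀ n ∈ f.ker, FPF z (bar n * a) := fun n hn => by
    simpa using fp2 n hn 1 one_pos (by omega)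
  have f2 : ∀ n ∈ f.ker, ∀ m ∈ f.ker, S (bar n * a) * S (bar m * a) = S (bar (n * m) * a) * S a := by
    intro n hn m hm
    have e : bar n * a * (bar m * a) = bar (n * m) * a ^ (1 + 1) := by
      rw [mul_assoc, ← mul_assoc a, (cm m hm).eq, map_mul, pow_add, pow_one]; simp only [mul_assoc]
    rw [Sm ((cm n hn).mul_right (.refl a)) ((cm m hm).mul_right (.refl a)) (f1 n hn) (f1 m hm)
      (e ▸ fp2 _ (mul_mem hn hm) _ two_pos q3), e, ← Sa _ (mul_mem hn hm) 1 one_pos q3, pow_one]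
  let U0 : f.ker →* A :=
    { toFun := fun n => S (bar n * a) * S a⁻¹
      map_one' := by simpa using S1' fa
      map_mul' := fun n m => by
        have e1 := f2 1 (one_mem _) m m.2
        rw [map_one, one_mul, one_mul] at e1
        have e2 : S a⁻¹ * S (bar m * a) = S (bar m * a) * S a⁻¹ := by
          rw [← mul_one (S a⁻¹ * _), ← S1' fa, mul_assoc, ← mul_assoc (S (bar m * a)), ← e1,
            ← mul_assoc, ← mul_assoc, S1 fa, one_mul]
        rw [mul_assoc, ← mul_assoc (S a⁻¹), e2, ← mul_assoc, ← mul_assoc, f2 n n.2 m m.2,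
          mul_assoc _ (S a), S1' fa, mul_one]; rfl }
  have U1 : ∀ (n : f.ker) j, j + 1 < q → S (bar n * a ^ (j + 1)) = U0 n * S (a ^ (j + 1)) := by
    intro n j
    induction j with
    | zero =>
      intro _
      change _ = S _ * S _ * _
      rw [zero_add, pow_one, mul_assoc, S1 fa, mul_one]
    | succ j ih =>
      intro jq
      have := Sa 1 (one_mem _) (j + 1) (by omega) jq
      rw [map_one, one_mul, one_mul] at this
      rw [← Sa n n.2 _ (by omega) jq, ih (by omega), mul_assoc, this]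
  refine h.cyc_step bar al hal f.ker hc U0 (fun n => ?_) fun r n => ?_
  · have := (Si (bar n * a)).mul (Si a⁻¹)
    rwa [mul_inv_cancel_right] at this
  · obtain ⟨j, jq, hj⟩ : ∃ j, j + 1 < q ∧ bar r * a * (bar r)⁻¹ = a ^ (j + 1) := by
      obtain ⟨j, hj⟩ := (mem_powers_iff_mem_zpowers.2 ((Subgroup.mem_normalizer_iff.1 (hn r) a).1
        (Subgroup.mem_zpowers a)))
      simp only at hj
      rw [← pow_mod_orderOf, ha] at hj
      have := Nat.mod_lt j hq.pos
      rcases hj0 : j % q with _ | i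
      · rw [hj0, pow_zero, eq_comm, conj_eq_one_iff] at hj
        rw [hj, orderOf_one] at ha
        omega
      · exact ⟨i, by omega, by rw [← hj, hj0]⟩
    have k : ∀ φ, al r (S φ) = S (bar r * φ * (bar r)⁻¹) := fun φ => by
      simp only [S, map_smul, T_conj ρ φ _ _ (hal r)]
    change al r (S _ * S _) = _
    rw [map_mul, k, k, ← conj_mul, ← conj_inv, hj, ← map_inv, ← map_mul, ← map_mul]
    erw [U1 ⟨r * n * r⁻¹, (inferInstance : f.ker.Normal).conj_mem _ n.2 r⟩ j jq]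
    rw [mul_assoc, S1' (fp' _ (by omega) jq), mul_one]

theorem fpf_of_odd {φ : MulAut F} {n : ℕ} (hn : Odd n) (h1 : φ ^ n = 1)
    (h2 : ∀ e, φ e = e → Zc z e) : FPF z φ := fun e he => h2 e (by
  have k : ∀ m : ℕ, (φ ^ m) e = (φ e * e⁻¹) ^ m * e := fun m => by
    induction m with
    | zero => simp
    | succ m ih => rw [pow_succ', MulAut.mul_apply, ih, map_mul, map_pow, h.fixZ φ he, pow_succ,
        mul_assoc, inv_mul_cancel_right]
  obtain ⟨m, rfl⟩ := hn
  have := k (2 * m + 1)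
  rw [h1, pow_succ, pow_mul, sq, h.Zsq he, one_pow, one_mul, inv_mul_cancel_right] at this
  exact this.symm)

theorem base2 {R : Type*} [Group R] (hR : IsPGroup 2 R) (bar : R →* MulAut F) (al : R → A →ₐ[ℂ] A)
    (hal : ∀ r f, al r (ρ f) = ρ (bar r f)) {P : Subgroup (MulAut F)} (P0 : P ≠ ⊥)
    (Pc : IsMulCommutative P) {n : ℕ} (hn : Odd n) (Pn : ∀ φ ∈ P, φ ^ n = 1)
    (Pf : ∀ φ ∈ P, φ ≠ 1 → ∀ e, φ e = e → Zc z e) (Pr : ∀ r, ∀ φ ∈ P, bar r * φ * (bar r)⁻¹ ∈ P)
    (hF : ¬ ∀ e, Zc z e) : ∃ U : R →* A, ∀ r, Int ρ (bar r) (U r) := by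
  have fp : ∀ φ ∈ P, φ ≠ 1 → FPF z φ := fun φ a b => h.fpf_of_odd hn (Pn φ a) (Pf φ a b)
  have c1 : ∀ e, MulAut.conj e = 1 → Zc z e := fun e he => h.nd e fun y =>
    mul_inv_eq_iff_eq_mul.1 (DFunLike.congr_fun he y)
  have c2 : ∀ (φ : MulAut F) e, φ * MulAut.conj e * φ⁻¹ = MulAut.conj (φ e) := fun φ e => by
    ext x; simp
  haveI : IsCyclic P := H2.isCyclic_of_fpf_of_comm (K := (MulAut.conj : F →* MulAut F).range) Pc
    (fun e => hF fun x => c1 x ((Subgroup.eq_bot_iff_forall _).1 e _ ⟨x, rfl⟩))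
    (fun φ _ => Subgroup.mem_normalizer_fintype (by rintro _ ⟨e, rfl⟩; exact ⟨_, (c2 φ e).symm⟩))
    fun φ a b => (Subgroup.eq_bot_iff_forall _).2 (by
      rintro _ ⟨⟨e, rfl⟩, he⟩
      have k := Subgroup.mem_centralizer_singleton_iff.1 he
      have := fp φ a b e (c1 _ (by rw [map_mul, ← c2, ← k, mul_inv_cancel_right, map_inv, mul_inv_cancel]))
      ext x
      simp [h.Zcomm this x])
  obtain ⟨q, hq, hd⟩ := Nat.exists_prime_and_dvd (mt Subgroup.card_eq_one.mp P0)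
  haveI := Fact.mk hq
  obtain ⟨a, ha⟩ := exists_prime_orderOf_dvd_card' q hd
  have ha' : orderOf (a : MulAut F) = q := by rw [Subgroup.orderOf_coe, ha]
  refine h.base hR bar al hal hq (fun e => ?_) ha' (fun j hj => fp _ (pow_mem a.2 j) fun e =>
    hj (ha' ▸ orderOf_dvd_of_pow_eq_one e)) fun r => Subgroup.mem_normalizer_fintype fun x hx => ?_
  · exact hn.not_two_dvd_nat (e ▸ ha' ▸ orderOf_dvd_of_pow_eq_one (Pn _ a.2))
  · letI : CommGroup P := IsCyclic.commGroup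
    have k : Subgroup.zpowers a = (powMonoidHom q : P →* P).ker :=
      Subgroup.eq_of_le_of_card_ge (Subgroup.zpowers_le.2 (ha ▸ pow_orderOf_eq_one a :)) (by
        rw [IsCyclic.card_powMonoidHom_ker, Nat.card_zpowers, ha]
        exact Nat.gcd_le_right _ hq.pos)
    obtain ⟨i, rfl⟩ := hx
    have : (⟨_, Pr r _ a.2⟩ : P) ∈ Subgroup.zpowers a := by
      rw [k]
      exact Subtype.ext (by
        change (_ : MulAut F) ^ q = 1
        rw [conj_pow, ← ha', pow_orderOf_eq_one, mul_one, mul_inv_cancel])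
    obtain ⟨j, hj⟩ := this
    simp only [← conj_zpow]
    exact zpow_mem (Subgroup.mem_zpowers_iff.2 ⟨j, congrArg Subtype.val hj⟩) i

end Sys

end Cfsg.Agent.H84.XE
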