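import Cfsg.Agent.H84.XE2

/-! Products and swaps of non-degenerate subgroups. -/

set_option autoImplicit false
set_option linter.unusedSectionVars false
set_option linter.unusedVariables false

namespace Cfsg.Agent.H84.XE

open Finset

variable {E G A : Type*} [Group E] [Finite E] [Group G] [Finite G] [MulDistribMulAction G E]
  [Ring A] [Algebra ℂ A]

/-- the global data -/
structure Top (z : E) (ρ : E →* A) (τ : A →ₗ[ℂ] ℂ) (al : G → A →ₐ[ℂ] A) : Prop extends Cz z where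
  ρz : ρ z = -1
  tr : ∀ x y, τ (x * y) = τ (y * x)
  t1 : τ 1 = 1
  hal : ∀ g e, al g (ρ e) = ρ (g • e)
  gz : ∀ g : G, g • z = z

/-- non-degenerate subgroups -/
def Nd (z : E) (F : Subgroup E) : Prop := z ∈ F ∧ ∀ x ∈ F, (∀ y ∈ F, x * y = y * x) → Zc z x

/-- commuting subgroups -/
def Cm (D D' : Subgroup E) : Prop := ∀ x ∈ D, ∀ y ∈ D', x * y = y * x

variable (G) in
/-- the stabiliser -/
def St (F : Subgroup E) : Subgroup G where
  carrier := {g | ∀ x, g • x ∈ F ↔ x ∈ F}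
  one_mem' x := by rw [one_smul]
  mul_mem' ha hb x := by rw [mul_smul, ha, hb]
  inv_mem' {a} ha x := by rw [← ha, smul_inv_smul]

theorem St.mem {F : Subgroup E} {g : G} (h : g ∈ St G F) {x : E} (hx : x ∈ F) : g • x ∈ F := (h x).2 hx

theorem le_St {F : Subgroup E} {R : Subgroup G} (h : ∀ r ∈ R, ∀ f ∈ F, r • f ∈ F) : R ≤ St G F :=
  fun r hr x => ⟨fun hx => by simpa using h _ (inv_mem hr) _ hx, h r hr x⟩

/-- the action on an invariant subgroup -/
def bar (F : Subgroup E) : St G F →* MulAut F where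
  toFun g :=
    { toFun := fun f => ⟨g.1 • f.1, St.mem g.2 f.2⟩
      invFun := fun f => ⟨g.1⁻¹ • f.1, St.mem (inv_mem g.2) f.2⟩
      left_inv := fun f => Subtype.ext (inv_smul_smul _ _)
      right_inv := fun f => Subtype.ext (smul_inv_smul _ _)
      map_mul' := fun a b => Subtype.ext (smul_mul' _ _ _) }
  map_one' := MulEquiv.ext fun f => Subtype.ext (one_smul _ _)
  map_mul' a b := MulEquiv.ext fun f => Subtype.ext (mul_smul _ _ _)

/-- translates -/
def tw (t : G) (F : Subgroup E) : Subgroup E := F.comap (MulDistribMulAction.toMonoidHom E t⁻¹)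

theorem mem_tw {t : G} {F : Subgroup E} {x : E} : x ∈ tw t F ↔ t⁻¹ • x ∈ F := Iff.rfl

theorem smul_mem_tw (t : G) {F : Subgroup E} {x : E} (h : x ∈ F) : t • x ∈ tw t F := by
  rwa [mem_tw, inv_smul_smul]

/-- fixed points -/
def Fx (B : Subgroup G) (F : Subgroup E) : Subgroup E where
  carrier := {x | x ∈ F ∧ ∀ b ∈ B, b • x = x}
  one_mem' := ⟨one_mem _, fun b _ => smul_one b⟩
  mul_mem' h1 h2 := ⟨mul_mem h1.1 h2.1, fun b hb => by rw [smul_mul', h1.2 b hb, h2.2 b hb]⟩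
  inv_mem' h := ⟨inv_mem h.1, fun b hb => by rw [smul_inv', h.2 b hb]⟩

theorem mem_Fx_sup {B B' : Subgroup G} {F : Subgroup E} {x : E} (h : x ∈ Fx B F)
    (h' : ∀ b ∈ B', b • x = x) : x ∈ Fx (B ⊔ B') F :=
  ⟨h.1, (sup_le h.2 h' : B ⊔ B' ≤ MulAction.stabilizer G x)⟩

theorem St_Fx {B L : Subgroup G} {F : Subgroup E} (h : L ≤ St G F)
    (h' : ∀ g ∈ L, ∀ b ∈ B, g * b * g⁻¹ ∈ B) : L ≤ St G (Fx B F) :=
  le_St fun g hg x hx => ⟨St.mem (h hg) hx.1, fun b hb => by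
    have := hx.2 _ (h' _ (inv_mem hg) b hb)
    rw [inv_inv, mul_smul, mul_smul, inv_smul_eq_iff] at this
    exact this⟩

theorem St_tw {K : Subgroup G} {F : Subgroup E} (h : K ≤ St G F) {t : G}
    (h' : ∀ k ∈ K, t⁻¹ * k * t ∈ K) : K ≤ St G (tw t F) :=
  le_St fun k hk x hx => by
    have := St.mem (h (h' k hk)) (mem_tw.1 hx)
    rwa [← mul_smul, mul_inv_cancel_right, mul_smul] at this

theorem St_sup {K : Subgroup G} {F F' : Subgroup E}
    (h : ∀ k ∈ K, (∀ x ∈ F, k • x ∈ F ⊔ F') ∧ ∀ x ∈ F', k • x ∈ F ⊔ F') : K ≤ St G (F ⊔ F') :=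
  le_St fun k hk => (sup_le (h k hk).1 (h k hk).2 :
    F ⊔ F' ≤ (F ⊔ F').comap (MulDistribMulAction.toMonoidHom E k))

theorem sg_smul (g : G) (x y : E) : sg (g • x) (g • y) = sg x y :=
  sg_map (MulDistribMulAction.toMulEquiv E g) x y

theorem Cm.tw {D D' : Subgroup E} (h : Cm D D') (t : G) : Cm (tw t D) (tw t D') := fun x hx y hy => by
  rw [← sg_eq_one, ← sg_smul t⁻¹, sg_eq_one]
  exact h _ hx _ hy

theorem Nd.sup {z : E} (h : Cz z) {D D' : Subgroup E} (a : Nd z D) (b : Nd z D') (c : Cm D D') :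
    Nd z (D ⊔ D') := by
  haveI := h.normal a.1
  refine ⟨Subgroup.mem_sup_left a.1, fun x hx hc => ?_⟩
  obtain ⟨u, hu, v, hv, rfl⟩ := Subgroup.mem_sup_of_normal_left.1 hx
  refine h.Zmul (a.2 u hu fun y hy => ?_) (b.2 v hv fun y hy => ?_)
  · have := hc y (Subgroup.mem_sup_left hy)
    rwa [mul_assoc, ← c y hy v hv, ← mul_assoc, ← mul_assoc, mul_left_inj] at this
  · have := hc y (Subgroup.mem_sup_right hy)
    rwa [← mul_assoc, ← c u hu y hy, mul_assoc, mul_assoc, mul_right_inj] at this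

theorem nd_finsup {z : E} (h : Cz z) {ι : Type*} (D : ι → Subgroup E) {s : Finset ι} (hs : s.Nonempty) :
    (∀ i ∈ s, Nd z (D i)) → (∀ i ∈ s, ∀ j ∈ s, D i = D j ∨ Cm (D i) (D j)) → Nd z (s.sup D) := by
  induction hs using Finset.Nonempty.cons_induction with
  | singleton i => intro a _; simpa using a
  | cons i s hi hs ih =>
    intro a b
    have k := ih (fun j hj => a j (mem_cons_of_mem hj)) fun j hj l hl =>
      b j (mem_cons_of_mem hj) l (mem_cons_of_mem hl)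
    rw [sup_cons]
    by_cases e : D i ≤ s.sup D
    · rwa [sup_eq_right.2 e]
    · refine (a i (mem_cons_self _ _)).sup h k fun x hx y hy => ?_
      refine (Finset.sup_le fun j hj => ?_ : s.sup D ≤ Subgroup.centralizer (D i)) hy x hx
      exact fun y hy x hx => (b i (mem_cons_self _ _) j (mem_cons_of_mem hj)).resolve_left
        (fun e' => e (e' ▸ le_sup hj)) x hx y hy

theorem Cz.sub {z : E} (h : Cz z) {D : Subgroup E} (hz : z ∈ D) : Cz (⟨z, hz⟩ : D) :=
  ⟨fun e => h.z1 (congrArg Subtype.val e), Subtype.ext h.zz, fun x => Subtype.ext (h.zc x),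
    fun x y => (h.cm x y).imp Subtype.ext Subtype.ext⟩

theorem Zc_sub {z : E} {D : Subgroup E} {hz : z ∈ D} {x : D} : Zc (⟨z, hz⟩ : D) x ↔ Zc z x.1 := by
  simp only [Zc, Subtype.ext_iff]; rfl

theorem Nd.split {z : E} (h : Cz z) {D F : Subgroup E} (a : Nd z D) (b : Nd z F) (c : D ≤ F) :
    D ⊔ (F ⊓ Subgroup.centralizer D) = F ∧ Nd z (F ⊓ Subgroup.centralizer D) := by
  have k : D ⊔ (F ⊓ Subgroup.centralizer D) = F := by
    refine le_antisymm (sup_le c inf_le_left) fun f hf => ?_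
    obtain ⟨d, hd⟩ : ∃ d : D, ∀ y ∈ D, d * f * y = y * (d * f) := by
      by_contra hh
      haveI := Fintype.ofFinite D
      have k1 : ∑ d : D, ∑ y : D, sg (d * f) y.1 = 0 :=
        sum_eq_zero fun d _ => sum_sg h D fun e => hh ⟨d, e⟩
      rw [sum_comm] at k1
      simp only [fun (d y : D) => sg_symm (d * f) y.1, h.sg_mul, ← sum_mul] at k1
      rw [(h.sub a.1).sum_Zc (fun y : D => (∑ d : D, sg y.1 d.1) * sg y.1 f) fun y hy => by
        rw [sum_sg h D fun e => hy (Zc_sub.2 (a.2 _ y.2 e)), zero_mul]] at k1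
      simp only [sg_eq_one.2 (h.zc _), sg_eq_one.2 (h.Zcomm (Or.inl rfl) _), OneMemClass.coe_one,
        sum_const, card_univ] at k1
      have := Fintype.card_pos (α := D)
      simp only [nsmul_eq_mul] at k1
      omega
    have := mul_mem (Subgroup.mem_sup_left (inv_mem d.2)) (Subgroup.mem_sup_right
      (S := D) (T := F ⊓ Subgroup.centralizer D) ⟨mul_mem (c d.2) hf, fun y hy => (hd y hy).symm⟩)
    rwa [inv_mul_cancel_left] at this
  refine ⟨k, ⟨b.1, fun y _ => (h.zc y).symm⟩, fun x hx hc => b.2 x hx.1 fun y hy => ?_⟩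
  rw [← k] at hy
  exact Subgroup.mem_centralizer_singleton_iff.1 ((sup_le
    (fun y hy => Subgroup.mem_centralizer_singleton_iff.2 (hx.2 y hy))
    fun y hy => Subgroup.mem_centralizer_singleton_iff.2 (hc y hy).symm :
      _ ≤ Subgroup.centralizer {x}) hy) |>.symm

variable {z : E} {ρ : E →* A} {τ : A →ₗ[ℂ] ℂ} {al : G → A →ₐ[ℂ] A}

variable (ρ) in
/-- `U` intertwines `g` on `F` -/
def IntF (F : Subgroup E) (g : G) (U : A) : Prop :=
  U ∈ Sp (ρ.comp F.subtype) ∧ ∀ f ∈ F, U * ρ f = ρ (g • f) * U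

variable (ρ) in
/-- a multiplicative family of intertwiners -/
structure LinD (F : Subgroup E) (R : Subgroup G) (U : G → A) : Prop where
  one : U 1 = 1
  mul : ∀ r ∈ R, ∀ s ∈ R, U (r * s) = U r * U s
  int : ∀ r ∈ R, IntF ρ F r (U r)

theorem lin_of {F : Subgroup E} {R : Subgroup G} (hR : R ≤ St G F)
    (h : ∃ U : R →* A, ∀ r, Int (ρ.comp F.subtype) (((bar F).comp (Subgroup.inclusion hR)) r) (U r)) :
    ∃ U, LinD ρ F R U := by
  classical
  obtain ⟨U, hU⟩ := h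
  refine ⟨fun g => if h : g ∈ R then U ⟨g, h⟩ else 1, by rw [dif_pos (one_mem _)]; exact map_one U,
    fun r hr s hs => ?_, fun r hr => ?_⟩
  · rw [dif_pos hr, dif_pos hs, dif_pos (mul_mem hr hs), ← map_mul]; rfl
  · simp only [dif_pos hr]
    exact ⟨(hU ⟨r, hr⟩).1, fun f hf => (hU ⟨r, hr⟩).2 ⟨f, hf⟩⟩

theorem Sp_mono {F F' : Subgroup E} (h : F ≤ F') : Sp (ρ.comp F.subtype) ≤ Sp (ρ.comp F'.subtype) :=
  Submodule.span_mono (by rintro _ ⟨f, rfl⟩; exact ⟨⟨f, h f.2⟩, rfl⟩)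

theorem Sp_comm {F F' : Subgroup E} (h : Cm F F') {x y : A} (hx : x ∈ Sp (ρ.comp F.subtype))
    (hy : y ∈ Sp (ρ.comp F'.subtype)) : x * y = y * x :=
  Sp_ext (ρ := ρ.comp F.subtype) (LinearMap.mulRight ℂ y) (LinearMap.mulLeft ℂ y) (fun e =>
    Sp_ext (ρ := ρ.comp F'.subtype) (LinearMap.mulLeft ℂ (ρ e)) (LinearMap.mulRight ℂ (ρ e)) (fun f => by
      change ρ e * ρ f = ρ f * ρ e
      rw [← map_mul, ← map_mul, h _ e.2 _ f.2]) hy) hx

theorem LinD.prod (h : Cz z) {F F' : Subgroup E} {R : Subgroup G} {U W : G → A} (a : LinD ρ F R U)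
    (b : LinD ρ F' R W) (hz : z ∈ F) (c : Cm F F') (hR : R ≤ St G F') :
    LinD ρ (F ⊔ F') R fun g => U g * W g where
  one := by simp only [a.one, b.one, mul_one]
  mul r hr s hs := by
    simp only [a.mul r hr s hs, b.mul r hr s hs, mul_assoc]
    rw [← mul_assoc (U s), Sp_comm c (a.int s hs).1 (b.int r hr).1, mul_assoc]
  int r hr := ⟨Sp_mul (Sp_mono le_sup_left (a.int r hr).1) (Sp_mono le_sup_right (b.int r hr).1),
    fun f hf => by
      haveI := h.normal hz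
      obtain ⟨u, hu, v, hv, rfl⟩ := Subgroup.mem_sup_of_normal_left.1 hf
      have e1 := Sp_comm c (mem_Sp _ ⟨u, hu⟩) (b.int r hr).1
      have e2 := Sp_comm c (a.int r hr).1 (mem_Sp _ ⟨_, St.mem (hR hr) hv⟩)
      change ρ u * _ = _ * ρ u at e1
      change _ * ρ (r • v) = ρ (r • v) * _ at e2
      rw [smul_mul', map_mul, map_mul, mul_assoc, ← mul_assoc (W r), ← e1, ← mul_assoc, ← mul_assoc,
        (a.int r hr).2 u hu, mul_assoc, (b.int r hr).2 v hv, mul_assoc, ← mul_assoc (U r), e2]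
      simp only [mul_assoc]⟩

namespace Top

variable (h : Top z ρ τ al)
include h

theorem sys {F : Subgroup E} [Fintype F] (a : Nd z F) : Sys (⟨z, a.1⟩ : F) (ρ.comp F.subtype) τ :=
  { h.toCz.sub a.1 with
    nd := fun x hx => Zc_sub.2 (a.2 _ x.2 fun y hy => congrArg Subtype.val (hx ⟨y, hy⟩))
    ρz := h.ρz
    tr := h.tr
    t1 := h.t1 }

theorem fixZ (g : G) {x : E} (hx : Zc z x) : g • x = x := by
  rcases hx with rfl | rfl
  exacts [smul_one g, h.gz g]

theorem Zc_smul (g : G) {x : E} (hx : Zc z (g • x)) : Zc z x := by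
  have := h.fixZ g⁻¹ hx
  rw [inv_smul_smul] at this
  rwa [this]

theorem nd_tw {F : Subgroup E} (a : Nd z F) (t : G) : Nd z (tw t F) :=
  ⟨by rw [mem_tw, h.gz]; exact a.1, fun x hx hc => h.Zc_smul t⁻¹ (a.2 _ hx fun y hy => by
    rw [← sg_eq_one, ← sg_smul t, smul_inv_smul, sg_eq_one]
    exact hc _ (smul_mem_tw t hy))⟩

theorem al_al (g g' : G) {F : Subgroup E} {x : A} (hx : x ∈ Sp (ρ.comp F.subtype)) :
    al g (al g' x) = al (g * g') x :=
  Sp_ext ((al g).comp (al g')).toLinearMap (al (g * g')).toLinearMap (fun e => by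
    simp [h.hal, mul_smul]) hx

theorem al_mem (t : G) {F : Subgroup E} {x : A} (hx : x ∈ Sp (ρ.comp F.subtype)) :
    al t x ∈ Sp (ρ.comp (tw t F).subtype) :=
  (Submodule.span_le.2 (by
    rintro _ ⟨f, rfl⟩
    have := mem_Sp (ρ.comp (tw t F).subtype) ⟨_, smul_mem_tw t f.2⟩
    exact Submodule.mem_comap.2 ((h.hal t f.1).symm ▸ this : al t (ρ f.1) ∈ _)) :
      _ ≤ (Sp (ρ.comp (tw t F).subtype)).comap (al t).toLinearMap) hx

theorem al_U {F : Subgroup E} {R : Subgroup G} {U : G → A} (a : LinD ρ F R U) {r n : G} (hr : r ∈ R)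
    (hn : n ∈ R) : al r (U n) = U (r * n * r⁻¹) := by
  have k : U r * U n = al r (U n) * U r :=
    Sp_ext (LinearMap.mulLeft ℂ (U r)) ((LinearMap.mulRight ℂ (U r)).comp (al r).toLinearMap)
      (fun e => by simpa [h.hal] using (a.int r hr).2 e e.2) (a.int n hn).1
  rw [a.mul _ (mul_mem hr hn) _ (inv_mem hr), a.mul _ hr _ hn, k, mul_assoc, ← a.mul _ hr _ (inv_mem hr),
    mul_inv_cancel, a.one, mul_one]

theorem swap {F : Subgroup E} {R R0 : Subgroup G} (hi : (R0.subgroupOf R).index = 2) (h0 : R0 ≤ R)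
    {t : G} (ht : t ∈ R) (ht0 : t ∉ R0) (a : Nd z F) (c : Cm F (tw t F)) (s0 : R0 ≤ St G F)
    (s1 : R ≤ St G (F ⊔ tw t F)) {U : G → A} (hU : LinD ρ F R0 U) :
    ∃ U, LinD ρ (F ⊔ tw t F) R U := by
  have m : ∀ {a b}, a ∈ R → b ∈ R → (a * b ∈ R0 ↔ (a ∈ R0 ↔ b ∈ R0)) := fun {a b} ha hb =>
    Subgroup.mul_mem_iff_of_index_two hi (a := ⟨a, ha⟩) (b := ⟨b, hb⟩)
  have cj : ∀ {r n}, r ∈ R → n ∈ R0 → r * n * r⁻¹ ∈ R0 := fun {r n} hr hn => by
    rw [m (mul_mem hr (h0 hn)) (inv_mem hr), m hr (h0 hn), inv_mem_iff]; tauto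
  have cj' : ∀ {n}, n ∈ R0 → t⁻¹ * n * t ∈ R0 := fun hn => by simpa using cj (inv_mem ht) hn
  have hW : LinD ρ (tw t F) R0 fun r => al t (U (t⁻¹ * r * t)) :=
    ⟨by simp [hU.one], fun r hr s hs => by
      rw [← map_mul, ← hU.mul _ (cj' hr) _ (cj' hs)]; congr 2; group,
    fun r hr => ⟨h.al_mem t (hU.int _ (cj' hr)).1, fun f hf => by
      have := congrArg (al t) ((hU.int _ (cj' hr)).2 _ (mem_tw.1 hf))
      rw [map_mul, map_mul, h.hal, h.hal, smul_inv_smul, ← mul_smul, ← mul_smul] at this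
      rw [this]; congr 3; group⟩⟩
  have hP := hU.prod h.toCz hW a.1 c (St_tw s0 fun k => cj')
  haveI := Fintype.ofFinite ↥(F ⊔ tw t F)
  haveI := Subgroup.normal_of_index_eq_two hi
  refine lin_of s1 ((h.sys (a.sup h.toCz (h.nd_tw a t) c)).cyc_step _ (fun r => al r)
    (fun r f => h.hal r f) (R0.subgroupOf R) (isCyclic_of_prime_card (p := 2) hi)
    { toFun := fun n => U n * al t (U (t⁻¹ * n * t))
      map_one' := hP.one
      map_mul' := fun n m => hP.mul _ n.2 _ m.2 }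
    (fun n => ⟨(hP.int _ n.2).1, fun f => (hP.int _ n.2).2 _ f.2⟩) fun r n => ?_)
  by_cases hr : r.1 ∈ R0
  · exact h.al_U hP hr n.2
  have r0 : t⁻¹ * r ∈ R0 := by rw [m (inv_mem ht) r.2, inv_mem_iff]; tauto
  have tt : t * t ∈ R0 := by rw [m ht ht]
  have n0 := cj (h0 r0) n.2
  have k := h.al_U hP r0 n.2
  have k2 := h.al_al t (t⁻¹ * r) (hP.int _ n.2).1
  rw [k, mul_inv_cancel_left, map_mul, h.al_al _ _ (hU.int _ (cj' n0)).1, h.al_U hU tt (cj' n0),
    ← Sp_comm c (hU.int _ (cj (h0 tt) (cj' n0))).1 (h.al_mem t (hU.int _ n0).1)] at k2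
  refine k2.symm.trans ?_
  change _ = U (r.1 * n.1.1 * r.1⁻¹) * al t (U (t⁻¹ * (r.1 * n.1.1 * r.1⁻¹) * t))
  rw [Subgroup.coe_subtype]
  congr 2
  · group
  · congr 1; group

theorem nrm {F D : Subgroup E} (a : Nd z F) {B : Subgroup G} (hB : Odd (Nat.card B)) (DF : D ≤ F)
    (BD : B ≤ St G D) {x : E} (hx : x ∈ D) :
    ∃ n ∈ Fx B D, ∀ y, (∀ b ∈ B, b • y = y) → sg y n = sg y x := by
  haveI := Fintype.ofFinite B
  let n := (univ.toList.map fun b : B => b.1 • x).prod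
  have hn : n ∈ D := list_prod_mem (by
    simp only [List.mem_map]
    rintro _ ⟨b, -, rfl⟩
    exact St.mem (BD b.2) hx)
  have k : ∀ y, sg y n = ∏ b : B, sg y (b.1 • x) := fun y => by
    have := map_list_prod (h.ch y) (univ.toList.map fun b : B => b.1 • x)
    rw [List.map_map, prod_map_toList] at this
    exact this
  refine ⟨n, ⟨hn, fun c hc => ?_⟩, fun y hy => ?_⟩
  · have k1 : Zc z (c • n * n⁻¹) := a.2 _ (DF (mul_mem (St.mem (BD hc) hn) (inv_mem hn))) fun y _ => by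
      rw [eq_comm, ← sg_eq_one, h.sg_mul, h.sg_inv, ← sg_smul c⁻¹, inv_smul_smul, k,
        Fintype.prod_equiv (Equiv.mulLeft ⟨c, hc⟩) _ (fun b : B => sg y (b.1 • x)) fun b => by
          rw [← sg_smul c, smul_inv_smul, ← mul_smul]; rfl, ← k, sg_sq]
    have k2 : ∀ m : ℕ, c ^ m • n = (c • n * n⁻¹) ^ m * n := fun m => by
      induction m with
      | zero => simp
      | succ m ih => rw [pow_succ', mul_smul, ih, smul_mul', smul_pow', h.fixZ c k1, pow_succ,
          mul_assoc, inv_mul_cancel_right]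
    obtain ⟨m, hm⟩ := hB
    have k3 : c ^ Nat.card B = 1 := congrArg Subtype.val (pow_card_eq_one' (x := (⟨c, hc⟩ : B)))
    have := k2 (2 * m + 1)
    rw [← hm, k3, hm, pow_succ, pow_mul, sq, h.Zsq k1, one_pow, one_mul, inv_mul_cancel_right,
      one_smul] at this
    exact this.symm
  · rw [k, prod_congr rfl fun b _ => show sg y (b.1 • x) = sg y x by
      rw [← sg_smul b.1 y x, hy _ b.2], prod_const, card_univ, ← Nat.card_eq_fintype_card]
    obtain ⟨m, hm⟩ := hB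
    rw [hm, pow_succ, pow_mul, sq, sg_sq, one_pow, one_mul]

theorem nd_Fx {F : Subgroup E} (a : Nd z F) {B : Subgroup G} (hB : Odd (Nat.card B))
    (BF : B ≤ St G F) : Nd z (Fx B F) :=
  ⟨⟨a.1, fun b _ => h.gz b⟩, fun x hx hc => a.2 x hx.1 fun y hy => by
    obtain ⟨n, hn, k⟩ := h.nrm a hB le_rfl BF hy
    rw [← sg_eq_one, ← k x hx.2, sg_eq_one]
    exact hc n hn⟩

end Top

end Cfsg.Agent.H84.XE
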